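import Cfsg.Agent.H312.HT.Def_mg_m3
import Cfsg.Agent.ClassicalGeometry.PSL2Basic
import Cfsg.Agent.H960.HT.Her
import Mathlib.LinearAlgebra.Charpoly.ToMatrix
import Mathlib.LinearAlgebra.Matrix.Charpoly.Coeff
import Mathlib.RingTheory.LittleWedderburn
import Mathlib.FieldTheory.Finite.Basic
import Cfsg.Agent.Lib.MatDec
import Cfsg.Agent.FastGrp
import Cfsg.Agent.Prune
set_option linter.all false

section
prune_inst 0x7ffca9f9abb8b9dfffff7e77a7d8cdfc39901fffa4dff94bbfe02bff1bff130209c563ad09e080fe4ec6c01410a87843bb7eee7fe06bdc7ffffd5ff41ffbee1ff5f7b508519488341fbc2ff683f0778e7f3fffffffffffffffffffffffffffbeffbffffffffd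

-- part: H312/HT/Bound
section
prune_inst 0x10004404062000000000000002000004c0005200000040004000840000840400080004001800010020000010001040811180000420000000a000000000400000000000020400000000010000080000000000000000000000000000000000000000000002
set_option linter.all false
open scoped Cfsg.Agent.FastGrp

-- part: H312/HT/Core
section
/-!
# `SL(2,5)` acting through `SL₂(K)`: basic consequences (helper312, S3540)
-/

set_option autoImplicit false

namespace Cfsg.Agent.H312.HT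

open Cfsg.Agent.H828.HT Cfsg.Agent.PermutationGroups.AutSL25 Matrix

universe u v

/-! ### modules over `M₂(K)` -/

section mods

variable {K : Type v} [Field K] {V : Type u} [AddCommGroup V] [Module (Matrix (Fin 2) (Fin 2) K) V]

/-- matrix units -/
abbrev eu (i k : Fin 2) : Matrix (Fin 2) (Fin 2) K := Matrix.single i k 1

theorem eu_add (v : V) : (eu 0 0 : Matrix (Fin 2) (Fin 2) K) • v + (eu 1 1 : Matrix (Fin 2) (Fin 2) K) • v = v := by
  rw [← add_smul]
  have h : (eu 0 0 : Matrix (Fin 2) (Fin 2) K) + eu 1 1 = 1 := by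
    ext i k
    (revert i k; simp only [Matrix.single, _root_.Fin.forall_fin_succ, Fin.isValue, _root_.Matrix.add_apply, _root_.Matrix.of_apply, _root_.and_true, _root_.one_ne_zero, _root_.and_false, ↓reduceIte, _root_.add_zero, _root_.Fin.succ_zero_eq_one, _root_.zero_ne_one, _root_.zero_add, _root_.IsEmpty.forall_iff, _root_.Matrix.one_apply_eq, Nat.reduceAdd, _root_.ne_eq, _root_.not_false_eq_true, _root_.Matrix.one_apply_ne, _root_.and_self, _root_.Fin.succ_ne_zero, _root_.ite_eq_right_iff, _root_.imp_false])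
  rw [h, one_smul]

theorem faithful (hV : ∃ v : V, v ≠ 0) {M : Matrix (Fin 2) (Fin 2) K} (hM : ∀ v : V, M • v = 0) : M = 0 := by
  by_contra hne
  obtain ⟨i, k, hik⟩ : ∃ i k, M i k ≠ 0 := by
    by_contra hcon
    push Not at hcon
    exact hne (Matrix.ext hcon)
  obtain ⟨v, hv⟩ := hV
  apply hv
  have key : ∀ a : Fin 2, (eu a a : Matrix (Fin 2) (Fin 2) K) • v = 0 := by
    intro a
    have h1 : (eu a a : Matrix (Fin 2) (Fin 2) K) = (M i k)⁻¹ • (Matrix.single a i 1 * M * Matrix.single k a 1) := by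
      rw [Matrix.single_mul_mul_single, one_mul, mul_one, Matrix.smul_single, smul_eq_mul, inv_mul_cancel₀ hik]
    have h2 : (M i k)⁻¹ • (Matrix.single a i 1 * M * Matrix.single k a (1 : K)) =
        (Matrix.single a i (M i k)⁻¹) * (M * Matrix.single k a 1) := by
      rw [mul_assoc, ← Matrix.smul_mul, Matrix.smul_single, smul_eq_mul, mul_one]
    rw [h1, h2, mul_smul, mul_smul, hM, smul_zero]
  rw [← eu_add (K := K) v, key 0, key 1, add_zero]

end mods

section setup

variable {p : ℕ} [Fact p.Prime] {V : Type u} [AddCommGroup V] [Module (ZMod p) V]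
  {G : Subgroup (V ≃ₗ[ZMod p] V)} {K : Type v} [Field K] [Module (Matrix (Fin 2) (Fin 2) K) V]
  {j : SL25 →* Matrix.SpecialLinearGroup (Fin 2) K} {l : SL25 →* (V ≃ₗ[ZMod p] V)}

theorem mem_AA {α : V ≃ₗ[ZMod p] V} : α ∈ AA G l ↔ α ∈ G ∧ ∀ x, l x * α = α * l x := by
  rw [AA, Subgroup.mem_inf, Subgroup.mem_centralizer_iff]
  simp only [_root_.Set.mem_range, _root_.forall_exists_index, _root_.forall_apply_eq_imp_iff]

namespace SetupQ

variable (hS : SetupQ G K j l)

include hS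

/-- a property of matrices which is additive and holds for `j x` -/
theorem induction {P : Matrix (Fin 2) (Fin 2) K → Prop} (h1 : ∀ x, P (j x : Matrix (Fin 2) (Fin 2) K)) (h0 : P 0)
    (ha : ∀ M N, P M → P N → P (M + N)) (hn : ∀ M, P M → P (-M)) (M : Matrix (Fin 2) (Fin 2) K) : P M := by
  have hM : M ∈ AddSubgroup.closure (Set.range fun x => (j x : Matrix (Fin 2) (Fin 2) K)) := by
    rw [hS.span]; trivial
  induction hM using AddSubgroup.closure_induction with
  | mem x hx => obtain ⟨y, rfl⟩ := hx; exact h1 y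
  | zero => exact h0
  | add x y _ _ h1 h2 => exact ha _ _ h1 h2
  | neg x _ h => exact hn _ h

theorem comm_smul {α : V ≃ₗ[ZMod p] V} (hα : α ∈ AA G l) (M : Matrix (Fin 2) (Fin 2) K) (v : V) :
    α (M • v) = M • α v := by
  revert v
  refine hS.induction (P := fun M => ∀ v, α (M • v) = M • α v) ?_ ?_ ?_ ?_ M
  · intro x v
    rw [← hS.act, ← hS.act]
    have := (mem_AA.1 hα).2 x
    exact (DFunLike.congr_fun this v).symm
  · intro v; rw [zero_smul, zero_smul, map_zero]
  · intro M N h1 h2 v; rw [add_smul, add_smul, map_add, h1, h2]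
  · intro M h v; rw [neg_smul, neg_smul, map_neg, h]

theorem l_inj : Function.Injective l := by
  rw [injective_iff_map_eq_one]
  intro x hx
  have h1 : (j x : Matrix (Fin 2) (Fin 2) K) - 1 = 0 := by
    refine faithful (V := V) hS.nontriv fun v => ?_
    rw [sub_smul, one_smul, ← hS.act, hx]
    simp
  have h2 : j x = 1 := Subtype.ext (sub_eq_zero.1 h1)
  exact hS.jinj (by rw [h2, map_one])

theorem j_neg : j (-1) = -1 := by
  have h1 : j (-1) * j (-1) = 1 := by rw [← map_mul]; simp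
  have h2 : j (-1) ≠ 1 := fun h => neg_one_ne (hS.jinj (by rw [h, map_one]))
  set M := j (-1) with hM
  have hdet := M.2
  rw [Matrix.det_fin_two] at hdet
  have hmul : (M : Matrix (Fin 2) (Fin 2) K) * M = 1 := congrArg Subtype.val h1
  have e00 := congrFun (congrFun hmul 0) 0
  have e01 := congrFun (congrFun hmul 0) 1
  have e10 := congrFun (congrFun hmul 1) 0
  have e11 := congrFun (congrFun hmul 1) 1
  simp only [Matrix.mul_apply, Fin.sum_univ_two, _root_.Fin.isValue, _root_.Matrix.one_apply_eq, _root_.ne_eq, _root_.zero_ne_one, _root_.not_false_eq_true, _root_.Matrix.one_apply_ne, _root_.one_ne_zero] at e00 e01 e10 e11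
  have h2K : (2 : K) ≠ 0 := by
    have := hS.char
    have h7 := hS.p7
    intro h
    have h3 : ((2 : ℕ) : K) = 0 := by exact_mod_cast h
    rw [CharP.cast_eq_zero_iff K p] at h3
    have := Nat.le_of_dvd (by norm_num) h3
    omega
  -- the trace
  have htr : (M 0 0 + M 1 1) * (M 0 0) = 2 := by linear_combination e00 + hdet
  have htr2 : (M 0 0 + M 1 1) * (M 1 1) = 2 := by linear_combination e11 + hdet
  have htr0 : M 0 0 + M 1 1 ≠ 0 := by
    intro h
    rw [h, zero_mul] at htr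
    exact h2K htr.symm
  have hb : M 0 1 = 0 := by
    have : (M 0 0 + M 1 1) * M 0 1 = 0 := by linear_combination e01
    exact (mul_eq_zero.1 this).resolve_left htr0
  have hc : M 1 0 = 0 := by
    have : (M 0 0 + M 1 1) * M 1 0 = 0 := by linear_combination e10
    exact (mul_eq_zero.1 this).resolve_left htr0
  have had : M 0 0 = M 1 1 := by
    have : (M 0 0 + M 1 1) * (M 0 0 - M 1 1) = 0 := by linear_combination htr - htr2
    exact sub_eq_zero.1 ((mul_eq_zero.1 this).resolve_left htr0)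
  have hsq : (M 0 0 - 1) * (M 0 0 + 1) = 0 := by
    rw [hb, zero_mul, add_zero] at e00
    linear_combination e00
  rcases mul_eq_zero.1 hsq with h | h
  · exfalso
    apply h2
    apply Subtype.ext
    ext i k
    fin_cases i <;> fin_cases k
    · simpa only [sub_eq_zero, _root_.Fin.zero_eta, _root_.Fin.isValue, _root_.Matrix.SpecialLinearGroup.coe_one, _root_.Matrix.one_apply_eq] using h
    · simpa only [_root_.Fin.zero_eta, _root_.Fin.isValue, _root_.Fin.mk_one, _root_.Matrix.SpecialLinearGroup.coe_one, _root_.Nat.reduceAdd, _root_.ne_eq, _root_.zero_ne_one, _root_.not_false_eq_true, _root_.Matrix.one_apply_ne] using hb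
    · simpa only [_root_.Fin.mk_one, _root_.Fin.isValue, _root_.Fin.zero_eta, _root_.Matrix.SpecialLinearGroup.coe_one, _root_.Nat.reduceAdd, _root_.ne_eq, _root_.one_ne_zero, _root_.not_false_eq_true, _root_.Matrix.one_apply_ne] using hc
    · simpa only [sub_eq_zero, had, _root_.Fin.mk_one, _root_.Fin.isValue, _root_.Matrix.SpecialLinearGroup.coe_one, _root_.Matrix.one_apply_eq] using h
  · apply Subtype.ext
    ext i k
    fin_cases i <;> fin_cases k
    · simpa using eq_neg_of_add_eq_zero_left h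
    · simpa only [_root_.Fin.zero_eta, _root_.Fin.isValue, _root_.Fin.mk_one, _root_.Matrix.SpecialLinearGroup.coe_neg, _root_.Matrix.SpecialLinearGroup.coe_one, _root_.Matrix.neg_apply, _root_.Nat.reduceAdd, _root_.ne_eq, _root_.zero_ne_one, _root_.not_false_eq_true, _root_.Matrix.one_apply_ne, _root_.neg_zero] using hb
    · simpa using hc
    · have : M 1 1 = -1 := by rw [← had]; exact eq_neg_of_add_eq_zero_left h
      simpa using this

theorem l_neg (v : V) : l (-1) v = -v := by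
  rw [hS.act, hS.j_neg]
  simp

theorem two_ne : (2 : K) ≠ 0 := by
  have := hS.char
  have h7 := hS.p7
  intro h
  have h3 : ((2 : ℕ) : K) = 0 := by exact_mod_cast h
  rw [CharP.cast_eq_zero_iff K p] at h3
  have := Nat.le_of_dvd (by norm_num) h3
  omega

/-- the automorphism of `SL(2,5)` induced by `g ∈ G` -/
theorem exists_psi {g : V ≃ₗ[ZMod p] V} (hg : g ∈ G) : ∃ ψ : SL25 →* SL25, (∀ x, g * l x * g⁻¹ = l (ψ x)) ∧
    Function.Injective ψ := by
  choose f hf using hS.norm g hg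
  refine ⟨⟨⟨f, ?_⟩, ?_⟩, hf, ?_⟩
  · apply hS.l_inj
    rw [← hf, map_one, mul_one, mul_inv_cancel]
  · intro x y
    apply hS.l_inj
    change l (f (x * y)) = l (f x * f y)
    rw [map_mul, ← hf, ← hf, ← hf, map_mul]
    group
  · intro x y hxy
    have h1 : f x = f y := hxy
    apply hS.l_inj
    have h2 : g * l x * g⁻¹ = g * l y * g⁻¹ := by rw [hf, hf, h1]
    simpa only [_root_.mul_left_inj, _root_.mul_right_inj] using h2

/-- the automorphism of `M₂(K)` induced by `g ∈ G` -/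
theorem exists_phi {g : V ≃ₗ[ZMod p] V} {ψ : SL25 →* SL25} (hψ : ∀ x, g * l x * g⁻¹ = l (ψ x)) :
    ∃ φ : Matrix (Fin 2) (Fin 2) K →+* Matrix (Fin 2) (Fin 2) K, (∀ M (v : V), g (M • v) = φ M • g v) ∧
      (∀ x, φ (j x) = (j (ψ x) : Matrix (Fin 2) (Fin 2) K)) ∧ Function.Injective φ := by
  have hex : ∀ M : Matrix (Fin 2) (Fin 2) K, ∃ N : Matrix (Fin 2) (Fin 2) K, ∀ v : V, g (M • v) = N • g v := by
    refine hS.induction ?_ ?_ ?_ ?_
    · intro x
      refine ⟨j (ψ x), fun v => ?_⟩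
      rw [← hS.act, ← hS.act]
      have h1 : g * l x = l (ψ x) * g := by rw [← hψ x]; group
      exact DFunLike.congr_fun h1 v
    · exact ⟨0, fun v => by rw [zero_smul, zero_smul, map_zero]⟩
    · rintro M N ⟨M', hM⟩ ⟨N', hN⟩
      exact ⟨M' + N', fun v => by rw [add_smul, add_smul, map_add, hM, hN]⟩
    · rintro M ⟨M', hM⟩
      exact ⟨-M', fun v => by rw [neg_smul, neg_smul, map_neg, hM]⟩
  choose f hf using hex
  have uniq : ∀ M N : Matrix (Fin 2) (Fin 2) K, (∀ v : V, M • g v = N • g v) → M = N := by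
    intro M N h
    have h1 : M - N = 0 := by
      refine faithful (V := V) hS.nontriv fun v => ?_
      have := h (g.symm v)
      rw [LinearEquiv.apply_symm_apply] at this
      rw [sub_smul, this, sub_self]
    exact sub_eq_zero.1 h1
  refine ⟨{ toFun := f, map_one' := ?_, map_mul' := ?_, map_zero' := ?_, map_add' := ?_ }, hf, ?_, ?_⟩
  · refine uniq _ _ fun v => ?_
    rw [← hf, one_smul, one_smul]
  · intro M N
    refine uniq _ _ fun v => ?_
    rw [← hf, mul_smul, mul_smul, hf, hf]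
  · refine uniq _ _ fun v => ?_
    rw [← hf, zero_smul, zero_smul, map_zero]
  · intro M N
    refine uniq _ _ fun v => ?_
    rw [← hf, add_smul, add_smul, map_add, hf, hf]
  · intro x
    refine uniq _ _ fun v => ?_
    change f (j x) • g v = _
    rw [← hf, ← hS.act, ← hS.act]
    have h1 : g * l x = l (ψ x) * g := by rw [← hψ x]; group
    exact DFunLike.congr_fun h1 v
  · rw [injective_iff_map_eq_zero]
    intro M hM
    refine faithful (V := V) hS.nontriv fun v => ?_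
    have h1 : g (M • v) = f M • g v := hf M v
    have h2 : f M = 0 := hM
    rw [h2, zero_smul] at h1
    exact (LinearEquiv.map_eq_zero_iff g).1 h1

end SetupQ

end setup

end Cfsg.Agent.H312.HT
end

-- part: H312/HT/CoreB
section
/-!
# `SL(2,5)` acting through `SL₂(K)`: inner automorphisms, `LA G l` (helper312, S3540)
-/

set_option autoImplicit false

namespace Cfsg.Agent.H312.HT

open Cfsg.Agent.H828.HT Cfsg.Agent.PermutationGroups.AutSL25 Matrix

universe u v

/-! ### `SL₂(K)` -/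

section sl

variable {K : Type v} [Field K]

theorem sl_det (M : Matrix.SpecialLinearGroup (Fin 2) K) : M 0 0 * M 1 1 - M 0 1 * M 1 0 = 1 := by
  rw [← Matrix.det_fin_two]; exact M.2

theorem sl_ext {M N : Matrix.SpecialLinearGroup (Fin 2) K} (h00 : M 0 0 = N 0 0) (h01 : M 0 1 = N 0 1)
    (h10 : M 1 0 = N 1 0) (h11 : M 1 1 = N 1 1) : M = N := by
  apply Subtype.ext
  ext i k
  fin_cases i <;> fin_cases k <;> assumption

theorem mat_ext {M N : Matrix (Fin 2) (Fin 2) K} (h00 : M 0 0 = N 0 0) (h01 : M 0 1 = N 0 1)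
    (h10 : M 1 0 = N 1 0) (h11 : M 1 1 = N 1 1) : M = N := by
  ext i k
  fin_cases i <;> fin_cases k <;> assumption

theorem sl_sq (M : Matrix.SpecialLinearGroup (Fin 2) K) :
    (M : Matrix (Fin 2) (Fin 2) K) * M = (M 0 0 + M 1 1) • (M : Matrix (Fin 2) (Fin 2) K) - 1 := by
  have h := sl_det M
  apply mat_ext <;> simp only [Matrix.mul_apply, Fin.sum_univ_two, _root_.Fin.isValue, _root_.Matrix.sub_apply, _root_.Matrix.smul_apply, _root_.smul_eq_mul, _root_.Matrix.one_apply_eq, _root_.ne_eq, _root_.zero_ne_one, _root_.not_false_eq_true, _root_.Matrix.one_apply_ne, _root_.sub_zero, _root_.one_ne_zero]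
  · linear_combination -h
  · ring
  · ring
  · linear_combination -h

/-- trace of the fifth power relation -/
theorem golden {M : Matrix.SpecialLinearGroup (Fin 2) K} (h5 : M * M * M * M * M = 1)
    (hns : M 0 1 ≠ 0 ∨ M 1 0 ≠ 0 ∨ M 0 0 ≠ M 1 1) : (M 0 0 + M 1 1) ^ 2 + (M 0 0 + M 1 1) = 1 := by
  set c := M 0 0 + M 1 1 with hc
  have hsq := sl_sq M
  rw [← hc] at hsq
  have h5' : (M : Matrix (Fin 2) (Fin 2) K) * M * M * M * M = 1 := congrArg Subtype.val h5
  have key : (c ^ 4 - 3 * c ^ 2 + 1) • (M : Matrix (Fin 2) (Fin 2) K) = (c ^ 3 - 2 * c + 1) • 1 := by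
    have e3 : (M : Matrix (Fin 2) (Fin 2) K) * M * M = (c ^ 2 - 1) • (M : Matrix (Fin 2) (Fin 2) K) - c • 1 := by
      rw [hsq, sub_mul, smul_mul_assoc, hsq, one_mul]
      module
    have e4 : (M : Matrix (Fin 2) (Fin 2) K) * M * M * M = (c ^ 3 - 2 * c) • (M : Matrix (Fin 2) (Fin 2) K) - (c ^ 2 - 1) • 1 := by
      rw [e3, sub_mul, smul_mul_assoc, hsq, smul_mul_assoc, one_mul]
      module
    rw [e4, sub_mul, smul_mul_assoc, hsq, smul_mul_assoc, one_mul] at h5'
    have h6 : (c ^ 4 - 3 * c ^ 2 + 1) • (M : Matrix (Fin 2) (Fin 2) K) - (c ^ 3 - 2 * c) • 1 = 1 := by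
      rw [smul_sub, smul_smul] at h5'
      calc _ = ((c ^ 3 - 2 * c) * c) • (M : Matrix (Fin 2) (Fin 2) K) - (c ^ 3 - 2 * c) • 1 -
          (c ^ 2 - 1) • (M : Matrix (Fin 2) (Fin 2) K) := by module
        _ = 1 := h5'
    calc (c ^ 4 - 3 * c ^ 2 + 1) • (M : Matrix (Fin 2) (Fin 2) K) =
        ((c ^ 4 - 3 * c ^ 2 + 1) • (M : Matrix (Fin 2) (Fin 2) K) - (c ^ 3 - 2 * c) • 1) + (c ^ 3 - 2 * c) • 1 := by
          rw [sub_add_cancel]
      _ = 1 + (c ^ 3 - 2 * c) • 1 := by rw [h6]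
      _ = (c ^ 3 - 2 * c + 1) • 1 := by rw [add_smul, one_smul, add_comm]
  have k00 := congrFun (congrFun key 0) 0
  have k01 := congrFun (congrFun key 0) 1
  have k10 := congrFun (congrFun key 1) 0
  have k11 := congrFun (congrFun key 1) 1
  simp only [_root_.Fin.isValue, _root_.Matrix.smul_apply, _root_.smul_eq_mul, _root_.Matrix.one_apply_eq, _root_.mul_one, _root_.ne_eq, _root_.zero_ne_one, _root_.not_false_eq_true, _root_.Matrix.one_apply_ne, _root_.MulZeroClass.mul_zero, _root_.mul_eq_zero, _root_.one_ne_zero] at k00 k01 k10 k11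
  have hz : c ^ 4 - 3 * c ^ 2 + 1 = 0 := by
    rcases hns with h | h | h
    · exact k01.resolve_right h
    · exact k10.resolve_right h
    · have : (c ^ 4 - 3 * c ^ 2 + 1) * (M 0 0 - M 1 1) = 0 := by linear_combination k00 - k11
      exact (mul_eq_zero.1 this).resolve_right (sub_ne_zero.2 h)
  rw [hz, zero_mul] at k00
  have h1 : (c ^ 2 + c - 1) * (c - 1) = 0 := by linear_combination -k00
  have h2 : (c ^ 2 + c - 1) * (c ^ 2 - c - 1) = 0 := by linear_combination hz
  by_contra hne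
  have h3 : c ^ 2 + c - 1 ≠ 0 := fun h => hne (by linear_combination h)
  have h4 := (mul_eq_zero.1 h1).resolve_left h3
  have h5 := (mul_eq_zero.1 h2).resolve_left h3
  have h6 : (1 : K) = 0 := by linear_combination h4 * c - h5
  exact one_ne_zero h6

theorem sl_add_inv (M : Matrix.SpecialLinearGroup (Fin 2) K) :
    (M : Matrix (Fin 2) (Fin 2) K) + ((M⁻¹ : Matrix.SpecialLinearGroup (Fin 2) K) : Matrix (Fin 2) (Fin 2) K) =
      (M 0 0 + M 1 1) • 1 := by
  rw [Matrix.SpecialLinearGroup.coe_inv, Matrix.adjugate_fin_two]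
  apply mat_ext <;> simp only [_root_.Fin.isValue, _root_.Matrix.add_apply, _root_.Matrix.of_apply, _root_.Matrix.cons_val', _root_.Matrix.cons_val_zero, _root_.Matrix.cons_val_fin_one, _root_.Matrix.smul_apply, _root_.Matrix.one_apply_eq, _root_.smul_eq_mul, _root_.mul_one, _root_.Matrix.cons_val_one, _root_.add_neg_cancel, _root_.ne_eq, _root_.zero_ne_one, _root_.not_false_eq_true, _root_.Matrix.one_apply_ne, _root_.MulZeroClass.mul_zero, _root_.one_ne_zero]
  ring

/-- the trace -/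
def tr (M : Matrix.SpecialLinearGroup (Fin 2) K) : K := M 0 0 + M 1 1

theorem tr_conj (M N : Matrix.SpecialLinearGroup (Fin 2) K) : tr (N * M * N⁻¹) = tr M := by
  have h : ∀ P : Matrix.SpecialLinearGroup (Fin 2) K, tr P = Matrix.trace (P : Matrix (Fin 2) (Fin 2) K) := by
    intro P
    rw [Matrix.trace_fin_two]; rfl
  rw [h, h, Matrix.SpecialLinearGroup.coe_mul, Matrix.SpecialLinearGroup.coe_mul, Matrix.trace_mul_comm, ← mul_assoc,
    ← Matrix.SpecialLinearGroup.coe_mul, inv_mul_cancel, Matrix.SpecialLinearGroup.coe_one, one_mul]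

theorem tr_sq (M : Matrix.SpecialLinearGroup (Fin 2) K) : tr (M * M) = tr M ^ 2 - 2 := by
  have h := sl_det M
  unfold tr
  rw [Matrix.SpecialLinearGroup.coe_mul]
  simp only [Matrix.mul_apply, Fin.sum_univ_two]
  linear_combination -2 * h

end sl

/-! ### inner automorphisms -/

section setup

variable {p : ℕ} [Fact p.Prime] {V : Type u} [AddCommGroup V] [Module (ZMod p) V]
  {G : Subgroup (V ≃ₗ[ZMod p] V)} {K : Type v} [Field K] [Module (Matrix (Fin 2) (Fin 2) K) V]
  {j : SL25 →* Matrix.SpecialLinearGroup (Fin 2) K} {l : SL25 →* (V ≃ₗ[ZMod p] V)}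

/-- `L C_G(L)` -/
def LC (G : Subgroup (V ≃ₗ[ZMod p] V)) (l : SL25 →* (V ≃ₗ[ZMod p] V)) : Subgroup (V ≃ₗ[ZMod p] V) where
  carrier := {g | ∃ x, ∃ α ∈ AA G l, g = l x * α}
  one_mem' := ⟨1, 1, one_mem _, by simp⟩
  mul_mem' := by
    rintro _ _ ⟨x, α, hα, rfl⟩ ⟨y, β, hβ, rfl⟩
    refine ⟨x * y, α * β, mul_mem hα hβ, ?_⟩
    have h := (mem_AA.1 hα).2 y
    calc l x * α * (l y * β) = l x * (α * l y) * β := by group
      _ = l x * (l y * α) * β := by rw [h]
      _ = _ := by rw [map_mul]; group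
  inv_mem' := by
    rintro _ ⟨x, α, hα, rfl⟩
    refine ⟨x⁻¹, α⁻¹, inv_mem hα, ?_⟩
    have h := (mem_AA.1 hα).2 x
    rw [h, _root_.mul_inv_rev, map_inv]

theorem AA_le_LC : AA G l ≤ LC G l := fun α hα => ⟨1, α, hα, by simp⟩

theorem AA_le : AA G l ≤ G := fun _ hα => (mem_AA.1 hα).1

namespace SetupQ

variable (hS : SetupQ G K j l)

include hS

theorem LC_le : LC G l ≤ G := by
  rintro _ ⟨x, α, hα, rfl⟩
  exact mul_mem (hS.mem x) (AA_le hα)

omit hS in
theorem psi_neg {ψ : SL25 →* SL25} (hψ : Function.Injective ψ) : ψ (-1) = -1 := by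
  apply eq_neg_one
  · rw [← map_mul]; simp
  · intro h
    exact neg_one_ne (hψ (by rw [h, map_one]))

theorem mem_LC_of_inner {g : V ≃ₗ[ZMod p] V} (hg : g ∈ G) {ψ : SL25 →* SL25} (hψ : ∀ x, g * l x * g⁻¹ = l (ψ x))
    {u : SL25} (hu : ∀ x, ψ x = u * x * u⁻¹) : g ∈ LC G l := by
  refine ⟨u, (l u)⁻¹ * g, ?_, by group⟩
  rw [mem_AA]
  refine ⟨mul_mem (inv_mem (hS.mem u)) hg, fun x => ?_⟩
  have h1 := hψ x
  rw [hu, map_mul, map_mul, map_inv] at h1
  have h2 : g * l x = l u * l x * (l u)⁻¹ * g := by rw [← h1]; group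
  rw [mul_assoc, h2]
  group

omit hS in
theorem psi_T_ne {ψ : SL25 →* SL25} (hψ : Function.Injective ψ) : ψ T ≠ 1 := fun h =>
  T_ne (hψ (by rw [h, map_one]))

theorem outer_of_not_mem {g : V ≃ₗ[ZMod p] V} (hg : g ∈ G) (hn : g ∉ LC G l) {ψ : SL25 →* SL25}
    (hψ : ∀ x, g * l x * g⁻¹ = l (ψ x)) (hi : Function.Injective ψ) : ∃ w : SL25, ∀ x, ψ x = w * F.phi0 x * w⁻¹ :=
  F.outer_eq ψ (psi_neg hi) (psi_T_ne hi) fun ⟨_, hu⟩ => hn (hS.mem_LC_of_inner hg hψ hu)

theorem mul_mem_LC {g₁ g₂ : V ≃ₗ[ZMod p] V} (h1 : g₁ ∈ G) (h2 : g₂ ∈ G) (hn1 : g₁ ∉ LC G l) (hn2 : g₂ ∉ LC G l) :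
    g₁ * g₂ ∈ LC G l := by
  obtain ⟨ψ₁, hψ₁, hi₁⟩ := hS.exists_psi h1
  obtain ⟨ψ₂, hψ₂, hi₂⟩ := hS.exists_psi h2
  obtain ⟨w₁, hw₁⟩ := hS.outer_of_not_mem h1 hn1 hψ₁ hi₁
  obtain ⟨w₂, hw₂⟩ := hS.outer_of_not_mem h2 hn2 hψ₂ hi₂
  refine hS.mem_LC_of_inner (mul_mem h1 h2) (ψ := ψ₁.comp ψ₂) (fun x => ?_) (u := w₁ * F.phi0 w₂ * F.D0) fun x => ?_
  · rw [MonoidHom.comp_apply, ← hψ₁, ← hψ₂]
    group
  · rw [MonoidHom.comp_apply, hw₁, hw₂, F.phi0_mul, F.phi0_mul, F.phi0_phi0,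
      show F.phi0 w₂⁻¹ = (F.phi0 w₂)⁻¹ from map_inv F.Phi0 w₂]
    group

/-! ### the golden ratio -/

theorem five_ne : (5 : K) ≠ 0 := by
  have := hS.char
  have h7 := hS.p7
  intro h
  have h3 : ((5 : ℕ) : K) = 0 := by exact_mod_cast h
  rw [CharP.cast_eq_zero_iff K p] at h3
  have := Nat.le_of_dvd (by norm_num) h3
  omega

theorem not_scalar {x : SL25} (h1 : x ≠ 1) (h2 : x ≠ -1) :
    (j x) 0 1 ≠ 0 ∨ (j x) 1 0 ≠ 0 ∨ (j x) 0 0 ≠ (j x) 1 1 := by
  by_contra hcon
  push Not at hcon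
  obtain ⟨h01, h10, h00⟩ := hcon
  have hc : ∀ y, j x * j y = j y * j x := by
    intro y
    apply Subtype.ext
    rw [Matrix.SpecialLinearGroup.coe_mul, Matrix.SpecialLinearGroup.coe_mul]
    apply mat_ext <;> simp only [Matrix.mul_apply, Fin.sum_univ_two, h01, h10, h00, mul_comm, _root_.Fin.isValue, _root_.MulZeroClass.zero_mul, _root_.add_zero, _root_.zero_add]
  have hc2 : ∀ y, x * y = y * x := fun y => hS.jinj (by rw [map_mul, map_mul, hc])
  rcases mem_center_iff x ⟨hc2 S, hc2 T⟩ with h | h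
  · exact h1 h
  · exact h2 h

theorem gamma : tr (j T) ^ 2 + tr (j T) = 1 := by
  apply golden
  · rw [← map_mul, ← map_mul, ← map_mul, ← map_mul, relT, map_one]
  · exact hS.not_scalar T_ne (by decide +kernel)

theorem gamma_ne : tr (j T) ^ 2 - 2 ≠ tr (j T) := by
  intro h
  have h1 := hS.gamma
  apply hS.five_ne
  have h2 : 2 * tr (j T) = -1 := by linear_combination h1 - h
  linear_combination (2 * tr (j T) + 1) * h2 - 4 * h1

/-- the action on scalars -/
theorem phi_gamma {ψ : SL25 →* SL25} {φ : Matrix (Fin 2) (Fin 2) K →+* Matrix (Fin 2) (Fin 2) K}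
    (hφ : ∀ x, φ (j x) = (j (ψ x) : Matrix (Fin 2) (Fin 2) K)) : φ ((tr (j T)) • 1) = (tr (j (ψ T))) • 1 := by
  have h1 := sl_add_inv (j T)
  have h2 := sl_add_inv (j (ψ T))
  unfold tr
  rw [← h1, ← h2, map_add, hφ, ← map_inv, hφ, ← map_inv, map_inv ψ]

theorem mem_LC_of_card (hK : Nat.card K = p) {g : V ≃ₗ[ZMod p] V} (hg : g ∈ G) : g ∈ LC G l := by
  by_contra hn
  obtain ⟨ψ, hψ, hi⟩ := hS.exists_psi hg
  obtain ⟨w, hw⟩ := hS.outer_of_not_mem hg hn hψ hi
  obtain ⟨φ, -, hφ, -⟩ := hS.exists_phi hψ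
  have h1 := hS.phi_gamma hφ
  have h2 : φ ((tr (j T)) • 1) = (tr (j T)) • 1 := by
    have := hS.char
    have := hS.fin
    obtain ⟨n, hn⟩ : ∃ n : ℕ, (n : K) = tr (j T) := by
      have hF := Fintype.ofFinite K
      rw [Nat.card_eq_fintype_card] at hK
      have hsurj : Function.Bijective (ZMod.castHom (dvd_refl p) K) := by
        rw [Fintype.bijective_iff_injective_and_card]
        exact ⟨(ZMod.castHom _ K).injective, by rw [ZMod.card, hK]⟩
      obtain ⟨z, hz⟩ := hsurj.2 (tr (j T))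
      refine ⟨z.val, ?_⟩
      rw [← hz, ZMod.castHom_apply, ZMod.natCast_val]
    rw [← hn]
    have h3 : ((n : K) • (1 : Matrix (Fin 2) (Fin 2) K)) = (n : Matrix (Fin 2) (Fin 2) K) := by
      rw [Nat.cast_smul_eq_nsmul, nsmul_one]
    rw [h3, map_natCast]
  rw [h2] at h1
  have h3 : tr (j T) = tr (j (ψ T)) := by
    have := congrFun (congrFun h1 0) 0
    simpa using this
  have h4 : tr (j (ψ T)) = tr (j T) ^ 2 - 2 := by
    obtain ⟨w', hw'⟩ := F.conj_T3
    rw [hw, F.phi0_T, hw', map_mul, map_mul, map_inv, tr_conj, map_mul, map_mul, map_inv, tr_conj, map_mul, tr_sq]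
  exact hS.gamma_ne (by rw [← h4, ← h3])

end SetupQ

end setup

end Cfsg.Agent.H312.HT
end

-- part: H312/HT/Stab
section
/-!
# Stabilisers, orders (helper312, S3540)
-/

set_option autoImplicit false

namespace Cfsg.Agent.H312.HT

open Cfsg.Agent.H828.HT Cfsg.Agent.PermutationGroups.AutSL25 Matrix

universe u v

section gen

theorem card_two {Γ : Type*} [Group Γ] (A B : Subgroup Γ) (hAB : A ≤ B)
    (h : ∀ x ∈ B, ∀ y ∈ B, x ∉ A → y ∉ A → x * y ∈ A) : Nat.card B = Nat.card A ∨ Nat.card B = 2 * Nat.card A := by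
  by_cases hBA : B ≤ A
  · left; rw [le_antisymm hBA hAB]
  · right
    obtain ⟨a, ha, haA⟩ := SetLike.not_le_iff_exists.1 hBA
    have h1 : (A.subgroupOf B).index = 2 := by
      rw [Subgroup.index_eq_two_iff]
      refine ⟨⟨a, ha⟩, fun b => ?_⟩
      by_cases hb : (b : Γ) ∈ A
      · right
        refine ⟨hb, fun h2 => haA ?_⟩
        have h3 : (b : Γ) * a ∈ A := h2
        exact (Subgroup.mul_mem_cancel_left A hb).1 h3
      · left
        exact ⟨h _ b.2 _ ha hb haA, hb⟩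
    have h2 := Subgroup.card_mul_index (A.subgroupOf B)
    rw [h1, Nat.card_congr (Subgroup.subgroupOfEquivOfLe hAB).toEquiv] at h2
    rw [← h2, mul_comm]

theorem card_fiber {α β : Type*} [Finite α] [Finite β] (f : α → β) {c : ℕ} (hf : ∀ b, Nat.card {a // f a = b} = c)
    (P : β → Prop) : Nat.card {a // P (f a)} = c * Nat.card {b // P b} := by
  have e : {a // P (f a)} ≃ Σ b : {b // P b}, {a // f a = b.1} :=
    { toFun := fun a => ⟨⟨f a.1, a.2⟩, ⟨a.1, rfl⟩⟩
      invFun := fun s => ⟨s.2.1, by rw [s.2.2]; exact s.1.2⟩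
      left_inv := fun a => rfl
      right_inv := by
        rintro ⟨⟨b, hb⟩, ⟨a, ha⟩⟩
        change f a = b at ha
        subst ha
        rfl }
  rw [Nat.card_congr e]
  have hF := Fintype.ofFinite {b // P b}
  rw [Nat.card_sigma, Finset.sum_congr rfl (fun x _ => hf x.1), Finset.sum_const, Finset.card_univ,
    Nat.card_eq_fintype_card, smul_eq_mul, mul_comm]

end gen

section setup

variable {p : ℕ} [Fact p.Prime] {V : Type u} [AddCommGroup V] [Module (ZMod p) V]
  {G : Subgroup (V ≃ₗ[ZMod p] V)} {h : ℕ} {K : Type v} [Field K] [Module (Matrix (Fin 2) (Fin 2) K) V]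
  {j : SL25 →* Matrix.SpecialLinearGroup (Fin 2) K} {l : SL25 →* (V ≃ₗ[ZMod p] V)}

/-- the stabiliser of `v` -/
def sg (G : Subgroup (V ≃ₗ[ZMod p] V)) (v : V) : Subgroup (V ≃ₗ[ZMod p] V) where
  carrier := {g | g ∈ G ∧ g v = v}
  one_mem' := ⟨one_mem _, rfl⟩
  mul_mem' := by
    rintro a b ⟨ha, ha'⟩ ⟨hb, hb'⟩
    exact ⟨mul_mem ha hb, by rw [LinearEquiv.mul_apply, hb', ha']⟩
  inv_mem' := by
    rintro a ⟨ha, ha'⟩
    refine ⟨inv_mem ha, ?_⟩
    conv_lhs => rw [← ha']
    rw [← LinearEquiv.mul_apply, inv_mul_cancel]; rfl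

theorem mem_sg {v : V} {g : V ≃ₗ[ZMod p] V} : g ∈ sg G v ↔ g ∈ G ∧ g v = v := Iff.rfl

theorem card_sg (hh : Half G h) {v : V} (hv : v ≠ 0) : Nat.card (sg G v) = h := by
  rw [← hh v hv]
  refine Nat.card_congr ⟨fun g => ⟨⟨g.1, g.2.1⟩, g.2.2⟩, fun g => ⟨g.1.1, g.1.2, g.2⟩, fun g => rfl, fun g => rfl⟩

theorem sg_mono {H : Subgroup (V ≃ₗ[ZMod p] V)} (hHG : H ≤ G) (v : V) : sg H v ≤ sg G v := fun _ hg => ⟨hHG hg.1, hg.2⟩

theorem Rk2.ne_zero {v : V} (hv : Rk2 K v) : v ≠ 0 := by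
  rintro rfl
  have h1 := hv 1 (smul_zero _)
  exact one_ne_zero h1

theorem Rk2.smul {v : V} (hv : Rk2 K v) (u : Matrix.SpecialLinearGroup (Fin 2) K) :
    Rk2 K ((u : Matrix (Fin 2) (Fin 2) K) • v) := by
  intro M hM
  rw [← mul_smul] at hM
  have h1 := hv _ hM
  have h2 : M * (u : Matrix (Fin 2) (Fin 2) K) * ((u⁻¹ : Matrix.SpecialLinearGroup (Fin 2) K) :
      Matrix (Fin 2) (Fin 2) K) = 0 := by rw [h1, zero_mul]
  rw [mul_assoc, ← Matrix.SpecialLinearGroup.coe_mul, mul_inv_cancel, Matrix.SpecialLinearGroup.coe_one, mul_one] at h2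
  exact h2

theorem Rk2.inj {v : V} (hv : Rk2 K v) {M N : Matrix (Fin 2) (Fin 2) K} (h : M • v = N • v) : M = N := by
  have h1 := hv (M - N) (by rw [sub_smul, h, sub_self])
  exact sub_eq_zero.1 h1

variable [Finite V]

theorem card_dvd_inv (G₁ : Subgroup (V ≃ₗ[ZMod p] V)) (X : Set V) (hX : ∀ g ∈ G₁, ∀ v ∈ X, g v ∈ X)
    (hst : ∀ v ∈ X, Nat.card (sg G₁ v) = h) (h0 : 0 < h) (hne : X.Nonempty) : Nat.card G₁ ∣ h * Nat.card X := by
  let _ : MulAction G₁ X :=
    { smul := fun g x => ⟨(g : V ≃ₗ[ZMod p] V) x, hX g g.2 x x.2⟩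
      one_smul := fun x => Subtype.ext rfl
      mul_smul := fun a b x => Subtype.ext rfl }
  have horb : ∀ x : X, Nat.card (MulAction.orbit G₁ x) * h = Nat.card G₁ := by
    intro x
    have h1 := MulAction.card_orbit_mul_card_stabilizer_eq_card_group G₁ x
    rw [← Nat.card_eq_fintype_card, ← Nat.card_eq_fintype_card, ← Nat.card_eq_fintype_card] at h1
    rw [← h1, ← hst x x.2]
    congr 1
    refine Nat.card_congr ⟨fun g => ⟨⟨g.1, g.2.1⟩, Subtype.ext g.2.2⟩, fun g => ⟨g.1.1, g.1.2,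
      congrArg Subtype.val g.2⟩, fun g => rfl, fun g => rfl⟩
  obtain ⟨x0, hx0⟩ := hne
  have h2 : ∀ x : X, Nat.card (MulAction.orbit G₁ x) = Nat.card (MulAction.orbit G₁ (⟨x0, hx0⟩ : X)) := fun x =>
    Nat.eq_of_mul_eq_mul_right h0 ((horb x).trans (horb _).symm)
  have h3 := dvd_card_of_orbits (K := G₁) h2
  rw [← horb ⟨x0, hx0⟩, mul_comm h]
  exact Nat.mul_dvd_mul_right h3 h

namespace SetupQ

variable (hS : SetupQ G K j l)

include hS

/-- the pairs `(x, α)` which represent a given element of `L C_G(L)` -/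
theorem card_pairs (P : (V ≃ₗ[ZMod p] V) → Prop) :
    Nat.card {z : SL25 × AA G l // P (l z.1 * z.2)} = 2 * Nat.card {g : LC G l // P g} := by
  let f : SL25 × AA G l → LC G l := fun z => ⟨l z.1 * z.2, z.1, z.2, z.2.2, rfl⟩
  refine (card_fiber f (c := 2) ?_ (fun g => P g))
  rintro ⟨g, x, α, hα, rfl⟩
  have hcen : ∀ z : AA G l, ∀ w : SL25, l w = (z : V ≃ₗ[ZMod p] V) → w = 1 ∨ w = -1 := by
    intro z w hw
    have h1 : ∀ y, w * y = y * w := by
      intro y
      apply hS.l_inj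
      rw [map_mul, map_mul, hw, (mem_AA.1 z.2).2]
    exact mem_center_iff w ⟨h1 S, h1 T⟩
  have hneg : l (-1) ∈ AA G l := by
    rw [mem_AA]
    refine ⟨hS.mem _, fun y => ?_⟩
    rw [← map_mul, ← map_mul]; simp
  have e : {z : SL25 × AA G l // f z = ⟨l x * α, x, α, hα, rfl⟩} ≃ Bool :=
    { toFun := fun z => if z.1.1 = x then true else false
      invFun := fun b => if b then ⟨(x, ⟨α, hα⟩), rfl⟩ else ⟨(-x, ⟨l (-1) * α, mul_mem hneg hα⟩), by
        apply Subtype.ext
        change l (-x) * (l (-1) * α) = l x * α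
        rw [← mul_assoc, ← map_mul]; simp⟩
      left_inv := by
        rintro ⟨⟨y, β⟩, hz⟩
        have hz' : l y * (β : V ≃ₗ[ZMod p] V) = l x * α := congrArg Subtype.val hz
        have h1 : l (x⁻¹ * y) = ((⟨α, hα⟩ * β⁻¹ : AA G l) : V ≃ₗ[ZMod p] V) := by
          rw [map_mul, map_inv]
          change (l x)⁻¹ * l y = α * (β : V ≃ₗ[ZMod p] V)⁻¹
          rw [inv_mul_eq_iff_eq_mul, ← mul_assoc, ← hz', mul_inv_cancel_right]
        rcases hcen _ _ h1 with h2 | h2
        · have h3 : x = y := inv_mul_eq_one.1 (by exact h2)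
          subst h3
          have h4 : (β : V ≃ₗ[ZMod p] V) = α := mul_left_cancel hz'
          simp only [if_true]
          apply Subtype.ext
          exact Prod.ext rfl (Subtype.ext h4.symm)
        · have h3 : y = -x := by
            rw [inv_mul_eq_iff_eq_mul] at h2
            rw [h2]; simp
          have hne : y ≠ x := by
            intro h5
            rw [h5, inv_mul_cancel] at h2
            exact neg_one_ne h2.symm
          simp only [hne, if_false]
          apply Subtype.ext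
          refine Prod.ext h3.symm (Subtype.ext ?_)
          change l (-1) * α = (β : V ≃ₗ[ZMod p] V)
          rw [h3] at hz'
          have h6 : l (-x) = l x * l (-1) := by rw [← map_mul]; simp only [_root_.mul_neg, _root_.mul_one]
          rw [h6, mul_assoc] at hz'
          have h7 := mul_left_cancel hz'
          have h8 : l (-1) * l (-1) = 1 := by rw [← map_mul]; simp
          rw [← h7, ← mul_assoc, h8, one_mul]
      right_inv := by
        intro b
        cases b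
        · have hne : -x ≠ x := by
            intro h5
            have h6 : (-x) * x⁻¹ = 1 := by rw [h5, mul_inv_cancel]
            rw [neg_mul, mul_inv_cancel] at h6
            exact neg_one_ne h6
          simp [hne]
        · simp }
  rw [Nat.card_congr e, Nat.card_eq_fintype_card, Fintype.card_bool]

theorem card_LC : Nat.card (LC G l) = 60 * Nat.card (AA G l) := by
  have h1 := hS.card_pairs (fun _ => True)
  have h2 : Nat.card {z : SL25 × AA G l // True} = 120 * Nat.card (AA G l) := by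
    rw [Nat.card_congr (Equiv.subtypeUnivEquiv fun _ => trivial), Nat.card_prod, natCard]
  have h3 : Nat.card {g : LC G l // True} = Nat.card (LC G l) :=
    Nat.card_congr (Equiv.subtypeUnivEquiv fun _ => trivial)
  rw [h2, h3] at h1
  omega

/-- the stabilisers in `G` and in `L C_G(L)` -/
theorem card_sg_LC (v : V) : Nat.card (sg G v) = Nat.card (sg (LC G l) v) ∨
    Nat.card (sg G v) = 2 * Nat.card (sg (LC G l) v) := by
  refine card_two _ _ (sg_mono hS.LC_le v) ?_
  rintro x ⟨hx, hx'⟩ y ⟨hy, hy'⟩ hnx hny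
  refine ⟨hS.mul_mem_LC hx hy (fun h => hnx ⟨h, hx'⟩) (fun h => hny ⟨h, hy'⟩), ?_⟩
  rw [LinearEquiv.mul_apply, hy', hx']

theorem card_G_LC : Nat.card G = Nat.card (LC G l) ∨ Nat.card G = 2 * Nat.card (LC G l) :=
  card_two _ _ hS.LC_le fun _ hx _ hy hnx hny => hS.mul_mem_LC hx hy hnx hny

end SetupQ

end setup

end Cfsg.Agent.H312.HT
end

-- part: H312/HT/RankA
section
/-!
# Counting in `SL₂(K)` (helper312, S3540)
-/

set_option autoImplicit false

namespace Cfsg.Agent.H312.HT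

open Cfsg.Agent.H828.HT Cfsg.Agent.PermutationGroups.AutSL25 Matrix

universe u v

section cent

variable {K : Type v} [Field K] [Finite K]

open Classical in
/-- the fibers have at most two elements -/
theorem card_le_of_fiber {α β : Type*} [Finite α] [Finite β] (f : α → β)
    (hf : ∀ a b c, f a = f b → f b = f c → a = b ∨ b = c ∨ a = c) : Nat.card α ≤ 2 * Nat.card β := by
  have hα := Fintype.ofFinite α
  have hβ := Fintype.ofFinite β
  rw [Nat.card_eq_fintype_card, Nat.card_eq_fintype_card, ← Finset.card_univ, ← Finset.card_univ]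
  refine (Finset.card_le_mul_card_image (s := (Finset.univ : Finset α)) (f := f) 2 ?_).trans
    (Nat.mul_le_mul_left 2 (Finset.card_le_card (Finset.subset_univ _)))
  intro b _
  by_contra hcon
  push Not at hcon
  obtain ⟨x, y, z, hx, hy, hz, hxy, hxz, hyz⟩ := Finset.two_lt_card_iff.1 hcon
  simp only [Finset.mem_filter, Finset.mem_univ, true_and] at hx hy hz
  rcases hf x y z (hx.trans hy.symm) (hy.trans hz.symm) with h | h | h
  · exact hxy h
  · exact hyz h
  · exact hxz h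

theorem comm_eqs {u y : Matrix.SpecialLinearGroup (Fin 2) K} (h : u * y = y * u) :
    (u 0 1 * y 1 0 = y 0 1 * u 1 0) ∧ (u 0 0 * y 0 1 + u 0 1 * y 1 1 = y 0 0 * u 0 1 + y 0 1 * u 1 1) ∧
      (u 1 0 * y 0 0 + u 1 1 * y 1 0 = y 1 0 * u 0 0 + y 1 1 * u 1 0) := by
  have h := congrArg Subtype.val h
  rw [Matrix.SpecialLinearGroup.coe_mul, Matrix.SpecialLinearGroup.coe_mul] at h
  have h00 := congrFun (congrFun h 0) 0
  have h01 := congrFun (congrFun h 0) 1
  have h10 := congrFun (congrFun h 1) 0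
  simp only [Matrix.mul_apply, Fin.sum_univ_two] at h00 h01 h10
  exact ⟨by linear_combination h00, h01, h10⟩

theorem card_cent_diag {y : Matrix.SpecialLinearGroup (Fin 2) K} (h01 : y 0 1 = 0) (h10 : y 1 0 = 0)
    (hd : y 0 0 ≠ y 1 1) :
    Nat.card {u : Matrix.SpecialLinearGroup (Fin 2) K // u * y = y * u} ≤ 2 * Nat.card K := by
  refine card_le_of_fiber (fun u => u.1 0 0) ?_
  have hdiag : ∀ u : {u : Matrix.SpecialLinearGroup (Fin 2) K // u * y = y * u}, u.1 0 1 = 0 ∧ u.1 1 0 = 0 := by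
    intro u
    obtain ⟨-, e1, e2⟩ := comm_eqs u.2
    rw [h01] at e1
    rw [h10] at e2
    refine ⟨?_, ?_⟩
    · have : u.1 0 1 * (y 1 1 - y 0 0) = 0 := by linear_combination e1
      exact (mul_eq_zero.1 this).resolve_right (sub_ne_zero.2 hd.symm)
    · have : u.1 1 0 * (y 0 0 - y 1 1) = 0 := by linear_combination e2
      exact (mul_eq_zero.1 this).resolve_right (sub_ne_zero.2 hd)
  intro a b c hab _
  left
  apply Subtype.ext
  have ha := sl_det a.1
  have hb := sl_det b.1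
  have hab' : a.1 0 0 = b.1 0 0 := hab
  rw [(hdiag a).1, zero_mul, sub_zero] at ha
  rw [(hdiag b).1, zero_mul, sub_zero, ← hab'] at hb
  have hne : a.1 0 0 ≠ 0 := left_ne_zero_of_mul_eq_one ha
  exact sl_ext hab' (by rw [(hdiag a).1, (hdiag b).1]) (by rw [(hdiag a).2, (hdiag b).2])
    (mul_left_cancel₀ hne (ha.trans hb.symm))

theorem card_cent_low {y : Matrix.SpecialLinearGroup (Fin 2) K} (h10 : y 1 0 ≠ 0) :
    Nat.card {u : Matrix.SpecialLinearGroup (Fin 2) K // u * y = y * u} ≤ 2 * Nat.card K := by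
  refine card_le_of_fiber (fun u => u.1 1 0) ?_
  have k1 : ∀ a b : {u : Matrix.SpecialLinearGroup (Fin 2) K // u * y = y * u}, a.1 1 0 = b.1 1 0 →
      a.1 0 0 = b.1 0 0 → a = b := by
    intro a b hab h00
    obtain ⟨a1, -, a2⟩ := comm_eqs a.2
    obtain ⟨b1, -, b2⟩ := comm_eqs b.2
    apply Subtype.ext
    refine sl_ext h00 ?_ hab ?_
    · apply mul_right_cancel₀ h10
      rw [a1, b1, hab]
    · apply mul_right_cancel₀ h10
      linear_combination a2 - b2 + y 1 0 * h00 - (y 0 0 - y 1 1) * hab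
  have k2 : ∀ a b : {u : Matrix.SpecialLinearGroup (Fin 2) K // u * y = y * u}, a.1 1 0 = b.1 1 0 →
      a.1 0 0 ≠ b.1 0 0 → (a.1 0 0 + b.1 0 0) * y 1 0 = b.1 1 0 * (y 0 0 - y 1 1) := by
    intro a b hab h00
    have ha := sl_det a.1
    have hb := sl_det b.1
    obtain ⟨a1, -, a2⟩ := comm_eqs a.2
    obtain ⟨b1, -, b2⟩ := comm_eqs b.2
    have h3 : (a.1 0 0 - b.1 0 0) * ((a.1 0 0 + b.1 0 0) * y 1 0 - b.1 1 0 * (y 0 0 - y 1 1)) = 0 := by
      linear_combination (y 1 0) * ha - (y 1 0) * hb - a.1 0 0 * a2 + b.1 0 0 * b2 + a.1 1 0 * a1 - b.1 1 0 * b1 +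
        (y 0 1 * (a.1 1 0 + b.1 1 0) - a.1 0 0 * (y 1 1 - y 0 0)) * hab
    exact sub_eq_zero.1 ((mul_eq_zero.1 h3).resolve_left (sub_ne_zero.2 h00))
  intro a b c hab hbc
  have hab' : a.1 1 0 = b.1 1 0 := hab
  have hbc' : b.1 1 0 = c.1 1 0 := hbc
  by_cases h1 : a.1 0 0 = b.1 0 0
  · left; exact k1 a b hab' h1
  by_cases h2 : b.1 0 0 = c.1 0 0
  · right; left; exact k1 b c hbc' h2
  right; right
  refine k1 a c (hab'.trans hbc') ?_
  have e1 := k2 a b hab' h1
  have e2 := k2 b c hbc' h2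
  rw [← hbc'] at e2
  apply mul_right_cancel₀ h10
  linear_combination e1 - e2

theorem card_cent_le {y : Matrix.SpecialLinearGroup (Fin 2) K}
    (hy : y 0 1 ≠ 0 ∨ y 1 0 ≠ 0 ∨ y 0 0 ≠ y 1 1) :
    Nat.card {u : Matrix.SpecialLinearGroup (Fin 2) K // u * y = y * u} ≤ 2 * Nat.card K := by
  by_cases h10 : y 1 0 = 0
  · by_cases h01 : y 0 1 = 0
    · refine card_cent_diag h01 h10 ?_
      rcases hy with h | h | h
      · exact absurd h01 h
      · exact absurd h10 h
      · exact h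
    · -- transpose
      have h2 : (y.transpose) 1 0 ≠ 0 := h01
      have h3 := card_cent_low (y := y.transpose) h2
      refine le_trans (le_of_eq ?_) h3
      have ht : ∀ u w : Matrix.SpecialLinearGroup (Fin 2) K, (u * w).transpose = w.transpose * u.transpose := by
        intro u w
        apply Subtype.ext
        change ((u * w : Matrix.SpecialLinearGroup (Fin 2) K) : Matrix (Fin 2) (Fin 2) K)ᵀ = _
        rw [Matrix.SpecialLinearGroup.coe_mul, Matrix.transpose_mul]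
        rfl
      have htt : ∀ u : Matrix.SpecialLinearGroup (Fin 2) K, u.transpose.transpose = u := fun u =>
        Subtype.ext (Matrix.transpose_transpose _)
      refine Nat.card_congr ⟨fun u => ⟨u.1.transpose, ?_⟩, fun u => ⟨u.1.transpose, ?_⟩, fun u => ?_, fun u => ?_⟩
      · rw [← ht, ← ht, u.2]
      · have h5 := congrArg Matrix.SpecialLinearGroup.transpose u.2
        rw [ht, ht, htt] at h5
        exact h5.symm
      · exact Subtype.ext (htt _)
      · exact Subtype.ext (htt _)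
  · exact card_cent_low h10

end cent

section setup

variable {p : ℕ} [Fact p.Prime] {V : Type u} [AddCommGroup V] [Module (ZMod p) V]
  {G : Subgroup (V ≃ₗ[ZMod p] V)} {h : ℕ} {K : Type v} [Field K] [Module (Matrix (Fin 2) (Fin 2) K) V]
  {j : SL25 →* Matrix.SpecialLinearGroup (Fin 2) K} {l : SL25 →* (V ≃ₗ[ZMod p] V)}

namespace SetupQ

variable (hS : SetupQ G K j l)

include hS

theorem finSL : Finite (Matrix.SpecialLinearGroup (Fin 2) K) := by
  have := hS.fin
  infer_instance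

/-- the elements of `SL(2,5)` conjugate to a given `y` in `SL₂(K)` -/
theorem card_conj_le (y : Matrix.SpecialLinearGroup (Fin 2) K) :
    Nat.card {x : SL25 // (x ≠ 1 ∧ x ≠ -1) ∧ ∃ u : Matrix.SpecialLinearGroup (Fin 2) K, j x = u * y * u⁻¹} ≤ 30 := by
  by_cases hne : ∃ x : SL25, (x ≠ 1 ∧ x ≠ -1) ∧ ∃ u : Matrix.SpecialLinearGroup (Fin 2) K, j x = u * y * u⁻¹
  swap
  · have : IsEmpty {x : SL25 // (x ≠ 1 ∧ x ≠ -1) ∧ ∃ u : Matrix.SpecialLinearGroup (Fin 2) K, j x = u * y * u⁻¹} :=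
      ⟨fun x => hne ⟨x.1, x.2⟩⟩
    rw [Nat.card_of_isEmpty]
    omega
  obtain ⟨x₀, ⟨h1, h2⟩, u₀, hu₀⟩ := hne
  have hconj : ∀ x : {x : SL25 // (x ≠ 1 ∧ x ≠ -1) ∧ ∃ u : Matrix.SpecialLinearGroup (Fin 2) K, j x = u * y * u⁻¹},
      ∃ w : Matrix.SpecialLinearGroup (Fin 2) K, j x.1 = w * j x₀ * w⁻¹ := by
    rintro ⟨x, -, u, hu⟩
    refine ⟨u * u₀⁻¹, ?_⟩
    change j x = _
    rw [hu, hu₀]; group
  have bound : ∀ (P : SL25 → Prop) (n : ℕ), Nat.card {x : SL25 // P x} ≤ n → n ≤ 30 →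
      (∀ x : {x : SL25 // (x ≠ 1 ∧ x ≠ -1) ∧ ∃ u : Matrix.SpecialLinearGroup (Fin 2) K, j x = u * y * u⁻¹}, P x.1) →
      Nat.card {x : SL25 // (x ≠ 1 ∧ x ≠ -1) ∧ ∃ u : Matrix.SpecialLinearGroup (Fin 2) K, j x = u * y * u⁻¹} ≤ 30 := by
    intro P n hn h30 hP
    refine le_trans ?_ (hn.trans h30)
    exact Nat.card_le_card_of_injective (fun x => (⟨x.1, hP x⟩ : {x : SL25 // P x}))
      (fun a b hab => Subtype.ext (congrArg (fun z : {x : SL25 // P x} => z.1) hab))
  have hm1 : ∀ w : Matrix.SpecialLinearGroup (Fin 2) K, w * (-1) * w⁻¹ = -1 := by intro w; simp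
  rcases F.orders x₀ h1 h2 with h | h | h | h | h
  · refine bound (fun x => x * x = -1) 30 (by rw [Nat.card_eq_fintype_card, F.card_four]) le_rfl fun x => ?_
    obtain ⟨w, hw⟩ := hconj x
    apply hS.jinj
    rw [map_mul, hw]
    calc w * j x₀ * w⁻¹ * (w * j x₀ * w⁻¹) = w * (j x₀ * j x₀) * w⁻¹ := by group
      _ = j (-1) := by rw [← map_mul, h, hS.j_neg, hm1]
  · refine bound (fun x => x * x * x = 1 ∧ x ≠ 1) 20 (by rw [Nat.card_eq_fintype_card, F.card_three]) (by norm_num)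
      fun x => ⟨?_, x.2.1.1⟩
    obtain ⟨w, hw⟩ := hconj x
    apply hS.jinj
    rw [map_mul, map_mul, hw]
    calc w * j x₀ * w⁻¹ * (w * j x₀ * w⁻¹) * (w * j x₀ * w⁻¹) = w * (j x₀ * j x₀ * j x₀) * w⁻¹ := by group
      _ = j 1 := by rw [← map_mul, ← map_mul, h, map_one]; group
  · refine bound (fun x => x * x * x = -1 ∧ x ≠ -1) 20 (by rw [Nat.card_eq_fintype_card, F.card_three']) (by norm_num)
      fun x => ⟨?_, x.2.1.2⟩
    obtain ⟨w, hw⟩ := hconj x
    apply hS.jinj
    rw [map_mul, map_mul, hw]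
    calc w * j x₀ * w⁻¹ * (w * j x₀ * w⁻¹) * (w * j x₀ * w⁻¹) = w * (j x₀ * j x₀ * j x₀) * w⁻¹ := by group
      _ = j (-1) := by rw [← map_mul, ← map_mul, h, hS.j_neg, hm1]
  · refine bound (fun x => x * x * x * x * x = 1 ∧ x ≠ 1) 24 (by rw [Nat.card_eq_fintype_card, F.card_five]) (by norm_num)
      fun x => ⟨?_, x.2.1.1⟩
    obtain ⟨w, hw⟩ := hconj x
    apply hS.jinj
    rw [map_mul, map_mul, map_mul, map_mul, hw]
    calc w * j x₀ * w⁻¹ * (w * j x₀ * w⁻¹) * (w * j x₀ * w⁻¹) * (w * j x₀ * w⁻¹) * (w * j x₀ * w⁻¹) =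
        w * (j x₀ * j x₀ * j x₀ * j x₀ * j x₀) * w⁻¹ := by group
      _ = j 1 := by rw [← map_mul, ← map_mul, ← map_mul, ← map_mul, h, map_one]; group
  · refine bound (fun x => x * x * x * x * x = -1 ∧ x ≠ -1) 24 (by rw [Nat.card_eq_fintype_card, F.card_five'])
      (by norm_num) fun x => ⟨?_, x.2.1.2⟩
    obtain ⟨w, hw⟩ := hconj x
    apply hS.jinj
    rw [map_mul, map_mul, map_mul, map_mul, hw]
    calc w * j x₀ * w⁻¹ * (w * j x₀ * w⁻¹) * (w * j x₀ * w⁻¹) * (w * j x₀ * w⁻¹) * (w * j x₀ * w⁻¹) =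
        w * (j x₀ * j x₀ * j x₀ * j x₀ * j x₀) * w⁻¹ := by group
      _ = j (-1) := by rw [← map_mul, ← map_mul, ← map_mul, ← map_mul, h, hS.j_neg, hm1]

/-- pairs `(u, x)` with `x u y = u` -/
theorem card_ux_le (y : Matrix.SpecialLinearGroup (Fin 2) K) :
    Nat.card {z : Matrix.SpecialLinearGroup (Fin 2) K × SL25 // (z.2 ≠ 1 ∧ z.2 ≠ -1) ∧ j z.2 * z.1 * y = z.1} ≤
      60 * Nat.card K := by
  have := hS.fin
  have := hS.finSL
  let X := {x : SL25 // (x ≠ 1 ∧ x ≠ -1) ∧ ∃ u : Matrix.SpecialLinearGroup (Fin 2) K, j x = u * y⁻¹ * u⁻¹}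
  have e : {z : Matrix.SpecialLinearGroup (Fin 2) K × SL25 // (z.2 ≠ 1 ∧ z.2 ≠ -1) ∧ j z.2 * z.1 * y = z.1} ≃
      Σ x : X, {u : Matrix.SpecialLinearGroup (Fin 2) K // j x.1 * u * y = u} :=
    { toFun := fun z => ⟨⟨z.1.2, z.2.1, z.1.1, by
        have h := z.2.2
        rw [← eq_mul_inv_iff_mul_eq] at h
        rw [← h]; group⟩, ⟨z.1.1, z.2.2⟩⟩
      invFun := fun s => ⟨(s.2.1, s.1.1), s.1.2.1, s.2.2⟩
      left_inv := fun z => rfl
      right_inv := fun s => rfl }
  rw [Nat.card_congr e]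
  have hF := Fintype.ofFinite X
  rw [Nat.card_sigma]
  have hX : Fintype.card X ≤ 30 := by
    rw [← Nat.card_eq_fintype_card]
    exact hS.card_conj_le y⁻¹
  calc ∑ x : X, Nat.card {u : Matrix.SpecialLinearGroup (Fin 2) K // j x.1 * u * y = u}
      ≤ ∑ _x : X, 2 * Nat.card K := by
        refine Finset.sum_le_sum fun x _ => ?_
        obtain ⟨⟨hx1, hx2⟩, u₀, hu₀⟩ := x.2
        have hc := card_cent_le (hS.not_scalar hx1 hx2)
        refine le_trans (Nat.card_le_card_of_injective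
          (fun u : {u : Matrix.SpecialLinearGroup (Fin 2) K // j x.1 * u * y = u} =>
            (⟨u.1 * u₀⁻¹, ?_⟩ : {u : Matrix.SpecialLinearGroup (Fin 2) K // u * j x.1 = j x.1 * u})) ?_) hc
        · have h := u.2
          rw [← eq_mul_inv_iff_mul_eq] at h
          calc u.1 * u₀⁻¹ * j x.1 = u.1 * u₀⁻¹ * (u₀ * y⁻¹ * u₀⁻¹) := congrArg (fun t => u.1 * u₀⁻¹ * t) hu₀
            _ = u.1 * y⁻¹ * u₀⁻¹ := by group
            _ = j x.1 * (u.1 * u₀⁻¹) := by rw [← h]; group
        · intro a b hab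
          have h := congrArg (fun z : {u : Matrix.SpecialLinearGroup (Fin 2) K // u * j x.1 = j x.1 * u} => z.1) hab
          exact Subtype.ext (mul_right_cancel h)
    _ = Fintype.card X * (2 * Nat.card K) := by rw [Finset.sum_const, Finset.card_univ, smul_eq_mul]
    _ ≤ 30 * (2 * Nat.card K) := Nat.mul_le_mul_right _ hX
    _ = 60 * Nat.card K := by ring

end SetupQ

end setup

end Cfsg.Agent.H312.HT
end

-- part: H312/HT/RankB
section
/-!
# Vectors of rank two (helper312, S3540)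
-/

set_option autoImplicit false

namespace Cfsg.Agent.H312.HT

open Cfsg.Agent.H828.HT Cfsg.Agent.PermutationGroups.AutSL25 Matrix

universe u v

section mats

variable {K : Type v} [Field K]

theorem scalar_of_comm {P : Matrix (Fin 2) (Fin 2) K} (h : ∀ M, P * M = M * P) : P = P 0 0 • 1 := by
  have h1 := h (eu 0 1)
  have h2 := h (eu 1 0)
  have a1 := congrFun (congrFun h1 0) 1
  have a2 := congrFun (congrFun h1 1) 1
  have a3 := congrFun (congrFun h2 0) 0
  simp only [Matrix.mul_apply, Fin.sum_univ_two, Matrix.single, _root_.Fin.isValue, _root_.Matrix.of_apply, _root_.and_true, _root_.mul_ite, _root_.mul_one, _root_.MulZeroClass.mul_zero, _root_.Finset.sum_ite_eq, _root_.Finset.mem_univ, ↓ _root_.reduceIte, _root_.true_and, _root_.ite_mul, _root_.one_mul, _root_.MulZeroClass.zero_mul, _root_.zero_ne_one, _root_.false_and, _root_.Finset.sum_const_zero, _root_.one_ne_zero] at a1 a2 a3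
  apply mat_ext <;> simp
  · exact a3
  · exact a2
  · exact a1.symm

variable {φ : Matrix (Fin 2) (Fin 2) K →+* Matrix (Fin 2) (Fin 2) K}

theorem phi_scalar [Finite K] (hφ : Function.Injective φ) (c : K) : ∃ c' : K, φ (c • 1) = c' • 1 := by
  have hs : Function.Surjective φ := Finite.surjective_of_injective hφ
  refine ⟨_, scalar_of_comm fun M => ?_⟩
  obtain ⟨N, rfl⟩ := hs M
  rw [← map_mul, ← map_mul, smul_mul_assoc, one_mul, mul_smul_comm, mul_one]

theorem phi_sl [Finite K] (hφ : Function.Injective φ) (u : Matrix.SpecialLinearGroup (Fin 2) K) :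
    ∃ w : Matrix.SpecialLinearGroup (Fin 2) K, φ u = w := by
  suffices h : (φ u).det = 1 from ⟨⟨φ u, h⟩, rfl⟩
  obtain ⟨c, hc⟩ := phi_scalar hφ (u 0 0 + u 1 1)
  set N := φ u with hN
  have h1 : N * N = c • N - 1 := by
    rw [hN, ← map_mul, sl_sq, map_sub, map_one]
    congr 1
    have h2 : (u 0 0 + u 1 1) • (u : Matrix (Fin 2) (Fin 2) K) = ((u 0 0 + u 1 1) • 1) * u := by
      rw [smul_mul_assoc, one_mul]
    rw [h2, map_mul, hc, smul_mul_assoc, one_mul]
  have e00 := congrFun (congrFun h1 0) 0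
  have e01 := congrFun (congrFun h1 0) 1
  have e10 := congrFun (congrFun h1 1) 0
  have e11 := congrFun (congrFun h1 1) 1
  simp only [Matrix.mul_apply, Fin.sum_univ_two, _root_.Fin.isValue, _root_.Matrix.sub_apply, _root_.Matrix.smul_apply, _root_.smul_eq_mul, _root_.Matrix.one_apply_eq, _root_.ne_eq, _root_.zero_ne_one, _root_.not_false_eq_true, _root_.Matrix.one_apply_ne, _root_.sub_zero, _root_.one_ne_zero] at e00 e01 e10 e11
  rw [Matrix.det_fin_two]
  by_cases hs : N 0 1 = 0 ∧ N 1 0 = 0 ∧ N 0 0 = N 1 1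
  · obtain ⟨h01, h10, h00⟩ := hs
    -- `N` is scalar
    have hsc : N = N 0 0 • 1 := by
      apply mat_ext <;> simp [h01, h10, ← h00]
    have hu : ∀ M : Matrix (Fin 2) (Fin 2) K, (u : Matrix (Fin 2) (Fin 2) K) * M = M * u := by
      intro M
      apply hφ
      rw [map_mul, map_mul, ← hN, hsc, smul_mul_assoc, mul_smul_comm, one_mul, mul_one]
    have hu2 := scalar_of_comm hu
    have hdet := sl_det u
    have u01 := congrFun (congrFun hu2 0) 1
    have u11 := congrFun (congrFun hu2 1) 1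
    simp at u01 u11
    rw [u01, u11, zero_mul, sub_zero] at hdet
    have h3 : (u : Matrix (Fin 2) (Fin 2) K) * u = 1 := by
      rw [hu2, smul_mul_smul_comm, one_mul, hdet, one_smul]
    have h4 : N * N = 1 := by rw [hN, ← map_mul, h3, map_one]
    have h5 := congrFun (congrFun h4 0) 0
    simp only [Matrix.mul_apply, Fin.sum_univ_two, h01, _root_.Fin.isValue, _root_.MulZeroClass.zero_mul, _root_.add_zero, _root_.Matrix.one_apply_eq] at h5
    rw [h01, zero_mul, sub_zero, ← h00, h5]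
  · have htr : N 0 0 + N 1 1 = c := by
      by_contra hne
      have hne' := sub_ne_zero.2 hne
      apply hs
      refine ⟨?_, ?_, ?_⟩
      · have : (N 0 0 + N 1 1 - c) * N 0 1 = 0 := by linear_combination e01
        exact (mul_eq_zero.1 this).resolve_left hne'
      · have : (N 0 0 + N 1 1 - c) * N 1 0 = 0 := by linear_combination e10
        exact (mul_eq_zero.1 this).resolve_left hne'
      · have : (N 0 0 + N 1 1 - c) * (N 0 0 - N 1 1) = 0 := by linear_combination e00 - e11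
        exact sub_eq_zero.1 ((mul_eq_zero.1 this).resolve_left hne')
    rw [← htr] at e00
    linear_combination -e00

end mats

section setup

variable {p : ℕ} [Fact p.Prime] {V : Type u} [AddCommGroup V] [Module (ZMod p) V] [Finite V]
  {G : Subgroup (V ≃ₗ[ZMod p] V)} {h : ℕ} {K : Type v} [Field K] [Module (Matrix (Fin 2) (Fin 2) K) V]
  {j : SL25 →* Matrix.SpecialLinearGroup (Fin 2) K} {l : SL25 →* (V ≃ₗ[ZMod p] V)}

/-- the orbit of `v` under `SL₂(K)` -/
def XX (K : Type v) [Field K] [Module (Matrix (Fin 2) (Fin 2) K) V] (v : V) : Set V :=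
  {w | ∃ u : Matrix.SpecialLinearGroup (Fin 2) K, w = (u : Matrix (Fin 2) (Fin 2) K) • v}

theorem card_XX {v : V} (hv : Rk2 K v) : Nat.card (XX K v) = Nat.card (Matrix.SpecialLinearGroup (Fin 2) K) := by
  refine (Nat.card_congr (Equiv.ofBijective (fun u : Matrix.SpecialLinearGroup (Fin 2) K =>
    (⟨(u : Matrix (Fin 2) (Fin 2) K) • v, u, rfl⟩ : XX K v)) ⟨?_, ?_⟩)).symm
  · intro a b hab
    have h1 := congrArg Subtype.val hab
    exact Subtype.ext (hv.inj h1)
  · rintro ⟨w, u, rfl⟩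
    exact ⟨u, rfl⟩

/-- the stabiliser of `XX K v` in `G` -/
def G1 (G : Subgroup (V ≃ₗ[ZMod p] V)) (X : Set V) : Subgroup (V ≃ₗ[ZMod p] V) where
  carrier := {g | g ∈ G ∧ ∀ w, g w ∈ X ↔ w ∈ X}
  one_mem' := ⟨one_mem _, fun w => Iff.rfl⟩
  mul_mem' := by
    rintro a b ⟨ha, ha'⟩ ⟨hb, hb'⟩
    exact ⟨mul_mem ha hb, fun w => by rw [LinearEquiv.mul_apply, ha', hb']⟩
  inv_mem' := by
    rintro a ⟨ha, ha'⟩
    refine ⟨inv_mem ha, fun w => ?_⟩
    rw [← ha', ← LinearEquiv.mul_apply, mul_inv_cancel]; rfl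

namespace SetupQ

variable (hS : SetupQ G K j l)

include hS

omit [Finite V] in
theorem restrict {H : Subgroup (V ≃ₗ[ZMod p] V)} (hH : H ≤ G) (hm : ∀ x, l x ∈ H) : SetupQ H K j l where
  p7 := hS.p7
  char := hS.char
  fin := hS.fin
  card := hS.card
  nontriv := hS.nontriv
  jinj := hS.jinj
  act := hS.act
  mem := hm
  norm := fun g hg x => hS.norm g (hH hg) x
  span := hS.span

omit [Finite V] in
theorem mem_G1_of_fix {v w : V} (hw : w ∈ XX K v) {g : V ≃ₗ[ZMod p] V} (hg : g ∈ G) (hgw : g w = w) :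
    g ∈ G1 G (XX K v) := by
  have := hS.fin
  obtain ⟨u, rfl⟩ := hw
  have key : ∀ g : V ≃ₗ[ZMod p] V, g ∈ G → g ((u : Matrix (Fin 2) (Fin 2) K) • v) = (u : Matrix (Fin 2) (Fin 2) K) • v →
      ∀ w ∈ XX K v, g w ∈ XX K v := by
    rintro g hg hgw _ ⟨u', rfl⟩
    obtain ⟨ψ, hψ, -⟩ := hS.exists_psi hg
    obtain ⟨φ, hφ, -, hi⟩ := hS.exists_phi hψ
    obtain ⟨z, hz⟩ := phi_sl hi (u' * u⁻¹)
    refine ⟨z * u, ?_⟩
    have h1 : (u' : Matrix (Fin 2) (Fin 2) K) • v =
        ((u' * u⁻¹ : Matrix.SpecialLinearGroup (Fin 2) K) : Matrix (Fin 2) (Fin 2) K) • (u : Matrix (Fin 2) (Fin 2) K) • v := by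
      rw [← mul_smul, ← Matrix.SpecialLinearGroup.coe_mul, inv_mul_cancel_right]
    rw [h1, hφ, hgw, hz, ← mul_smul, ← Matrix.SpecialLinearGroup.coe_mul]
  refine ⟨hg, fun w => ⟨fun hw => ?_, key g hg hgw w⟩⟩
  have h2 := key g⁻¹ (inv_mem hg) (by
    conv_lhs => rw [← hgw]
    rw [← LinearEquiv.mul_apply, inv_mul_cancel]; rfl) (g w) hw
  rw [← LinearEquiv.mul_apply, inv_mul_cancel] at h2
  exact h2

omit [Finite V] in
theorem l_mem_G1 (v : V) (x : SL25) : l x ∈ G1 G (XX K v) := by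
  have key : ∀ y : SL25, ∀ w ∈ XX K v, l y w ∈ XX K v := by
    rintro y _ ⟨u, rfl⟩
    refine ⟨j y * u, ?_⟩
    rw [hS.act, ← mul_smul, Matrix.SpecialLinearGroup.coe_mul]
  refine ⟨hS.mem x, fun w => ⟨fun hw => ?_, key x w⟩⟩
  have h2 := key x⁻¹ _ hw
  rw [map_inv, ← LinearEquiv.mul_apply, inv_mul_cancel] at h2
  exact h2

omit [Finite V] in
/-- `α` fixes `u • v` iff it fixes `v` -/
theorem AA_fix {α : V ≃ₗ[ZMod p] V} (hα : α ∈ AA G l) (u : Matrix.SpecialLinearGroup (Fin 2) K) (v : V) :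
    α ((u : Matrix (Fin 2) (Fin 2) K) • v) = (u : Matrix (Fin 2) (Fin 2) K) • v ↔ α v = v := by
  rw [hS.comm_smul hα]
  constructor
  · intro h
    have h1 := congrArg (fun w => ((u⁻¹ : Matrix.SpecialLinearGroup (Fin 2) K) : Matrix (Fin 2) (Fin 2) K) • w) h
    simp only [← mul_smul] at h1
    rw [← Matrix.SpecialLinearGroup.coe_mul, inv_mul_cancel, Matrix.SpecialLinearGroup.coe_one, one_smul, one_smul] at h1
    exact h1
  · intro h; rw [h]

/-- the elements of `AA` which map `v` into `XX K v` -/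
theorem mem_AA_G1 {v : V} {α : V ≃ₗ[ZMod p] V} : α ∈ AA (G1 G (XX K v)) l ↔ α ∈ AA G l ∧ α v ∈ XX K v := by
  constructor
  · intro hα
    rw [mem_AA] at hα
    refine ⟨mem_AA.2 ⟨hα.1.1, hα.2⟩, (hα.1.2 v).2 ⟨1, ?_⟩⟩
    rw [Matrix.SpecialLinearGroup.coe_one, one_smul]
  · rintro ⟨hα, y, hy⟩
    rw [mem_AA]
    refine ⟨⟨AA_le hα, fun w => ?_⟩, (mem_AA.1 hα).2⟩
    constructor
    · rintro ⟨u, hu⟩
      refine ⟨u * y⁻¹, ?_⟩
      apply α.injective
      rw [hu, hS.comm_smul hα, hy, ← mul_smul, ← Matrix.SpecialLinearGroup.coe_mul, inv_mul_cancel_right]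
    · rintro ⟨u, rfl⟩
      refine ⟨u * y, ?_⟩
      rw [hS.comm_smul hα, hy, ← mul_smul, ← Matrix.SpecialLinearGroup.coe_mul]

theorem neg_mem_AA : l (-1) ∈ AA G l := by
  rw [mem_AA]
  refine ⟨hS.mem _, fun y => ?_⟩
  rw [← map_mul, ← map_mul]; simp

/-- `|A₁'| + 2 |D| ≤ |A₁|` -/
theorem card_A1' {v : V} (hv : Rk2 K v) :
    Nat.card {α : AA (G1 G (XX K v)) l // (α : V ≃ₗ[ZMod p] V) v ≠ v ∧ (α : V ≃ₗ[ZMod p] V) v ≠ -v} +
      2 * Nat.card (sg (AA G l) v) ≤ Nat.card (AA (G1 G (XX K v)) l) := by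
  have hv0 := hv.ne_zero
  have h2v : v ≠ -v := by
    intro h
    have h1 : (2 : Matrix (Fin 2) (Fin 2) K) • v = 0 := by
      rw [two_smul]
      nth_rewrite 2 [h]
      exact add_neg_cancel v
    have h2 := congrFun (congrFun (hv _ h1) 0) 0
    simp at h2
    exact hS.two_ne h2
  have hb : Nat.card (Bool × sg (AA G l) v) = 2 * Nat.card (sg (AA G l) v) := by
    rw [Nat.card_prod, Nat.card_eq_fintype_card, Fintype.card_bool]
  rw [← hb, ← Nat.card_sum]
  have hmem : ∀ δ ∈ sg (AA G l) v, δ ∈ AA (G1 G (XX K v)) l := fun δ hδ => hS.mem_AA_G1.2 ⟨hδ.1, 1, by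
    rw [Matrix.SpecialLinearGroup.coe_one, one_smul]; exact hδ.2⟩
  have hneg : l (-1) ∈ AA (G1 G (XX K v)) l := hS.mem_AA_G1.2 ⟨hS.neg_mem_AA, -1, by
    rw [hS.act, hS.j_neg]⟩
  let f : {α : AA (G1 G (XX K v)) l // (α : V ≃ₗ[ZMod p] V) v ≠ v ∧ (α : V ≃ₗ[ZMod p] V) v ≠ -v} ⊕
      (Bool × sg (AA G l) v) → AA (G1 G (XX K v)) l := fun z => match z with
    | Sum.inl α => α.1
    | Sum.inr (true, δ) => ⟨δ, hmem δ δ.2⟩
    | Sum.inr (false, δ) => ⟨l (-1) * δ, mul_mem hneg (hmem δ δ.2)⟩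
  have ht : ∀ δ : sg (AA G l) v, ((f (Sum.inr (true, δ)) : AA (G1 G (XX K v)) l) : V ≃ₗ[ZMod p] V) v = v := fun δ => δ.2.2
  have hf : ∀ δ : sg (AA G l) v, ((f (Sum.inr (false, δ)) : AA (G1 G (XX K v)) l) : V ≃ₗ[ZMod p] V) v = -v := fun δ => by
    change l (-1) ((δ : V ≃ₗ[ZMod p] V) v) = -v
    rw [δ.2.2, hS.l_neg]
  refine Nat.card_le_card_of_injective f ?_
  rintro (α | ⟨a, δ⟩) (β | ⟨b, ε⟩) hab
  · exact congrArg Sum.inl (Subtype.ext hab)
  · exfalso
    have h1 : ((α.1 : AA (G1 G (XX K v)) l) : V ≃ₗ[ZMod p] V) v = ((f (Sum.inr (b, ε)) : AA (G1 G (XX K v)) l) : V ≃ₗ[ZMod p] V) v :=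
      congrArg (fun g : AA (G1 G (XX K v)) l => (g : V ≃ₗ[ZMod p] V) v) hab
    cases b
    · rw [hf] at h1; exact α.2.2 h1
    · rw [ht] at h1; exact α.2.1 h1
  · exfalso
    have h1 : ((f (Sum.inr (a, δ)) : AA (G1 G (XX K v)) l) : V ≃ₗ[ZMod p] V) v = ((β.1 : AA (G1 G (XX K v)) l) : V ≃ₗ[ZMod p] V) v :=
      congrArg (fun g : AA (G1 G (XX K v)) l => (g : V ≃ₗ[ZMod p] V) v) hab
    cases a
    · rw [hf] at h1; exact β.2.2 h1.symm
    · rw [ht] at h1; exact β.2.1 h1.symm
  · have h1 := congrArg (fun g : AA (G1 G (XX K v)) l => (g : V ≃ₗ[ZMod p] V) v) hab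
    have h2 := congrArg (fun g : AA (G1 G (XX K v)) l => (g : V ≃ₗ[ZMod p] V)) hab
    cases a <;> cases b
    · have h3 : l (-1) * (δ : V ≃ₗ[ZMod p] V) = l (-1) * ε := h2
      rw [Subtype.ext (mul_left_cancel h3)]
    · exfalso
      have h4 : -v = v := by
        have := h1
        simp only [hf, ht] at this
        exact this
      exact h2v h4.symm
    · exfalso
      have h4 : v = -v := by
        have := h1
        simp only [hf, ht] at this
        exact this
      exact h2v h4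
    · have h3 : (δ : V ≃ₗ[ZMod p] V) = ε := h2
      rw [Subtype.ext h3]

/-- the triples with `x = ±1` -/
theorem card_T3a {v : V} :
    Nat.card {z : (Matrix.SpecialLinearGroup (Fin 2) K) × (SL25 × AA G l) //
      (l z.2.1 * (z.2.2 : V ≃ₗ[ZMod p] V)) ((z.1 : Matrix (Fin 2) (Fin 2) K) • v) = (z.1 : Matrix (Fin 2) (Fin 2) K) • v ∧
        (z.2.1 = 1 ∨ z.2.1 = -1)} ≤
      2 * Nat.card (sg (AA G l) v) * Nat.card (Matrix.SpecialLinearGroup (Fin 2) K) := by
  have := hS.finSL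
  have hb : Nat.card ((Bool × sg (AA G l) v) × (Matrix.SpecialLinearGroup (Fin 2) K)) =
      2 * Nat.card (sg (AA G l) v) * Nat.card (Matrix.SpecialLinearGroup (Fin 2) K) := by
    rw [Nat.card_prod, Nat.card_prod, Nat.card_eq_fintype_card (α := Bool), Fintype.card_bool]
  rw [← hb]
  have key : ∀ z : {z : (Matrix.SpecialLinearGroup (Fin 2) K) × (SL25 × AA G l) //
      (l z.2.1 * (z.2.2 : V ≃ₗ[ZMod p] V)) ((z.1 : Matrix (Fin 2) (Fin 2) K) • v) = (z.1 : Matrix (Fin 2) (Fin 2) K) • v ∧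
        (z.2.1 = 1 ∨ z.2.1 = -1)}, l z.1.2.1 * (z.1.2.2 : V ≃ₗ[ZMod p] V) ∈ sg (AA G l) v := by
    rintro ⟨⟨u, x, α⟩, h1, h2⟩
    have h3 : l x * (α : V ≃ₗ[ZMod p] V) ∈ AA G l := by
      rcases h2 with h2 | h2
      · have h4 : x = 1 := h2
        rw [h4, map_one, one_mul]; exact α.2
      · have h4 : x = -1 := h2
        rw [h4]; exact mul_mem hS.neg_mem_AA α.2
    exact ⟨h3, (hS.AA_fix h3 u v).1 h1⟩
  refine Nat.card_le_card_of_injective (fun z => ((decide (z.1.2.1 = 1), ⟨_, key z⟩), z.1.1)) ?_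
  rintro ⟨⟨u, x, α⟩, h1, h2⟩ ⟨⟨u', x', α'⟩, h1', h2'⟩ hab
  simp only [Prod.mk.injEq, decide_eq_decide, Subtype.mk.injEq] at hab
  obtain ⟨⟨e1, e2⟩, e3⟩ := hab
  have hx : x = x' := by
    rcases h2 with h2 | h2 <;> rcases h2' with h2' | h2'
    · exact h2.trans h2'.symm
    · exact (h2.trans (e1.1 h2).symm)
    · exact ((e1.2 h2').trans h2'.symm)
    · exact h2.trans h2'.symm
  subst hx
  have e4 := mul_left_cancel e2
  have e5 : α = α' := Subtype.ext e4
  subst e5
  subst e3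
  rfl

/-- the triples with `x ≠ ±1` -/
theorem card_T3b {v : V} (hv : Rk2 K v) :
    Nat.card {z : (Matrix.SpecialLinearGroup (Fin 2) K) × (SL25 × AA G l) //
      (l z.2.1 * (z.2.2 : V ≃ₗ[ZMod p] V)) ((z.1 : Matrix (Fin 2) (Fin 2) K) • v) = (z.1 : Matrix (Fin 2) (Fin 2) K) • v ∧
        ¬ (z.2.1 = 1 ∨ z.2.1 = -1)} ≤
      Nat.card {α : AA (G1 G (XX K v)) l // (α : V ≃ₗ[ZMod p] V) v ≠ v ∧ (α : V ≃ₗ[ZMod p] V) v ≠ -v} *
        (60 * Nat.card K) := by
  have := hS.finSL
  let A' := {α : AA (G1 G (XX K v)) l // (α : V ≃ₗ[ZMod p] V) v ≠ v ∧ (α : V ≃ₗ[ZMod p] V) v ≠ -v}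
  have hy : ∀ α : A', ∃ y : Matrix.SpecialLinearGroup (Fin 2) K, (α.1 : V ≃ₗ[ZMod p] V) v = (y : Matrix (Fin 2) (Fin 2) K) • v :=
    fun α => (hS.mem_AA_G1.1 α.1.2).2
  choose y hy using hy
  have key : ∀ z : {z : (Matrix.SpecialLinearGroup (Fin 2) K) × (SL25 × AA G l) //
      (l z.2.1 * (z.2.2 : V ≃ₗ[ZMod p] V)) ((z.1 : Matrix (Fin 2) (Fin 2) K) • v) = (z.1 : Matrix (Fin 2) (Fin 2) K) • v ∧
        ¬ (z.2.1 = 1 ∨ z.2.1 = -1)}, ∃ α : A', (z.1.2.2 : V ≃ₗ[ZMod p] V) = (α.1 : V ≃ₗ[ZMod p] V) ∧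
          j z.1.2.1 * z.1.1 * y α = z.1.1 := by
    rintro ⟨⟨u, x, α, hα⟩, h1, h2⟩
    have h1' : (j x : Matrix (Fin 2) (Fin 2) K) • (u : Matrix (Fin 2) (Fin 2) K) • α v = (u : Matrix (Fin 2) (Fin 2) K) • v := by
      rw [← hS.comm_smul hα, ← hS.act]; exact h1
    have h3 : α v = ((u⁻¹ * (j x)⁻¹ * u : Matrix.SpecialLinearGroup (Fin 2) K) : Matrix (Fin 2) (Fin 2) K) • v := by
      rw [Matrix.SpecialLinearGroup.coe_mul, mul_smul, ← h1', ← mul_smul, ← mul_smul,
        ← Matrix.SpecialLinearGroup.coe_mul, ← Matrix.SpecialLinearGroup.coe_mul]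
      have e : u⁻¹ * (j x)⁻¹ * (j x) * u = 1 := by group
      rw [e, Matrix.SpecialLinearGroup.coe_one, one_smul]
    have hm : α ∈ AA (G1 G (XX K v)) l := hS.mem_AA_G1.2 ⟨hα, _, h3⟩
    have hne : ∀ y' : Matrix.SpecialLinearGroup (Fin 2) K, α v = (y' : Matrix (Fin 2) (Fin 2) K) • v → j x * u * y' = u := by
      intro y' hy'
      rw [hy'] at h1'
      rw [← mul_smul, ← mul_smul, ← Matrix.SpecialLinearGroup.coe_mul, ← Matrix.SpecialLinearGroup.coe_mul] at h1'
      have h8 := hv.inj h1'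
      exact Subtype.ext h8
    have h4 : α v ≠ v := by
      intro h5
      have h6 := hne 1 (by rw [Matrix.SpecialLinearGroup.coe_one, one_smul]; exact h5)
      rw [mul_one] at h6
      exact h2 (Or.inl (hS.jinj ((mul_eq_right.1 h6).trans (map_one j).symm)))
    have h5 : α v ≠ -v := by
      intro h5
      have h6 := hne (-1) (by simp [h5])
      rw [mul_neg, mul_one] at h6
      refine h2 (Or.inr (hS.jinj ?_))
      rw [hS.j_neg]
      have h7 : j x * u = -u := by rw [← h6, neg_neg]; rw [h6]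
      have h8 : j x = -u * u⁻¹ := by rw [← h7, mul_inv_cancel_right]
      rw [h8, neg_mul, mul_inv_cancel]
    exact ⟨⟨⟨α, hm⟩, h4, h5⟩, rfl, hne (y ⟨⟨α, hm⟩, h4, h5⟩) (hy ⟨⟨α, hm⟩, h4, h5⟩)⟩
  choose a ha1 ha2 using key
  have hle : Nat.card {z : (Matrix.SpecialLinearGroup (Fin 2) K) × (SL25 × AA G l) //
      (l z.2.1 * (z.2.2 : V ≃ₗ[ZMod p] V)) ((z.1 : Matrix (Fin 2) (Fin 2) K) • v) = (z.1 : Matrix (Fin 2) (Fin 2) K) • v ∧
        ¬ (z.2.1 = 1 ∨ z.2.1 = -1)} ≤ Nat.card (Σ α : A', {z : Matrix.SpecialLinearGroup (Fin 2) K × SL25 //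
          (z.2 ≠ 1 ∧ z.2 ≠ -1) ∧ j z.2 * z.1 * y α = z.1}) := by
    refine Nat.card_le_card_of_injective (fun z => ⟨a z, (z.1.1, z.1.2.1), by
      have := z.2.2
      push Not at this
      exact this, ha2 z⟩) ?_
    intro z z' h
    have e1 : a z = a z' := congrArg (fun s => s.1) h
    have e2 : (z.1.1, z.1.2.1) = (z'.1.1, z'.1.2.1) := congrArg (fun s : (Σ α : A', {z : Matrix.SpecialLinearGroup (Fin 2) K × SL25 //
          (z.2 ≠ 1 ∧ z.2 ≠ -1) ∧ j z.2 * z.1 * y α = z.1}) => s.2.1) h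
    have e3 : z.1.2.2 = z'.1.2.2 := Subtype.ext ((ha1 z).trans ((by rw [e1] : _ = _).trans (ha1 z').symm))
    have e4 : z.1.1 = z'.1.1 := (Prod.mk.inj e2).1
    have e5 : z.1.2.1 = z'.1.2.1 := (Prod.mk.inj e2).2
    exact Subtype.ext (Prod.ext e4 (Prod.ext e5 e3))
  refine hle.trans ?_
  have hF := Fintype.ofFinite A'
  rw [Nat.card_sigma]
  calc _ ≤ ∑ _α : A', 60 * Nat.card K := Finset.sum_le_sum fun α _ => hS.card_ux_le (y α)
    _ = _ := by
      rw [Finset.sum_const, Finset.card_univ, smul_eq_mul]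
      congr 1
      exact (Nat.card_eq_fintype_card (α := A')).symm

/-- **The main count.** -/
theorem count {v : V} (hv : Rk2 K v) {k₀ : ℕ}
    (hk : ∀ u : Matrix.SpecialLinearGroup (Fin 2) K, k₀ ≤ 2 * Nat.card (sg (LC G l) ((u : Matrix (Fin 2) (Fin 2) K) • v))) :
    k₀ * Nat.card (Matrix.SpecialLinearGroup (Fin 2) K) + 120 * Nat.card K * Nat.card (sg (AA G l) v) ≤
    2 * Nat.card (sg (AA G l) v) * Nat.card (Matrix.SpecialLinearGroup (Fin 2) K) +
      60 * Nat.card K * Nat.card (AA (G1 G (XX K v)) l) := by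
  have := hS.finSL
  have hF := Fintype.ofFinite (Matrix.SpecialLinearGroup (Fin 2) K)
  have h1 : k₀ * Nat.card (Matrix.SpecialLinearGroup (Fin 2) K) ≤
      Nat.card {z : (Matrix.SpecialLinearGroup (Fin 2) K) × (SL25 × AA G l) //
      (l z.2.1 * (z.2.2 : V ≃ₗ[ZMod p] V)) ((z.1 : Matrix (Fin 2) (Fin 2) K) • v) = (z.1 : Matrix (Fin 2) (Fin 2) K) • v} := by
    have e : {z : (Matrix.SpecialLinearGroup (Fin 2) K) × (SL25 × AA G l) //
      (l z.2.1 * (z.2.2 : V ≃ₗ[ZMod p] V)) ((z.1 : Matrix (Fin 2) (Fin 2) K) • v) = (z.1 : Matrix (Fin 2) (Fin 2) K) • v} ≃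
        Σ u : Matrix.SpecialLinearGroup (Fin 2) K, {w : SL25 × AA G l // (l w.1 * (w.2 : V ≃ₗ[ZMod p] V))
          ((u : Matrix (Fin 2) (Fin 2) K) • v) = (u : Matrix (Fin 2) (Fin 2) K) • v} :=
      { toFun := fun z => ⟨z.1.1, z.1.2, z.2⟩
        invFun := fun s => ⟨(s.1, s.2.1), s.2.2⟩
        left_inv := fun z => rfl
        right_inv := fun s => rfl }
    rw [Nat.card_congr e, Nat.card_sigma]
    calc k₀ * Nat.card (Matrix.SpecialLinearGroup (Fin 2) K) = ∑ _u : Matrix.SpecialLinearGroup (Fin 2) K, k₀ := by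
          rw [Finset.sum_const, Finset.card_univ, smul_eq_mul, Nat.card_eq_fintype_card, mul_comm]
      _ ≤ _ := by
          refine Finset.sum_le_sum fun u _ => ?_
          rw [hS.card_pairs (fun g => g ((u : Matrix (Fin 2) (Fin 2) K) • v) = (u : Matrix (Fin 2) (Fin 2) K) • v)]
          refine (hk u).trans (le_of_eq ?_)
          congr 1
          exact Nat.card_congr ⟨fun g => ⟨⟨g.1, g.2.1⟩, g.2.2⟩, fun g => ⟨g.1.1, g.1.2, g.2⟩, fun g => rfl, fun g => rfl⟩
  have h2 : Nat.card {z : (Matrix.SpecialLinearGroup (Fin 2) K) × (SL25 × AA G l) //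
      (l z.2.1 * (z.2.2 : V ≃ₗ[ZMod p] V)) ((z.1 : Matrix (Fin 2) (Fin 2) K) • v) = (z.1 : Matrix (Fin 2) (Fin 2) K) • v} ≤
      Nat.card {z : (Matrix.SpecialLinearGroup (Fin 2) K) × (SL25 × AA G l) //
      (l z.2.1 * (z.2.2 : V ≃ₗ[ZMod p] V)) ((z.1 : Matrix (Fin 2) (Fin 2) K) • v) = (z.1 : Matrix (Fin 2) (Fin 2) K) • v ∧
        (z.2.1 = 1 ∨ z.2.1 = -1)} + Nat.card {z : (Matrix.SpecialLinearGroup (Fin 2) K) × (SL25 × AA G l) //
      (l z.2.1 * (z.2.2 : V ≃ₗ[ZMod p] V)) ((z.1 : Matrix (Fin 2) (Fin 2) K) • v) = (z.1 : Matrix (Fin 2) (Fin 2) K) • v ∧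
        ¬ (z.2.1 = 1 ∨ z.2.1 = -1)} := by
    rw [← Nat.card_sum]
    refine Nat.card_le_card_of_injective (fun z => if h : z.1.2.1 = 1 ∨ z.1.2.1 = -1 then
      Sum.inl ⟨z.1, z.2, h⟩ else Sum.inr ⟨z.1, z.2, h⟩) ?_
    intro z z' h
    by_cases hz : z.1.2.1 = 1 ∨ z.1.2.1 = -1 <;> by_cases hz' : z'.1.2.1 = 1 ∨ z'.1.2.1 = -1
    · simp only [hz, hz', dif_pos, Sum.inl.injEq, Subtype.mk.injEq] at h
      exact Subtype.ext h
    · simp only [hz, hz', dif_pos, dif_neg, not_false_eq_true, reduceCtorEq] at h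
    · simp only [hz, hz', dif_pos, dif_neg, not_false_eq_true, reduceCtorEq] at h
    · simp only [hz, hz', dif_neg, not_false_eq_true, Sum.inr.injEq, Subtype.mk.injEq] at h
      exact Subtype.ext h
  have h3 := hS.card_T3a (v := v)
  have h4 := hS.card_T3b hv
  have h5 := hS.card_A1' hv
  set A' := Nat.card {α : AA (G1 G (XX K v)) l // (α : V ≃ₗ[ZMod p] V) v ≠ v ∧ (α : V ≃ₗ[ZMod p] V) v ≠ -v}
  have h6 : (A' + 2 * Nat.card (sg (AA G l) v)) * (60 * Nat.card K) ≤ Nat.card (AA (G1 G (XX K v)) l) * (60 * Nat.card K) :=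
    Nat.mul_le_mul_right _ h5
  linarith only [h1, h2, h3, h4, h6]

end SetupQ

end setup

end Cfsg.Agent.H312.HT
end

-- part: H312/HT/RankC
section
/-!
# Vectors of rank two: the orders of the stabilisers (helper312, S3540)
-/

set_option autoImplicit false

namespace Cfsg.Agent.H312.HT

open Cfsg.Agent.H828.HT Cfsg.Agent.PermutationGroups.AutSL25 Matrix

universe u v

variable {p : ℕ} [Fact p.Prime] {V : Type u} [AddCommGroup V] [Module (ZMod p) V] [Finite V]
  {G : Subgroup (V ≃ₗ[ZMod p] V)} {h : ℕ} {K : Type v} [Field K] [Module (Matrix (Fin 2) (Fin 2) K) V]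
  {j : SL25 →* Matrix.SpecialLinearGroup (Fin 2) K} {l : SL25 →* (V ≃ₗ[ZMod p] V)}

theorem num_a {q h D A S : ℕ} (hq : 2 ≤ q) (hS : S = q * (q ^ 2 - 1)) (hD : D ∣ h) (h0 : 1 ≤ h)
    (h1 : 2 * h * S + 120 * q * D ≤ 2 * D * S + 60 * q * A) (h2 : 60 * A ≤ h * (q ^ 2 - 1)) : h = D := by
  have hq2 : 3 ≤ q ^ 2 - 1 := by
    have : 4 ≤ q ^ 2 := by nlinarith only [hq]
    omega
  set R := q ^ 2 - 1 with hR
  subst hS
  have hD0 : 0 < D := Nat.pos_of_dvd_of_pos hD h0
  have h3 : q * (2 * h * R + 120 * D) ≤ q * (2 * D * R + 60 * A) := by linarith only [h1]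
  have h4 := Nat.le_of_mul_le_mul_left h3 (by omega)
  have h5 : h * R < 2 * D * R := by linarith only [h2, hD0, h4]
  have h6 : h < 2 * D := Nat.lt_of_mul_lt_mul_right h5
  obtain ⟨c, rfl⟩ := hD
  have h7 : D * c < D * 2 := by omega
  have h8 : c < 2 := Nat.lt_of_mul_lt_mul_left h7
  have h9 : c ≠ 0 := by rintro rfl; omega
  have h10 : c = 1 := by omega
  rw [h10, mul_one]

theorem num_b {q h D A S k : ℕ} (hq : 2 ≤ q) (hS : S = q * (q ^ 2 - 1)) (hk : h = 2 * k) (hD : D ∣ k) (h0 : 1 ≤ h)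
    (h1 : h * S + 120 * q * D ≤ 2 * D * S + 60 * q * A) (h2 : 120 * A ≤ h * (q ^ 2 - 1)) : h = 2 * D := by
  have hq2 : 3 ≤ q ^ 2 - 1 := by
    have : 4 ≤ q ^ 2 := by nlinarith only [hq]
    omega
  set R := q ^ 2 - 1 with hR
  subst hS
  have hD0 : 0 < D := Nat.pos_of_dvd_of_pos hD (by omega)
  have h3 : q * (h * R + 120 * D) ≤ q * (2 * D * R + 60 * A) := by linarith only [h1]
  have h4 := Nat.le_of_mul_le_mul_left h3 (by omega)
  have h5 : h * R < 4 * D * R := by linarith only [h2, hD0, h4]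
  have h6 : h < 4 * D := Nat.lt_of_mul_lt_mul_right h5
  obtain ⟨c, rfl⟩ := hD
  have h7 : D * c < D * 2 := by omega
  have h8 : c < 2 := Nat.lt_of_mul_lt_mul_left h7
  have h9 : c ≠ 0 := by rintro rfl; omega
  have h10 : c = 1 := by omega
  rw [hk, h10, mul_one]

theorem AA_mono {H : Subgroup (V ≃ₗ[ZMod p] V)} (hH : H ≤ G) : AA H l ≤ AA G l := fun _ hα =>
  mem_AA.2 ⟨hH (mem_AA.1 hα).1, (mem_AA.1 hα).2⟩

theorem LC_mono {H : Subgroup (V ≃ₗ[ZMod p] V)} (hH : H ≤ G) : LC H l ≤ LC G l := by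
  rintro _ ⟨x, α, hα, rfl⟩
  exact ⟨x, α, AA_mono hH hα, rfl⟩

theorem G1_le {X : Set V} : G1 G X ≤ G := fun _ hg => hg.1

namespace SetupQ

variable (hS : SetupQ G K j l)

include hS

theorem card_SL : Nat.card (Matrix.SpecialLinearGroup (Fin 2) K) = Nat.card K * (Nat.card K ^ 2 - 1) := by
  have := hS.fin
  have hF := Fintype.ofFinite K
  rw [Nat.card_eq_fintype_card (α := K)]
  exact ClassicalGeometry.PSL2Basic.card_SL2 K

theorem q_ge : 7 ≤ Nat.card K := by
  have h7 := hS.p7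
  rcases hS.card with h | h
  · rw [h]; exact h7
  · rw [h.1]; nlinarith

theorem coprime_q {n : ℕ} (hn : ¬ p ∣ n) : n.Coprime (Nat.card K) := by
  have hp : p.Prime := Fact.out
  have h1 : n.Coprime p := ((Nat.Prime.coprime_iff_not_dvd hp).2 hn).symm
  rcases hS.card with h | h
  · rw [h]; exact h1
  · rw [h.1]; exact h1.pow_right 2

/-- the order of a subgroup which acts on `XX K v` with stabilisers of order `h` -/
theorem card_le_of_inv (hG : ¬ p ∣ Nat.card G) {v : V} (hv : Rk2 K v) (h0 : 1 ≤ h) {H : Subgroup (V ≃ₗ[ZMod p] V)}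
    (hH : H ≤ G1 G (XX K v)) (hst : ∀ w ∈ XX K v, Nat.card (sg H w) = h) :
    Nat.card H ≤ h * (Nat.card K ^ 2 - 1) := by
  have hq := hS.q_ge
  have h1 := card_dvd_inv (h := h) H (XX K v) (fun g hg w hw => ((hH hg).2 w).2 hw) hst h0 ⟨v, 1, by
    rw [Matrix.SpecialLinearGroup.coe_one, one_smul]⟩
  rw [card_XX hv, hS.card_SL] at h1
  have h2 : ¬ p ∣ Nat.card H := fun h => hG (h.trans (Subgroup.card_dvd_of_le (hH.trans G1_le)))
  have h3 : Nat.card H ∣ Nat.card K * (h * (Nat.card K ^ 2 - 1)) := by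
    rwa [← mul_assoc, mul_comm (Nat.card K) h, mul_assoc]
  have h4 := (hS.coprime_q h2).dvd_of_dvd_mul_left h3
  refine Nat.le_of_dvd ?_ h4
  have : 49 ≤ Nat.card K ^ 2 := by nlinarith
  have : 0 < Nat.card K ^ 2 - 1 := by omega
  positivity

theorem sg_G1 {v w : V} (hw : w ∈ XX K v) : sg (G1 G (XX K v)) w = sg G w :=
  le_antisymm (sg_mono G1_le w) fun _ hg => ⟨hS.mem_G1_of_fix hw hg.1 hg.2, hg.2⟩

theorem sg_LC_G1 {v w : V} (hw : w ∈ XX K v) : sg (LC (G1 G (XX K v)) l) w = sg (LC G l) w := by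
  refine le_antisymm (sg_mono (LC_mono G1_le) w) ?_
  rintro g ⟨⟨x, α, hα, rfl⟩, hg⟩
  have h1 := hS.mem_G1_of_fix hw (mul_mem (hS.mem x) (AA_le hα)) hg
  refine ⟨⟨x, α, ?_, rfl⟩, hg⟩
  have h2 : α ∈ G1 G (XX K v) := (Subgroup.mul_mem_cancel_left _ (hS.l_mem_G1 v x)).1 h1
  exact mem_AA.2 ⟨h2, (mem_AA.1 hα).2⟩

theorem sg_AA_smul (u : Matrix.SpecialLinearGroup (Fin 2) K) (v : V) :
    sg (AA G l) ((u : Matrix (Fin 2) (Fin 2) K) • v) = sg (AA G l) v := by
  ext α
  rw [mem_sg, mem_sg]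
  constructor
  · rintro ⟨h1, h2⟩; exact ⟨h1, (hS.AA_fix h1 u v).1 h2⟩
  · rintro ⟨h1, h2⟩; exact ⟨h1, (hS.AA_fix h1 u v).2 h2⟩

/-- **(N)** vectors of rank two -/
theorem rank_two (hG : ¬ p ∣ Nat.card G) (hh : Half G h) (h0 : 1 ≤ h) {v : V} (hv : Rk2 K v) :
    (h = Nat.card (sg (AA G l) v) ∨ h = 2 * Nat.card (sg (AA G l) v)) ∧
    (Nat.card K = p → h = Nat.card (sg (AA G l) v)) := by
  have hq := hS.q_ge
  have hst : ∀ w ∈ XX K v, Nat.card (sg G w) = h := by
    rintro _ ⟨u, rfl⟩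
    exact card_sg hh (hv.smul u).ne_zero
  have hS1 : SetupQ (G1 G (XX K v)) K j l := hS.restrict G1_le (hS.l_mem_G1 v)
  have hD : Nat.card (sg (AA G l) v) ∣ h := by
    rw [← card_sg hh hv.ne_zero]
    exact Subgroup.card_dvd_of_le (sg_mono AA_le v)
  have caseA : (∀ u : Matrix.SpecialLinearGroup (Fin 2) K,
      Nat.card (sg (LC G l) ((u : Matrix (Fin 2) (Fin 2) K) • v)) = h) → h = Nat.card (sg (AA G l) v) := by
    intro hall
    have h1 : Nat.card (LC (G1 G (XX K v)) l) ≤ h * (Nat.card K ^ 2 - 1) := by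
      refine hS.card_le_of_inv hG hv h0 hS1.LC_le fun w hw => ?_
      rw [hS.sg_LC_G1 hw]
      obtain ⟨u, rfl⟩ := hw
      exact hall u
    rw [hS1.card_LC] at h1
    have h2 := hS.count hv (k₀ := 2 * h) (fun u => by rw [hall u])
    exact num_a (by omega) hS.card_SL hD h0 h2 h1
  refine ⟨?_, fun hK => ?_⟩
  · by_cases hall : ∀ u : Matrix.SpecialLinearGroup (Fin 2) K,
      Nat.card (sg (LC G l) ((u : Matrix (Fin 2) (Fin 2) K) • v)) = h
    · left; exact caseA hall
    · right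
      push Not at hall
      obtain ⟨u, hu⟩ := hall
      have hw : (u : Matrix (Fin 2) (Fin 2) K) • v ∈ XX K v := ⟨u, rfl⟩
      have h1 : h = 2 * Nat.card (sg (LC G l) ((u : Matrix (Fin 2) (Fin 2) K) • v)) := by
        rcases hS.card_sg_LC ((u : Matrix (Fin 2) (Fin 2) K) • v) with h1 | h1
        · exact absurd (h1.symm.trans (hst _ hw)) hu
        · rw [← h1]; exact (hst _ hw).symm
      have h2 : Nat.card (G1 G (XX K v)) ≤ h * (Nat.card K ^ 2 - 1) :=
        hS.card_le_of_inv hG hv h0 le_rfl fun w hw => by rw [hS.sg_G1 hw]; exact hst w hw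
      have h3 : Nat.card (G1 G (XX K v)) = 120 * Nat.card (AA (G1 G (XX K v)) l) := by
        rcases hS1.card_G_LC with h4 | h4
        · exfalso
          have h5 : LC (G1 G (XX K v)) l = G1 G (XX K v) :=
            Subgroup.eq_of_le_of_card_ge hS1.LC_le (by rw [h4])
          apply hu
          rw [← hS.sg_LC_G1 hw, h5, hS.sg_G1 hw]
          exact hst _ hw
        · rw [h4, hS1.card_LC]; ring
      rw [h3] at h2
      have h4 := hS.count hv (k₀ := h) (fun u' => by
        have hw' : (u' : Matrix (Fin 2) (Fin 2) K) • v ∈ XX K v := ⟨u', rfl⟩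
        have := hst _ hw'
        rcases hS.card_sg_LC ((u' : Matrix (Fin 2) (Fin 2) K) • v) with h1 | h1 <;> (clear * - this h1; omega))
      refine num_b (by omega) hS.card_SL h1 ?_ h0 h4 h2
      rw [← hS.sg_AA_smul u v]
      exact Subgroup.card_dvd_of_le (sg_mono AA_le_LC _)
  · refine caseA fun u => ?_
    have h1 : LC G l = G := le_antisymm hS.LC_le fun g hg => hS.mem_LC_of_card hK hg
    rw [h1]
    exact hst _ ⟨u, rfl⟩

end SetupQ

end Cfsg.Agent.H312.HT
end

-- part: H312/HT/Two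
section
/-!
# Multiplicity at least two: `h = 2` and `|K| = p²` (helper312, S3540)
-/

set_option autoImplicit false

namespace Cfsg.Agent.H312.HT

open Cfsg.Agent.H828.HT Cfsg.Agent.PermutationGroups.AutSL25 Matrix

universe u v

section mods

variable {K : Type v} [Field K] {V : Type u} [AddCommGroup V] [Module (Matrix (Fin 2) (Fin 2) K) V]

theorem eu_mul (i k r s : Fin 2) : (eu i k : Matrix (Fin 2) (Fin 2) K) * eu r s = if k = r then eu i s else 0 := by
  unfold eu
  by_cases h : k = r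
  · subst h; simp
  · rw [if_neg h, Matrix.single_mul_single_of_ne (h := h)]

/-- `b ∈ B` -/
abbrev InB (K : Type v) [Field K] [Module (Matrix (Fin 2) (Fin 2) K) V] (b : V) : Prop :=
  (eu 0 0 : Matrix (Fin 2) (Fin 2) K) • b = b

/-- scalars -/
def sc (c : K) (v : V) : V := (c • (1 : Matrix (Fin 2) (Fin 2) K)) • v

theorem inB_e00 (v : V) : InB K ((eu 0 0 : Matrix (Fin 2) (Fin 2) K) • v) := by
  unfold InB
  rw [← mul_smul, eu_mul, if_pos rfl]

theorem inB_e01 (v : V) : InB K ((eu 0 1 : Matrix (Fin 2) (Fin 2) K) • v) := by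
  unfold InB
  rw [← mul_smul, eu_mul, if_pos rfl]

/-- the vector with coordinates `b₀`, `b₁` -/
def vec (K : Type v) [Field K] [Module (Matrix (Fin 2) (Fin 2) K) V] (b₀ b₁ : V) : V :=
  b₀ + (eu 1 0 : Matrix (Fin 2) (Fin 2) K) • b₁

theorem vec_coord (v : V) : vec K ((eu 0 0 : Matrix (Fin 2) (Fin 2) K) • v) ((eu 0 1 : Matrix (Fin 2) (Fin 2) K) • v) = v := by
  unfold vec
  rw [← mul_smul, eu_mul, if_pos rfl]
  exact eu_add v

theorem e00_vec {b₀ b₁ : V} (h0 : InB K b₀) (_h1 : InB K b₁) :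
    (eu 0 0 : Matrix (Fin 2) (Fin 2) K) • vec K b₀ b₁ = b₀ := by
  unfold vec
  rw [smul_add, ← mul_smul, eu_mul, if_neg (by decide), zero_smul, add_zero]
  exact h0

theorem e01_vec {b₀ b₁ : V} (h0 : InB K b₀) (h1 : InB K b₁) :
    (eu 0 1 : Matrix (Fin 2) (Fin 2) K) • vec K b₀ b₁ = b₁ := by
  unfold vec
  have h2 : (eu 0 1 : Matrix (Fin 2) (Fin 2) K) • b₀ = 0 := by
    rw [← h0, ← mul_smul, eu_mul, if_neg (by decide), zero_smul]
  rw [smul_add, h2, zero_add, ← mul_smul, eu_mul, if_pos rfl]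
  exact h1

theorem rk2_vec {b₀ b₁ : V} (h0 : InB K b₀) (h1 : InB K b₁) (hind : ∀ s t : K, sc s b₀ + sc t b₁ = 0 → s = 0 ∧ t = 0) :
    Rk2 K (vec K b₀ b₁) := by
  intro M hM
  have key : ∀ i : Fin 2, sc (M i 0) b₀ + sc (M i 1) b₁ = 0 := by
    intro i
    have h2 : ((eu 0 i : Matrix (Fin 2) (Fin 2) K) * M) • vec K b₀ b₁ = 0 := by rw [mul_smul, hM, smul_zero]
    unfold vec at h2
    rw [smul_add, ← h0, ← h1, ← mul_smul, ← mul_smul, ← mul_smul] at h2
    have e1 : (eu 0 i : Matrix (Fin 2) (Fin 2) K) * M * eu 0 0 = (M i 0 • 1) * eu 0 0 := by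
      unfold eu
      rw [Matrix.single_mul_mul_single, one_mul, mul_one, smul_mul_assoc, one_mul, Matrix.smul_single, smul_eq_mul, mul_one]
    have e2 : (eu 0 i : Matrix (Fin 2) (Fin 2) K) * M * eu 1 0 = (M i 1 • 1) * eu 0 0 := by
      unfold eu
      rw [Matrix.single_mul_mul_single, one_mul, mul_one, smul_mul_assoc, one_mul, Matrix.smul_single, smul_eq_mul, mul_one]
    rw [e1, e2, mul_assoc (M i 1 • (1 : Matrix (Fin 2) (Fin 2) K)), eu_mul, if_pos rfl, mul_smul, mul_smul, h0, h1] at h2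
    exact h2
  have k0 := hind _ _ (key 0)
  have k1 := hind _ _ (key 1)
  exact mat_ext k0.1 k0.2 k1.1 k1.2

theorem Rk2.e00_ne {v : V} (hv : Rk2 K v) : (eu 0 0 : Matrix (Fin 2) (Fin 2) K) • v ≠ 0 := by
  intro h
  have h1 := congrFun (congrFun (hv _ h) 0) 0
  simp at h1

theorem sc_sc (s t : K) (v : V) : sc s (sc t v) = sc (s * t) v := by
  unfold sc
  rw [← mul_smul, smul_mul_assoc, one_mul, smul_smul]

theorem sc_one (v : V) : sc (1 : K) v = v := by
  unfold sc
  rw [one_smul, one_smul]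

theorem sc_add (s : K) (v w : V) : sc s (v + w) = sc s v + sc s w := by
  unfold sc
  rw [smul_add]

theorem add_sc (s t : K) (v : V) : sc (s + t) v = sc s v + sc t v := by
  unfold sc
  rw [add_smul, add_smul]

theorem sc_neg (s : K) (v : V) : sc (-s) v = -sc s v := by
  unfold sc
  rw [neg_smul, neg_smul]

theorem sc_zero (s : K) : sc s (0 : V) = 0 := by
  unfold sc
  rw [smul_zero]

theorem sc_inj {s : K} (hs : s ≠ 0) {v w : V} (h : sc s v = sc s w) : v = w := by
  have h1 := congrArg (sc s⁻¹) h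
  rwa [sc_sc, sc_sc, inv_mul_cancel₀ hs, sc_one, sc_one] at h1

end mods

section setup

variable {p : ℕ} [Fact p.Prime] {V : Type u} [AddCommGroup V] [Module (ZMod p) V] [Finite V]
  {G : Subgroup (V ≃ₗ[ZMod p] V)} {h : ℕ} {K : Type v} [Field K] [Module (Matrix (Fin 2) (Fin 2) K) V]
  {j : SL25 →* Matrix.SpecialLinearGroup (Fin 2) K} {l : SL25 →* (V ≃ₗ[ZMod p] V)}

namespace SetupQ

variable (hS : SetupQ G K j l)

include hS

omit [Finite V] in
theorem AA_sc {α : V ≃ₗ[ZMod p] V} (hα : α ∈ AA G l) (c : K) (v : V) : α (sc c v) = sc c (α v) :=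
  hS.comm_smul hα _ _

omit [Finite V] in
theorem AA_inB {α : V ≃ₗ[ZMod p] V} (hα : α ∈ AA G l) {b : V} (hb : InB K b) : InB K (α b) := by
  unfold InB
  rw [← hS.comm_smul hα, hb]

omit [Finite V] in
theorem AA_vec {α : V ≃ₗ[ZMod p] V} (hα : α ∈ AA G l) (b₀ b₁ : V) : α (vec K b₀ b₁) = vec K (α b₀) (α b₁) := by
  unfold vec
  rw [map_add, hS.comm_smul hα]

omit [Finite V] in
/-- an element of `AA` which is not trivial moves some `b ∈ B` -/
theorem exists_moved {α : V ≃ₗ[ZMod p] V} (hα : α ∈ AA G l) (h1 : α ≠ 1) : ∃ b : V, InB K b ∧ α b ≠ b := by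
  by_contra hcon
  push Not at hcon
  apply h1
  ext v
  rw [← vec_coord (K := K) v, hS.AA_vec hα, hcon _ (inB_e00 v), hcon _ (inB_e01 v)]
  rfl

omit [Finite V] in
theorem rk2_of_moved {α : V ≃ₗ[ZMod p] V} (hα : α ∈ AA G l) {b₀ b : V} (h0 : InB K b₀) (hb : InB K b) (hne : b₀ ≠ 0)
    (hα0 : α b₀ = b₀) (hαb : α b ≠ b) : Rk2 K (vec K b₀ b) := by
  refine rk2_vec h0 hb fun s t hst => ?_
  have ht : t = 0 := by
    by_contra ht
    apply hαb
    have h1 : b = sc (-(t⁻¹ * s)) b₀ := by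
      have h2 := congrArg (sc t⁻¹) hst
      rw [sc_add, sc_sc, sc_sc, inv_mul_cancel₀ ht, sc_one, sc_zero] at h2
      rw [sc_neg]
      exact eq_neg_of_add_eq_zero_right h2
    rw [h1, hS.AA_sc hα, hα0]
  refine ⟨?_, ht⟩
  rw [ht] at hst
  by_contra hs
  apply hne
  apply sc_inj hs
  rw [sc_zero]
  have h3 : sc (0 : K) b = 0 := by
    unfold sc
    rw [zero_smul, zero_smul]
  rwa [h3, add_zero] at hst

omit [Finite V] in
theorem sg_vec_le {b₀ b : V} (h0 : InB K b₀) (hb : InB K b) : sg (AA G l) (vec K b₀ b) ≤ sg (AA G l) b₀ := by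
  rintro α ⟨hα, hα'⟩
  refine ⟨hα, ?_⟩
  rw [hS.AA_vec hα] at hα'
  have h1 : (eu 0 0 : Matrix (Fin 2) (Fin 2) K) • vec K (α b₀) (α b) = (eu 0 0 : Matrix (Fin 2) (Fin 2) K) • vec K b₀ b := by
    rw [hα']
  rwa [e00_vec (hS.AA_inB hα h0) (hS.AA_inB hα hb), e00_vec h0 hb] at h1

omit [Finite V] in
theorem fix_of_sg_vec {b₀ b : V} (h0 : InB K b₀) (hb : InB K b) {α : V ≃ₗ[ZMod p] V} (hα : α ∈ sg (AA G l) (vec K b₀ b)) :
    α b = b := by
  obtain ⟨hα, hα'⟩ := hα
  rw [hS.AA_vec hα] at hα'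
  have h1 : (eu 0 1 : Matrix (Fin 2) (Fin 2) K) • vec K (α b₀) (α b) = (eu 0 1 : Matrix (Fin 2) (Fin 2) K) • vec K b₀ b := by
    rw [hα']
  rwa [e01_vec (hS.AA_inB hα h0) (hS.AA_inB hα hb), e01_vec h0 hb] at h1

/-- `|K| = p` is impossible -/
theorem card_K (hG : ¬ p ∣ Nat.card G) (hh : Half G h) (h2 : 2 ≤ h) {v : V} (hv : Rk2 K v) : Nat.card K ≠ p := by
  intro hK
  have h1 := (hS.rank_two hG hh (by omega) hv).2 hK
  obtain ⟨g, hg, hg1⟩ : ∃ g ∈ sg (AA G l) v, g ≠ 1 := by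
    by_contra hcon
    push Not at hcon
    have : sg (AA G l) v = ⊥ := (Subgroup.eq_bot_iff_forall _).2 hcon
    rw [this, Subgroup.card_bot] at h1
    omega
  have hgA : g ∈ AA G l := hg.1
  set b₀ := (eu 0 0 : Matrix (Fin 2) (Fin 2) K) • v with hb₀
  have h0 : InB K b₀ := inB_e00 v
  have h0ne : b₀ ≠ 0 := Rk2.e00_ne hv
  have hg0 : g b₀ = b₀ := by rw [hb₀, hS.comm_smul hgA, hg.2]
  obtain ⟨b, hb, hgb⟩ := hS.exists_moved hgA hg1
  have hv1 := hS.rk2_of_moved hgA h0 hb h0ne hg0 hgb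
  have h3 := (hS.rank_two hG hh (by omega) hv1).2 hK
  have h4 : sg (AA G l) (vec K b₀ b) = sg G b₀ := by
    refine Subgroup.eq_of_le_of_card_ge ((hS.sg_vec_le h0 hb).trans (sg_mono AA_le _)) ?_
    rw [card_sg hh h0ne, ← h3]
  have h5 : g ∈ sg (AA G l) (vec K b₀ b) := by rw [h4]; exact ⟨AA_le hgA, hg0⟩
  exact hgb (hS.fix_of_sg_vec h0 hb h5)

/-- **`h = 2`** -/
theorem h_eq_two (hG : ¬ p ∣ Nat.card G) (hh : Half G h) (h2 : 2 ≤ h) {v : V} (hv : Rk2 K v) : h = 2 := by
  by_contra hne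
  have hk : ∀ {w : V}, Rk2 K w → h ≤ 2 * Nat.card (sg (AA G l) w) := fun hw => by
    rcases (hS.rank_two hG hh (by omega) hw).1 with h1 | h1 <;> omega
  have hex : ∀ {w : V}, Rk2 K w → ∃ g ∈ sg (AA G l) w, g ≠ 1 := by
    intro w hw
    by_contra hcon
    push Not at hcon
    have h1 : sg (AA G l) w = ⊥ := (Subgroup.eq_bot_iff_forall _).2 hcon
    have h3 := hk hw
    rw [h1, Subgroup.card_bot] at h3
    omega
  obtain ⟨g, hg, hg1⟩ := hex hv
  have hgA : g ∈ AA G l := hg.1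
  set b₀ := (eu 0 0 : Matrix (Fin 2) (Fin 2) K) • v with hb₀
  have h0 : InB K b₀ := inB_e00 v
  have h0ne : b₀ ≠ 0 := Rk2.e00_ne hv
  have hg0 : g b₀ = b₀ := by rw [hb₀, hS.comm_smul hgA, hg.2]
  obtain ⟨b, hb, hgb⟩ := hS.exists_moved hgA hg1
  have hv1 := hS.rk2_of_moved hgA h0 hb h0ne hg0 hgb
  obtain ⟨g', hg', hg'1⟩ := hex hv1
  have hg'A : g' ∈ AA G l := hg'.1
  have hg'0 : g' b₀ = b₀ := (hS.sg_vec_le h0 hb hg').2
  have hg'b : g' b = b := hS.fix_of_sg_vec h0 hb hg'
  obtain ⟨b', hb', hg'b'⟩ := hS.exists_moved hg'A hg'1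
  -- index at most two
  have index : ∀ c : V, InB K c → ∀ x ∈ sg (AA G l) b₀, ∀ y ∈ sg (AA G l) b₀, x c ≠ c → y c ≠ c → (x * y) c = c := by
    intro c hc x hx y hy hxc hyc
    have hr := hS.rk2_of_moved hx.1 h0 hc h0ne hx.2 hxc
    have h3 := hk hr
    have h4 : Nat.card (sg (AA G l) b₀) ≤ h := by
      rw [← card_sg hh h0ne]
      exact Subgroup.card_le_of_le (sg_mono AA_le _)
    have hle := hS.sg_vec_le (G := G) h0 hc
    have h5 := Subgroup.card_mul_index ((sg (AA G l) (vec K b₀ c)).subgroupOf (sg (AA G l) b₀))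
    rw [Nat.card_congr (Subgroup.subgroupOfEquivOfLe hle).toEquiv] at h5
    have hxn : x ∉ sg (AA G l) (vec K b₀ c) := fun hh => hxc (hS.fix_of_sg_vec h0 hc hh)
    have hyn : y ∉ sg (AA G l) (vec K b₀ c) := fun hh => hyc (hS.fix_of_sg_vec h0 hc hh)
    have hpos : 0 < Nat.card (sg (AA G l) (vec K b₀ c)) := Nat.card_pos
    set ix := ((sg (AA G l) (vec K b₀ c)).subgroupOf (sg (AA G l) b₀)).index with hix
    have h6 : ix ≤ 2 := by
      by_contra hlt
      have : Nat.card (sg (AA G l) (vec K b₀ c)) * 3 ≤ Nat.card (sg (AA G l) (vec K b₀ c)) * ix :=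
        Nat.mul_le_mul_left _ (by omega)
      omega
    have h7 : ix ≠ 0 := by
      intro h8
      rw [h8, mul_zero] at h5
      have : 0 < Nat.card (sg (AA G l) b₀) := Nat.card_pos
      omega
    have h8 : ix ≠ 1 := by
      intro h8
      rw [hix, Subgroup.index_eq_one, Subgroup.subgroupOf_eq_top] at h8
      exact hxn (h8 hx)
    have h9 : ix = 2 := by omega
    have h10 := (Subgroup.mul_mem_iff_of_index_two (H := (sg (AA G l) (vec K b₀ c)).subgroupOf (sg (AA G l) b₀)) h9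
      (a := ⟨x, hx⟩) (b := ⟨y, hy⟩))
    have h11 : (⟨x, hx⟩ : sg (AA G l) b₀) * ⟨y, hy⟩ ∈ (sg (AA G l) (vec K b₀ c)).subgroupOf (sg (AA G l) b₀) := by
      rw [h10]
      exact iff_of_false hxn hyn
    exact hS.fix_of_sg_vec h0 hc h11
  -- `b` is moved by `g` and by `g g'`, fixed by `g'`; `b'` is moved by `g'`
  have hgX : g ∈ sg (AA G l) b₀ := ⟨hgA, hg0⟩
  have hg'X : g' ∈ sg (AA G l) b₀ := ⟨hg'A, hg'0⟩
  have hInB : ∀ c : K, InB K (b + sc c b') := by
    intro c
    unfold InB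
    rw [smul_add, hb]
    congr 1
    unfold sc
    rw [← mul_smul, mul_smul_comm, mul_one]
    have : (c • (1 : Matrix (Fin 2) (Fin 2) K)) • b' = (c • (1 : Matrix (Fin 2) (Fin 2) K)) • (eu 0 0 : Matrix (Fin 2) (Fin 2) K) • b' := by
      rw [hb']
    rw [this, ← mul_smul, smul_mul_assoc, one_mul]
  have hg'c : ∀ c : K, c ≠ 0 → g' (b + sc c b') ≠ b + sc c b' := by
    intro c hc h3
    rw [map_add, hg'b, hS.AA_sc hg'A] at h3
    exact hg'b' (sc_inj hc (add_left_cancel h3))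
  have hor : ∀ c : K, c ≠ 0 → g (b + sc c b') = b + sc c b' ∨ (g * g') (b + sc c b') = b + sc c b' := by
    intro c hc
    by_cases h3 : g (b + sc c b') = b + sc c b'
    · left; exact h3
    · right; exact index _ (hInB c) g hgX g' hg'X h3 (hg'c c hc)
  have two_pts : ∀ x ∈ AA G l, ∀ c c' : K, c ≠ c' → x (b + sc c b') = b + sc c b' → x (b + sc c' b') = b + sc c' b' →
      x b = b := by
    intro x hx c c' hcc h3 h4
    rw [map_add, hS.AA_sc hx] at h3 h4
    have h5 : sc (c - c') (x b') = sc (c - c') b' := by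
      rw [sub_eq_add_neg, add_sc, add_sc, sc_neg, sc_neg]
      have h6 : x b = b + sc c b' - sc c (x b') := eq_sub_of_add_eq h3
      rw [h6] at h4
      have h7 : sc c b' - sc c (x b') + sc c' (x b') = sc c' b' := by
        have : b + (sc c b' - sc c (x b') + sc c' (x b')) = b + sc c' b' := by rw [← h4]; abel
        exact add_left_cancel this
      rw [← h7]; abel
    have h6 : x b' = b' := sc_inj (sub_ne_zero.2 hcc) h5
    rw [h6] at h3
    exact add_right_cancel h3
  have hgg' : g * g' ∈ AA G l := mul_mem hgA hg'A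
  have hggb : (g * g') b ≠ b := by
    rw [LinearEquiv.mul_apply, hg'b]; exact hgb
  have hcast : ∀ a b : ℕ, a < 7 → b < 7 → a ≠ b → (a : K) ≠ b := by
    intro a b ha hb hab h3
    have := hS.char
    have h7 := hS.p7
    rw [CharP.cast_eq_iff_mod_eq K p, Nat.mod_eq_of_lt (by omega), Nat.mod_eq_of_lt (by omega)] at h3
    exact hab h3
  have c1 : ((1 : ℕ) : K) ≠ 0 := by exact_mod_cast hcast 1 0 (by norm_num) (by norm_num) (by norm_num)
  have c2 : ((2 : ℕ) : K) ≠ 0 := by exact_mod_cast hcast 2 0 (by norm_num) (by norm_num) (by norm_num)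
  have c3 : ((3 : ℕ) : K) ≠ 0 := by exact_mod_cast hcast 3 0 (by norm_num) (by norm_num) (by norm_num)
  have d12 := hcast 1 2 (by norm_num) (by norm_num) (by norm_num)
  have d13 := hcast 1 3 (by norm_num) (by norm_num) (by norm_num)
  have d23 := hcast 2 3 (by norm_num) (by norm_num) (by norm_num)
  rcases hor _ c1 with e1 | e1 <;> rcases hor _ c2 with e2 | e2 <;> rcases hor _ c3 with e3 | e3
  · exact hgb (two_pts g hgA _ _ d12 e1 e2)
  · exact hgb (two_pts g hgA _ _ d12 e1 e2)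
  · exact hgb (two_pts g hgA _ _ d13 e1 e3)
  · exact hggb (two_pts _ hgg' _ _ d23 e2 e3)
  · exact hgb (two_pts g hgA _ _ d23 e2 e3)
  · exact hggb (two_pts _ hgg' _ _ d13 e1 e3)
  · exact hggb (two_pts _ hgg' _ _ d12 e1 e2)
  · exact hggb (two_pts _ hgg' _ _ d12 e1 e2)

end SetupQ

end setup

end Cfsg.Agent.H312.HT
end

-- part: H312/HT/Inv
section
/-!
# The case `h = 2`: involutions (helper312, S3540)
-/

set_option autoImplicit false

namespace Cfsg.Agent.H312.HT

open Cfsg.Agent.H828.HT Cfsg.Agent.PermutationGroups.AutSL25 Matrix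

universe u v

section split

variable {p : ℕ} [Fact p.Prime] {V : Type u} [AddCommGroup V] [Module (ZMod p) V] [Finite V]

omit [Finite V] in
theorem two_inj (hp : p ≠ 2) {u w : V} (h : u + u = w + w) : u = w := by
  have hp2 : (2 : ZMod p) ≠ 0 := by
    intro h2
    have h3 : ((2 : ℕ) : ZMod p) = 0 := by exact_mod_cast h2
    rw [ZMod.natCast_eq_zero_iff] at h3
    exact hp ((Nat.prime_dvd_prime_iff_eq Fact.out Nat.prime_two).1 h3)
  have h4 : (2 : ZMod p) • u = (2 : ZMod p) • w := by rw [two_smul, two_smul, h]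
  exact smul_right_injective V hp2 h4

omit [Finite V] in
theorem exists_half (hp : p ≠ 2) (U : Submodule (ZMod p) V) {u : V} (hu : u ∈ U) : ∃ w ∈ U, w + w = u := by
  have hp2 : (2 : ZMod p) ≠ 0 := by
    intro h2
    have h3 : ((2 : ℕ) : ZMod p) = 0 := by exact_mod_cast h2
    rw [ZMod.natCast_eq_zero_iff] at h3
    exact hp ((Nat.prime_dvd_prime_iff_eq Fact.out Nat.prime_two).1 h3)
  refine ⟨(2 : ZMod p)⁻¹ • u, U.smul_mem _ hu, ?_⟩
  rw [← two_smul (ZMod p), smul_smul, mul_inv_cancel₀ hp2, one_smul]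

/-- the eigenspaces of an involution on an invariant subspace -/
theorem split {F : Type*} [FunLike F V V] [AddMonoidHomClass F V V] (hp : p ≠ 2) (U : Submodule (ZMod p) V) (g : F) (hU : ∀ u ∈ U, g u ∈ U)
    (hg : ∀ u ∈ U, g (g u) = u) :
    Nat.card {u // u ∈ U ∧ g u = u} * Nat.card {u // u ∈ U ∧ g u = -u} = Nat.card U := by
  rw [← Nat.card_prod]
  refine Nat.card_congr (Equiv.ofBijective (fun z : {u // u ∈ U ∧ g u = u} × {u // u ∈ U ∧ g u = -u} =>
    (⟨z.1.1 + z.2.1, U.add_mem z.1.2.1 z.2.2.1⟩ : U)) ⟨?_, ?_⟩)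
  · rintro ⟨⟨a, ha, ha'⟩, ⟨b, hb, hb'⟩⟩ ⟨⟨c, hc, hc'⟩, ⟨d, hd, hd'⟩⟩ h
    have h1 : a + b = c + d := congrArg Subtype.val h
    have h2 : a - b = c - d := by
      have := congrArg g h1
      rw [map_add, map_add, ha', hb', hc', hd'] at this
      rw [sub_eq_add_neg, sub_eq_add_neg]; exact this
    have h3 : a = c := by
      apply two_inj (p := p) hp
      calc a + a = (a + b) + (a - b) := by abel
        _ = (c + d) + (c - d) := by rw [h1, h2]
        _ = c + c := by abel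
    subst h3
    have h4 : b = d := add_left_cancel h1
    subst h4
    rfl
  · rintro ⟨u, hu⟩
    obtain ⟨w, hw, rfl⟩ := exists_half (p := p) hp U hu
    refine ⟨(⟨w + g w, U.add_mem hw (hU w hw), ?_⟩, ⟨w - g w, U.sub_mem hw (hU w hw), ?_⟩), ?_⟩
    · rw [map_add, hg w hw, add_comm]
    · rw [map_sub, hg w hw]; abel
    · apply Subtype.ext
      change w + g w + (w - g w) = w + w
      abel

/-- if an injective map interchanges the eigenspaces then both have the same size -/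
theorem split_sq {F : Type*} [FunLike F V V] [AddMonoidHomClass F V V] (hp : p ≠ 2) (U : Submodule (ZMod p) V) (g : F) (hU : ∀ u ∈ U, g u ∈ U)
    (hg : ∀ u ∈ U, g (g u) = u) (z : V → V) (hz : Function.Injective z) (hzU : ∀ u ∈ U, z u ∈ U)
    (hzn : ∀ u, z (-u) = - z u) (hanti : ∀ u ∈ U, g (z u) = - z (g u)) :
    Nat.card {u // u ∈ U ∧ g u = u} ^ 2 = Nat.card U := by
  have h1 : Nat.card {u // u ∈ U ∧ g u = u} ≤ Nat.card {u // u ∈ U ∧ g u = -u} := by
    refine Nat.card_le_card_of_injective (fun u => (⟨z u.1, hzU _ u.2.1, ?_⟩ : {u // u ∈ U ∧ g u = -u})) ?_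
    · rw [hanti _ u.2.1, u.2.2]
    · intro a b hab
      exact Subtype.ext (hz (congrArg Subtype.val hab))
  have h2 : Nat.card {u // u ∈ U ∧ g u = -u} ≤ Nat.card {u // u ∈ U ∧ g u = u} := by
    refine Nat.card_le_card_of_injective (fun u => (⟨z u.1, hzU _ u.2.1, ?_⟩ : {u // u ∈ U ∧ g u = u})) ?_
    · rw [hanti _ u.2.1, u.2.2, hzn, neg_neg]
    · intro a b hab
      exact Subtype.ext (hz (congrArg Subtype.val hab))
  rw [← split (p := p) hp U g hU hg, le_antisymm h2 h1, sq]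

end split

section setup

variable {p : ℕ} [Fact p.Prime] {V : Type u} [AddCommGroup V] [Module (ZMod p) V] [Finite V]
  {G : Subgroup (V ≃ₗ[ZMod p] V)} {K : Type v} [Field K] [Module (Matrix (Fin 2) (Fin 2) K) V]
  {j : SL25 →* Matrix.SpecialLinearGroup (Fin 2) K} {l : SL25 →* (V ≃ₗ[ZMod p] V)}

theorem eq_of_fix (hh : Half G 2) {v : V} (hv : v ≠ 0) {g g' : V ≃ₗ[ZMod p] V} (hg : g ∈ G) (hg' : g' ∈ G) (h1 : g ≠ 1)
    (h1' : g' ≠ 1) (hgv : g v = v) (hgv' : g' v = v) : g = g' := by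
  have hc := card_sg hh hv
  by_contra hne
  have h3 : 3 ≤ Nat.card (sg G v) := by
    have e : Nat.card (Fin 3) ≤ Nat.card (sg G v) := by
      refine Nat.card_le_card_of_injective (fun i : Fin 3 => (![⟨1, one_mem _⟩, ⟨g, hg, hgv⟩, ⟨g', hg', hgv'⟩] i : sg G v)) ?_
      intro a b hab
      have hab' : (![1, g, g'] a : V ≃ₗ[ZMod p] V) = ![1, g, g'] b := by
        have := congrArg Subtype.val hab
        fin_cases a <;> fin_cases b <;> exact this
      fin_cases a <;> fin_cases b <;> simp at hab' ⊢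
      · exact h1 hab'.symm
      · exact h1' hab'.symm
      · exact h1 hab'
      · exact hne hab'
      · exact h1' hab'
      · exact hne hab'.symm
    simpa only [_root_.Nat.card_eq_fintype_card, _root_.ge_iff_le, _root_.Fintype.card_fin] using e
  omega

theorem sq_of_fix (hh : Half G 2) {v : V} (hv : v ≠ 0) {g : V ≃ₗ[ZMod p] V} (hg : g ∈ G) (hgv : g v = v) : g * g = 1 := by
  have hc := card_sg hh hv
  have h1 : (⟨g, hg, hgv⟩ : sg G v) ^ Nat.card (sg G v) = 1 := pow_card_eq_one'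
  rw [hc, sq] at h1
  exact congrArg Subtype.val h1

/-- the size of `B` -/
noncomputable def bb (K : Type v) [Field K] (V : Type u) [AddCommGroup V] [Module (Matrix (Fin 2) (Fin 2) K) V] : ℕ :=
  Nat.card {b : V // InB K b}

theorem card_V_eq : Nat.card V = bb K V ^ 2 := by
  unfold bb
  rw [sq, ← Nat.card_prod]
  exact Nat.card_congr
    { toFun := fun v => (⟨(eu 0 0 : Matrix (Fin 2) (Fin 2) K) • v, inB_e00 v⟩, ⟨(eu 0 1 : Matrix (Fin 2) (Fin 2) K) • v, inB_e01 v⟩)
      invFun := fun z => vec K z.1.1 z.2.1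
      left_inv := fun v => vec_coord v
      right_inv := fun z => Prod.ext (Subtype.ext (e00_vec z.1.2 z.2.2)) (Subtype.ext (e01_vec z.1.2 z.2.2)) }

namespace SetupQ

variable (hS : SetupQ G K j l)

include hS

omit [Finite V] in
theorem p_ne_two : p ≠ 2 := by have := hS.p7; omega

/-- `√5` -/
noncomputable def _root_.Cfsg.Agent.H312.HT.zeta (j : SL25 →* Matrix.SpecialLinearGroup (Fin 2) K) : K := 2 * tr (j T) + 1

omit [Finite V] in
theorem zeta_ne : zeta j ≠ 0 := by
  intro h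
  have h1 := hS.gamma
  unfold zeta at h
  apply hS.five_ne
  linear_combination (2 * tr (j T) + 1) * h - 4 * h1

omit [Finite V] in
/-- an outer element anticommutes with `√5` -/
theorem zeta_anti {g : V ≃ₗ[ZMod p] V} (hg : g ∈ G) (hn : g ∉ LC G l) (v : V) : g (sc (zeta j) v) = - sc (zeta j) (g v) := by
  obtain ⟨ψ, hψ, hi⟩ := hS.exists_psi hg
  obtain ⟨w, hw⟩ := hS.outer_of_not_mem hg hn hψ hi
  obtain ⟨φ, hφv, hφ, -⟩ := hS.exists_phi hψ
  have h1 := hS.phi_gamma hφ
  have h4 : tr (j (ψ T)) = tr (j T) ^ 2 - 2 := by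
    obtain ⟨w', hw'⟩ := F.conj_T3
    rw [hw, F.phi0_T, hw', map_mul, map_mul, map_inv, tr_conj, map_mul, map_mul, map_inv, tr_conj, map_mul, tr_sq]
  have h5 : φ ((zeta j) • 1) = -(zeta j) • 1 := by
    unfold zeta
    have e1 : (2 * tr (j T) + 1) • (1 : Matrix (Fin 2) (Fin 2) K) = 2 * ((tr (j T)) • 1) + 1 := by
      rw [add_smul, one_smul, mul_smul, two_mul, two_smul]
    rw [e1, map_add, map_mul, map_ofNat, map_one, h1, h4]
    have h6 := hS.gamma
    have e2 : tr (j T) ^ 2 - 2 = -1 - tr (j T) := by linear_combination h6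
    rw [e2, two_mul, ← add_smul]
    nth_rewrite 2 [← one_smul K (1 : Matrix (Fin 2) (Fin 2) K)]
    rw [← add_smul]
    congr 1
    ring
  unfold sc
  rw [hφv, h5, neg_smul, neg_smul]

/-- outer involutions -/
theorem card_fix_outer {t : V ≃ₗ[ZMod p] V} (ht : t ∈ G) (hn : t ∉ LC G l) (h2 : t * t = 1)
    (U : Submodule (ZMod p) V) (hU : ∀ u ∈ U, t u ∈ U) (hUz : ∀ u ∈ U, sc (zeta j) u ∈ U) :
    Nat.card {u // u ∈ U ∧ t u = u} ^ 2 = Nat.card U := by
  refine split_sq (p := p) hS.p_ne_two U t hU (fun u _ => by rw [← LinearEquiv.mul_apply, h2]; rfl) (sc (zeta j)) ?_ hUz ?_ ?_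
  · intro a b hab
    exact sc_inj hS.zeta_ne hab
  · intro u
    unfold sc
    rw [smul_neg]
  · intro u _
    exact hS.zeta_anti ht hn u

/-- inner involutions -/
theorem card_fix_inner {x : SL25} (hx : x * x = -1) {α : V ≃ₗ[ZMod p] V} (hα : α ∈ AA G l) (h2 : α * α = l (-1)) :
    Nat.card {u : V // (l x * α) u = u} ^ 2 = Nat.card V := by
  obtain ⟨w, hw⟩ := F.four_inv x hx
  have hcomm := (mem_AA.1 hα).2
  have hinv : x⁻¹ = -x := by
    rw [inv_eq_iff_mul_eq_one]; rw [mul_neg, hx, neg_neg]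
  have h3 : (l x * α) * (l x * α) = 1 := by
    calc (l x * α) * (l x * α) = l x * (α * l x) * α := by group
      _ = l x * (l x * α) * α := by rw [hcomm]
      _ = l (x * x) * (α * α) := by rw [map_mul]; group
      _ = 1 := by rw [hx, h2, ← map_mul]; simp
  have h4 := split_sq (p := p) hS.p_ne_two ⊤ (l x * α) (fun u _ => trivial) (fun u _ => by
    rw [← LinearEquiv.mul_apply, h3]; rfl) (fun u => l w u) (l w).injective (fun u _ => trivial) (fun u => by
    rw [map_neg]) (fun u _ => by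
    have e1 : (l x * α) * l w = l (-1) * (l w * (l x * α)) := by
      calc (l x * α) * l w = l x * (α * l w) := by group
        _ = l x * (l w * α) := by rw [hcomm]
        _ = l (x * w) * α := by rw [map_mul]; group
        _ = l (-1 * (w * x)) * α := by
          congr 2
          have : x⁻¹ * w = w * x := by rw [← hw]; group
          rw [← this, hinv]; simp
        _ = _ := by rw [map_mul, map_mul]; group
    have e2 := DFunLike.congr_fun e1 u
    simp only [LinearEquiv.mul_apply] at e2 ⊢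
    rw [e2, hS.l_neg])
  rw [Nat.card_congr (Equiv.subtypeUnivEquiv (α := V) (p := fun x => x ∈ (⊤ : Submodule (ZMod p) V)) fun _ => trivial)] at h4
  rw [← h4]
  congr 1
  exact Nat.card_congr (Equiv.subtypeEquivRight fun u => by simp)

end SetupQ

end setup

end Cfsg.Agent.H312.HT
end

-- part: H312/HT/Pack
section
/-!
# Packings and coverings by fixed spaces; outer and inner involutions (helper312, S3540)
-/

set_option autoImplicit false

namespace Cfsg.Agent.H312.HT

open Cfsg.Agent.H828.HT Cfsg.Agent.PermutationGroups.AutSL25 Matrix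

universe u v

section gen

variable {V : Type*} [Finite V] [Zero V]

theorem card_nz (F : Set V) (h0 : (0 : V) ∈ F) : Nat.card {v // v ∈ F ∧ v ≠ 0} + 1 = Nat.card F := by
  have h1 := Set.ncard_sdiff_singleton_add_one h0 (Set.toFinite F)
  rw [← Nat.card_coe_set_eq, ← Nat.card_coe_set_eq] at h1
  exact h1

theorem pack_sum {ι : Type*} [Fintype ι] (F : ι → Set V) (U : Set V) (hU : (0 : V) ∈ U) (hF : ∀ i, F i ⊆ U)
    (h0 : ∀ i, (0 : V) ∈ F i) (hd : ∀ i i', i ≠ i' → ∀ v, v ∈ F i → v ∈ F i' → v = 0) :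
    ∑ i, Nat.card (F i) + 1 ≤ Nat.card U + Fintype.card ι := by
  have h1 : ∑ i, Nat.card {v // v ∈ F i ∧ v ≠ 0} ≤ Nat.card {v // v ∈ U ∧ v ≠ 0} := by
    rw [← Nat.card_sigma]
    refine Nat.card_le_card_of_injective (fun z => ⟨z.2.1, hF z.1 z.2.2.1, z.2.2.2⟩) ?_
    rintro ⟨i, v, hv, hv0⟩ ⟨i', w, hw, hw0⟩ hvw
    have h2 : v = w := congrArg Subtype.val hvw
    subst h2
    have h3 : i = i' := by
      by_contra hne
      exact hv0 (hd i i' hne v hv hw)
    subst h3
    rfl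
  have h2 : ∑ i, Nat.card (F i) = ∑ i, Nat.card {v // v ∈ F i ∧ v ≠ 0} + Fintype.card ι := by
    rw [Finset.sum_congr rfl (fun i _ => (card_nz (F i) (h0 i)).symm), Finset.sum_add_distrib]
    simp only [_root_.ne_eq, _root_.Nat.card_eq_fintype_card, _root_.Finset.sum_const, _root_.Finset.card_univ, _root_.smul_eq_mul, _root_.mul_one, _root_.Nat.add_left_cancel_iff]
  rw [h2, ← card_nz U hU]
  omega

theorem cover_sum {ι : Type*} [Fintype ι] (F : ι → Set V) (V1 : Set V) (h0 : ∀ i, (0 : V) ∈ F i)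
    (hc : ∀ v, v ≠ 0 → v ∈ V1 ∨ ∃ i, v ∈ F i) :
    Nat.card V + Fintype.card ι ≤ Nat.card V1 + ∑ i, Nat.card (F i) + 1 := by
  classical
  have h1 : Nat.card {v : V // v ≠ 0} ≤ Nat.card V1 + ∑ i, Nat.card {v // v ∈ F i ∧ v ≠ 0} := by
    rw [← Nat.card_sigma, ← Nat.card_sum]
    have key : ∀ v : {v : V // v ≠ 0}, ∃ s : V1 ⊕ Σ i, {v // v ∈ F i ∧ v ≠ 0},
        Sum.elim (fun x => x.1) (fun x => x.2.1) s = v.1 := by
      intro v
      rcases hc v.1 v.2 with h | ⟨i, h⟩
      · exact ⟨Sum.inl ⟨v.1, h⟩, rfl⟩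
      · exact ⟨Sum.inr ⟨i, ⟨v.1, h, v.2⟩⟩, rfl⟩
    choose f hf using key
    refine Nat.card_le_card_of_injective f ?_
    intro v w hvw
    apply Subtype.ext
    rw [← hf v, ← hf w, hvw]
  have h2 : ∑ i, Nat.card (F i) = ∑ i, Nat.card {v // v ∈ F i ∧ v ≠ 0} + Fintype.card ι := by
    rw [Finset.sum_congr rfl (fun i _ => (card_nz (F i) (h0 i)).symm), Finset.sum_add_distrib]
    simp only [_root_.ne_eq, _root_.Nat.card_eq_fintype_card, _root_.Finset.sum_const, _root_.Finset.card_univ, _root_.smul_eq_mul, _root_.mul_one, _root_.Nat.add_left_cancel_iff]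
  have h3 : Nat.card {v : V // v ≠ 0} + 1 = Nat.card V := by
    have := card_nz (Set.univ : Set V) (Set.mem_univ 0)
    rw [Nat.card_congr (Equiv.Set.univ V)] at this
    rw [← this]
    congr 1
    exact Nat.card_congr (Equiv.subtypeEquivRight fun v => by simp)
  omega

end gen

section setup

variable {p : ℕ} [Fact p.Prime] {V : Type u} [AddCommGroup V] [Module (ZMod p) V] [Finite V]
  {G : Subgroup (V ≃ₗ[ZMod p] V)} {K : Type v} [Field K] [Module (Matrix (Fin 2) (Fin 2) K) V]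
  {j : SL25 →* Matrix.SpecialLinearGroup (Fin 2) K} {l : SL25 →* (V ≃ₗ[ZMod p] V)}

namespace SetupQ

variable (hS : SetupQ G K j l)

include hS

omit [Finite V] in
theorem central_of_AA {x : SL25} (hx : l x ∈ AA G l) : x = 1 ∨ x = -1 := by
  have h1 : ∀ y, x * y = y * x := by
    intro y
    apply hS.l_inj
    rw [map_mul, map_mul, (mem_AA.1 hx).2]
  exact mem_center_iff x ⟨h1 S, h1 T⟩

omit [Finite V] in
theorem l_neg_mem : l (-1) ∈ AA G l := by
  rw [mem_AA]
  refine ⟨hS.mem _, fun y => ?_⟩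
  rw [← map_mul, ← map_mul]; simp

omit [Finite V] hS in
theorem l_neg_sq : l (-1) * l (-1) = 1 := by rw [← map_mul]; simp

omit [Finite V] in
theorem AA_conj {t α : V ≃ₗ[ZMod p] V} (ht : t ∈ G) (hα : α ∈ AA G l) : t * α * t⁻¹ ∈ AA G l := by
  rw [mem_AA] at hα ⊢
  refine ⟨mul_mem (mul_mem ht hα.1) (inv_mem ht), fun x => ?_⟩
  obtain ⟨y, hy⟩ := hS.norm t⁻¹ (inv_mem ht) x
  rw [inv_inv] at hy
  have h1 : l x = t * l y * t⁻¹ := by rw [← hy]; group
  rw [h1]
  calc t * l y * t⁻¹ * (t * α * t⁻¹) = t * (l y * α) * t⁻¹ := by group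
    _ = t * (α * l y) * t⁻¹ := by rw [hα.2]
    _ = _ := by group

omit [Finite V] in
theorem inner_iff {x : SL25} {α : V ≃ₗ[ZMod p] V} (hα : α ∈ AA G l) :
    (l x * α ∉ AA G l ∧ (l x * α) * (l x * α) = 1) ↔ (x * x = -1 ∧ α * α = l (-1)) := by
  have hcomm := (mem_AA.1 hα).2 x
  have hprod : (l x * α) * (l x * α) = l (x * x) * (α * α) := by
    calc (l x * α) * (l x * α) = l x * (α * l x) * α := by group
      _ = l x * (l x * α) * α := by rw [hcomm]
      _ = _ := by rw [map_mul]; group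
  rw [hprod]
  constructor
  · rintro ⟨h1, h2⟩
    have h3 : l (x * x) = (α * α)⁻¹ := eq_inv_of_mul_eq_one_left h2
    have h4 : l (x * x) ∈ AA G l := by rw [h3]; exact inv_mem (mul_mem hα hα)
    rcases hS.central_of_AA h4 with h5 | h5
    · exfalso
      apply h1
      by_cases hx : x = 1
      · rw [hx, map_one, one_mul]; exact hα
      · rw [eq_neg_one _ h5 hx]
        exact mul_mem hS.l_neg_mem hα
    · refine ⟨h5, ?_⟩
      rw [h5] at h3
      have h6 : (α * α)⁻¹ = (l (-1))⁻¹ := by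
        rw [← h3, eq_inv_iff_mul_eq_one]
        exact l_neg_sq
      exact _root_.inv_inj.1 h6
  · rintro ⟨h1, h2⟩
    refine ⟨fun h3 => ?_, by rw [h1, h2]; exact l_neg_sq⟩
    have h4 : l x ∈ AA G l := (Subgroup.mul_mem_cancel_right _ hα).1 h3
    rcases hS.central_of_AA h4 with h5 | h5
    · rw [h5, mul_one] at h1; exact neg_one_ne h1.symm
    · rw [h5] at h1
      have : (-1 : SL25) * -1 = 1 := by simp
      rw [this] at h1
      exact neg_one_ne h1.symm

/-- the number of inner involutions -/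
theorem card_T2 : Nat.card {g : V ≃ₗ[ZMod p] V // g ∈ LC G l ∧ g ∉ AA G l ∧ g * g = 1} =
    15 * Nat.card {α : V ≃ₗ[ZMod p] V // α ∈ AA G l ∧ α * α = l (-1)} := by
  have h1 := hS.card_pairs (fun g => g ∉ AA G l ∧ g * g = 1)
  have e1 : {z : SL25 × AA G l // l z.1 * z.2 ∉ AA G l ∧ (l z.1 * z.2) * (l z.1 * z.2) = 1} ≃
      {x : SL25 // x * x = -1} × {α : V ≃ₗ[ZMod p] V // α ∈ AA G l ∧ α * α = l (-1)} :=
    { toFun := fun z => (⟨z.1.1, ((hS.inner_iff z.1.2.2).1 z.2).1⟩, ⟨z.1.2, z.1.2.2, ((hS.inner_iff z.1.2.2).1 z.2).2⟩)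
      invFun := fun z => ⟨(z.1.1, ⟨z.2.1, z.2.2.1⟩), (hS.inner_iff z.2.2.1).2 ⟨z.1.2, z.2.2.2⟩⟩
      left_inv := fun z => rfl
      right_inv := fun z => rfl }
  have e2 : {g : LC G l // (g : V ≃ₗ[ZMod p] V) ∉ AA G l ∧ (g : V ≃ₗ[ZMod p] V) * g = 1} ≃
      {g : V ≃ₗ[ZMod p] V // g ∈ LC G l ∧ g ∉ AA G l ∧ g * g = 1} :=
    ⟨fun g => ⟨g.1.1, g.1.2, g.2⟩, fun g => ⟨⟨g.1, g.2.1⟩, g.2.2⟩, fun g => rfl, fun g => rfl⟩
  rw [Nat.card_congr e1, Nat.card_congr e2, Nat.card_prod, Nat.card_eq_fintype_card (α := {x : SL25 // x * x = -1}),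
    F.card_four] at h1
  omega

omit [Finite V] in
theorem outer_iff {t₀ : V ≃ₗ[ZMod p] V} (ht₀ : t₀ ∈ G) (h₀ : t₀ * t₀ = 1) {ψ : SL25 →* SL25}
    (hψ : ∀ x, t₀ * l x * t₀⁻¹ = l (ψ x)) (hneg : ∀ x, ψ x * x ≠ -1) {x : SL25} {α : V ≃ₗ[ZMod p] V}
    (hα : α ∈ AA G l) :
    (l x * α * t₀) * (l x * α * t₀) = 1 ↔ (ψ x * x = 1 ∧ α * (t₀ * α * t₀⁻¹) = 1) := by
  have hcomm := (mem_AA.1 hα).2 (ψ x)
  have hprod : (l x * α * t₀) * (l x * α * t₀) = l (x * ψ x) * (α * (t₀ * α * t₀⁻¹)) := by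
    have h1 : t₀ = t₀⁻¹ := eq_inv_of_mul_eq_one_left h₀
    calc (l x * α * t₀) * (l x * α * t₀) = l x * α * (t₀ * l x * t₀⁻¹) * (t₀ * α * t₀⁻¹) * (t₀ * t₀) := by group
      _ = l x * (α * l (ψ x)) * (t₀ * α * t₀⁻¹) := by rw [hψ, h₀]; group
      _ = l x * (l (ψ x) * α) * (t₀ * α * t₀⁻¹) := by rw [hcomm]
      _ = _ := by rw [map_mul]; group
  have hAt := hS.AA_conj ht₀ hα
  rw [hprod]
  constructor
  · intro h2
    have h3 : l (x * ψ x) = (α * (t₀ * α * t₀⁻¹))⁻¹ := eq_inv_of_mul_eq_one_left h2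
    have h4 : l (x * ψ x) ∈ AA G l := by rw [h3]; exact inv_mem (mul_mem hα hAt)
    have hconj : ψ x * x = x⁻¹ * (x * ψ x) * x := by group
    rcases hS.central_of_AA h4 with h5 | h5
    · refine ⟨by rw [hconj, h5]; group, ?_⟩
      rwa [h5, map_one, one_mul] at h2
    · exact absurd (by rw [hconj, h5]; simp) (hneg x)
  · rintro ⟨h1, h2⟩
    have h3 : x * ψ x = x * (ψ x * x) * x⁻¹ := by group
    rw [h3, h1, h2, mul_one, mul_one, mul_inv_cancel, map_one]

omit [Finite V] in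
/-- an outer involution -/
theorem outer_data {t₀ : V ≃ₗ[ZMod p] V} (ht₀ : t₀ ∈ G) (hn₀ : t₀ ∉ LC G l) (h₀ : t₀ * t₀ = 1) :
    ∃ ψ : SL25 →* SL25, (∀ x, t₀ * l x * t₀⁻¹ = l (ψ x)) ∧ (∀ x, ψ x * x ≠ -1) ∧
      Nat.card {x : SL25 // ψ x * x = 1} = 20 := by
  obtain ⟨ψ, hψ, hi⟩ := hS.exists_psi ht₀
  obtain ⟨w, hw⟩ := hS.outer_of_not_mem ht₀ hn₀ hψ hi
  have h2 : ∀ x, ψ (ψ x) = x := by
    intro x
    apply hS.l_inj
    rw [← hψ, ← hψ]
    have h1 : t₀ = t₀⁻¹ := eq_inv_of_mul_eq_one_left h₀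
    calc t₀ * (t₀ * l x * t₀⁻¹) * t₀⁻¹ = (t₀ * t₀) * l x * (t₀ * t₀)⁻¹ := by group
      _ = l x := by rw [h₀]; group
  have h3 := F.W_inv w (F.outer_invol hw h2)
  refine ⟨ψ, hψ, fun x => by rw [hw]; exact h3.2 x, ?_⟩
  rw [← h3.1, Nat.card_eq_fintype_card]
  exact Fintype.card_congr (Equiv.subtypeEquivRight fun x => by rw [hw])

/-- the number of outer involutions -/
theorem card_T3 {t₀ : V ≃ₗ[ZMod p] V} (ht₀ : t₀ ∈ G) (hn₀ : t₀ ∉ LC G l) (h₀ : t₀ * t₀ = 1) :
    Nat.card {t : V ≃ₗ[ZMod p] V // t ∈ G ∧ t ∉ LC G l ∧ t * t = 1} =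
    10 * Nat.card {α : V ≃ₗ[ZMod p] V // α ∈ AA G l ∧ α * (t₀ * α * t₀⁻¹) = 1} := by
  obtain ⟨ψ, hψ, hneg, hc⟩ := hS.outer_data ht₀ hn₀ h₀
  have h1 := hS.card_pairs (fun g => (g * t₀) * (g * t₀) = 1)
  have e1 : {z : SL25 × AA G l // (l z.1 * z.2 * t₀) * (l z.1 * z.2 * t₀) = 1} ≃
      {x : SL25 // ψ x * x = 1} × {α : V ≃ₗ[ZMod p] V // α ∈ AA G l ∧ α * (t₀ * α * t₀⁻¹) = 1} :=
    { toFun := fun z => (⟨z.1.1, ((hS.outer_iff ht₀ h₀ hψ hneg z.1.2.2).1 z.2).1⟩,
        ⟨z.1.2, z.1.2.2, ((hS.outer_iff ht₀ h₀ hψ hneg z.1.2.2).1 z.2).2⟩)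
      invFun := fun z => ⟨(z.1.1, ⟨z.2.1, z.2.2.1⟩), (hS.outer_iff ht₀ h₀ hψ hneg z.2.2.1).2 ⟨z.1.2, z.2.2.2⟩⟩
      left_inv := fun z => rfl
      right_inv := fun z => rfl }
  have hinv : t₀⁻¹ = t₀ := inv_eq_of_mul_eq_one_left h₀
  have e2 : {g : LC G l // ((g : V ≃ₗ[ZMod p] V) * t₀) * (g * t₀) = 1} ≃
      {t : V ≃ₗ[ZMod p] V // t ∈ G ∧ t ∉ LC G l ∧ t * t = 1} :=
    { toFun := fun g => ⟨g.1.1 * t₀, mul_mem (hS.LC_le g.1.2) ht₀, fun h =>
        hn₀ ((Subgroup.mul_mem_cancel_left _ g.1.2).1 h), g.2⟩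
      invFun := fun t => ⟨⟨t.1 * t₀, hS.mul_mem_LC t.2.1 ht₀ t.2.2.1 hn₀⟩, by
        change (t.1 * t₀ * t₀) * (t.1 * t₀ * t₀) = 1
        rw [mul_assoc t.1, h₀, mul_one]
        exact t.2.2.2⟩
      left_inv := fun g => by
        apply Subtype.ext; apply Subtype.ext
        change g.1.1 * t₀ * t₀ = g.1.1
        rw [mul_assoc, h₀, mul_one]
      right_inv := fun t => by
        apply Subtype.ext
        change t.1 * t₀ * t₀ = t.1
        rw [mul_assoc, h₀, mul_one] }
  rw [Nat.card_congr e1, Nat.card_congr e2, Nat.card_prod, hc] at h1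
  omega

end SetupQ

end setup

end Cfsg.Agent.H312.HT
end

-- part: H312/HT/Bound
section
/-!
# Bounds for the numbers of inner and outer involutions (helper312, S3540)
-/

set_option autoImplicit false

namespace Cfsg.Agent.H312.HT

open Cfsg.Agent.H828.HT Cfsg.Agent.PermutationGroups.AutSL25 Matrix

universe u v

section mods

variable {K : Type v} [Field K] {V : Type u} [AddCommGroup V] [Module (Matrix (Fin 2) (Fin 2) K) V]

/-- the action of a matrix as an additive map -/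
abbrev am (V : Type u) [AddCommGroup V] [Module (Matrix (Fin 2) (Fin 2) K) V] (M : Matrix (Fin 2) (Fin 2) K) : V →+ V :=
  DistribSMul.toAddMonoidHom V M

theorem card_ker_range [Finite V] (M : Matrix (Fin 2) (Fin 2) K) :
    Nat.card (am V M).ker * Nat.card (am V M).range = Nat.card V := by
  rw [← AddSubgroup.index_ker, AddSubgroup.card_mul_index]

theorem card_range_ge [Finite V] {M : Matrix (Fin 2) (Fin 2) K} (hM : M ≠ 0) : bb K V ≤ Nat.card (am V M).range := by
  obtain ⟨i, k, hik⟩ : ∃ i k, M i k ≠ 0 := by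
    by_contra hcon
    push Not at hcon
    exact hM (Matrix.ext hcon)
  refine Nat.card_le_card_of_injective (fun b : {b : V // InB K b} =>
    (⟨M • (Matrix.single k 0 1 : Matrix (Fin 2) (Fin 2) K) • b.1, _, rfl⟩ : (am V M).range)) ?_
  intro b b' hbb
  have h1 : M • (Matrix.single k 0 1 : Matrix (Fin 2) (Fin 2) K) • b.1 = M • (Matrix.single k 0 1 : Matrix (Fin 2) (Fin 2) K) • b'.1 :=
    congrArg Subtype.val hbb
  have key : ∀ c : V, InB K c → (Matrix.single 0 i (M i k)⁻¹ : Matrix (Fin 2) (Fin 2) K) • M •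
      (Matrix.single k 0 1 : Matrix (Fin 2) (Fin 2) K) • c = c := by
    intro c hc
    rw [← mul_smul, ← mul_smul, Matrix.single_mul_mul_single, inv_mul_cancel₀ hik, one_mul]
    exact hc
  apply Subtype.ext
  rw [← key _ b.2, ← key _ b'.2, h1]

theorem card_ker_le [Finite V] {M : Matrix (Fin 2) (Fin 2) K} (hM : M ≠ 0) : Nat.card (am V M).ker ≤ bb K V := by
  have h1 := card_ker_range (V := V) M
  rw [card_V_eq (K := K) (V := V)] at h1
  have h2 := card_range_ge (V := V) hM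
  have h3 : 0 < bb K V := by
    have : 0 < Nat.card V := Nat.card_pos
    rw [card_V_eq (K := K) (V := V)] at this
    exact Nat.pos_of_ne_zero fun h => by rw [h] at this; simp at this
  have h4 : Nat.card (am V M).ker * bb K V ≤ bb K V * bb K V := by
    rw [← sq, ← h1]
    exact Nat.mul_le_mul_left _ h2
  exact Nat.le_of_mul_le_mul_right h4 h3

theorem card_range_of_zero_div [Finite V] {e e' : Matrix (Fin 2) (Fin 2) K} (he : e ≠ 0) (he' : e' ≠ 0) (hee : e * e' = 0) :
    Nat.card (am V e).range = bb K V := by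
  refine le_antisymm ?_ (card_range_ge he)
  have h1 := card_ker_range (V := V) e
  rw [card_V_eq (K := K) (V := V)] at h1
  have h2 : bb K V ≤ Nat.card (am V e).ker := by
    refine (card_range_ge (V := V) he').trans ?_
    refine Nat.card_le_card_of_injective (fun u : (am V e').range => (⟨u.1, ?_⟩ : (am V e).ker)) ?_
    · obtain ⟨w, hw⟩ := u.2
      rw [AddMonoidHom.mem_ker, ← hw]
      change e • e' • w = 0
      rw [← mul_smul, hee, zero_smul]
    · intro a b hab
      have h5 := congrArg Subtype.val hab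
      exact Subtype.ext h5
  have h3 : 0 < bb K V := by
    have : 0 < Nat.card V := Nat.card_pos
    rw [card_V_eq (K := K) (V := V)] at this
    exact Nat.pos_of_ne_zero fun h => by rw [h] at this; simp at this
  have h4 : bb K V * Nat.card (am V e).range ≤ bb K V * bb K V := by
    rw [← sq, ← h1]
    exact Nat.mul_le_mul_right _ h2
  exact Nat.le_of_mul_le_mul_left h4 h3

/-- the fixed ring of an involution has zero divisors -/
theorem exists_zero_div [Finite K] (h2 : (2 : K) ≠ 0) (φ : Matrix (Fin 2) (Fin 2) K →+* Matrix (Fin 2) (Fin 2) K)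
    (hφ : ∀ M, φ (φ M) = M) {z : K} (hz : z ≠ 0) (hφz : φ (z • 1) = -(z • 1)) :
    ∃ e e' : Matrix (Fin 2) (Fin 2) K, φ e = e ∧ φ e' = e' ∧ e ≠ 0 ∧ e' ≠ 0 ∧ e * e' = 0 := by
  by_contra hcon
  push Not at hcon
  let R : Subring (Matrix (Fin 2) (Fin 2) K) := φ.eqLocus (RingHom.id _)
  have hR : ∀ {M}, M ∈ R ↔ φ M = M := Iff.rfl
  have : (NoZeroDivisors R :) := ⟨by
    rintro ⟨a, ha⟩ ⟨b, hb⟩ hab
    have h1 : a * b = 0 := congrArg Subtype.val hab
    by_cases ha0 : a = 0
    · left; exact Subtype.ext ha0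
    · right
      by_contra hb0
      exact hcon a b ha hb ha0 (fun h => hb0 (Subtype.ext h)) h1⟩
  have : (IsDomain R :) := NoZeroDivisors.to_isDomain R
  have hfield := Finite.isDomain_to_isField R
  have hcomm : ∀ a b : Matrix (Fin 2) (Fin 2) K, φ a = a → φ b = b → a * b = b * a := fun a b ha hb =>
    congrArg Subtype.val ((hfield.mul_comm ⟨a, ha⟩ ⟨b, hb⟩ :))
  have hcen : ∀ (c : K) (M : Matrix (Fin 2) (Fin 2) K), (c • (1 : Matrix (Fin 2) (Fin 2) K)) * M = M * (c • 1) := by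
    intro c M
    rw [smul_mul_assoc, one_mul, mul_smul_comm, mul_one]
  set Z := z • (1 : Matrix (Fin 2) (Fin 2) K) with hZ
  have hcZ : ∀ M, Z * M = M * Z := fun M => hcen z M
  have hA : ∀ M, φ (M + φ M) = M + φ M := fun M => by rw [map_add, hφ, add_comm]
  have hB : ∀ M, φ (Z * (M - φ M)) = Z * (M - φ M) := fun M => by
    rw [map_mul, map_sub, hφ, hφz, neg_mul, ← mul_neg, neg_sub]
  have key : ∀ M, (2 * z) • M = Z * (M + φ M) + Z * (M - φ M) := fun M => by
    rw [← mul_add, show M + φ M + (M - φ M) = (2 : K) • M by rw [two_smul]; abel, mul_smul_comm, hZ, smul_mul_assoc,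
      one_mul, smul_smul]
  have hfin : ∀ M N : Matrix (Fin 2) (Fin 2) K, M * N = N * M := by
    intro M N
    have h3 : ((2 * z) • M) * ((2 * z) • N) = ((2 * z) • N) * ((2 * z) • M) := by
      rw [key, key]
      set A := M + φ M
      set B := Z * (M - φ M)
      set C := N + φ N
      set D := Z * (N - φ N)
      have hAC := hcomm A C (hA M) (hA N)
      have hAD := hcomm A D (hA M) (hB N)
      have hBC := hcomm B C (hB M) (hA N)
      have hBD := hcomm B D (hB M) (hB N)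
      calc (Z * A + B) * (Z * C + D) = Z * (A * Z) * C + Z * (A * D) + B * Z * C + B * D := by noncomm_ring
        _ = Z * (Z * A) * C + Z * (A * D) + Z * B * C + B * D := by rw [← hcZ A, ← hcZ B]
        _ = Z * Z * (A * C) + Z * (A * D) + Z * (B * C) + B * D := by noncomm_ring
        _ = Z * Z * (C * A) + Z * (D * A) + Z * (C * B) + D * B := by rw [hAC, hAD, hBC, hBD]
        _ = Z * (Z * C) * A + (Z * D) * A + Z * (C * B) + D * B := by noncomm_ring
        _ = Z * (C * Z) * A + (D * Z) * A + Z * (C * B) + D * B := by rw [hcZ C, hcZ D]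
        _ = (Z * C + D) * (Z * A + B) := by noncomm_ring
    rw [smul_mul_smul_comm, smul_mul_smul_comm] at h3
    have h4 : (2 * z) * (2 * z) ≠ 0 := mul_ne_zero (mul_ne_zero h2 hz) (mul_ne_zero h2 hz)
    exact smul_right_injective _ h4 h3
  have h5 := hfin (eu 0 1) (eu 1 0)
  rw [eu_mul, eu_mul, if_pos rfl, if_pos rfl] at h5
  have h6 := congrFun (congrFun h5 0) 0
  simp at h6

end mods

section setup

variable {p : ℕ} [Fact p.Prime] {V : Type u} [AddCommGroup V] [Module (ZMod p) V] [Finite V]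
  {G : Subgroup (V ≃ₗ[ZMod p] V)} {K : Type v} [Field K] [Module (Matrix (Fin 2) (Fin 2) K) V]
  {j : SL25 →* Matrix.SpecialLinearGroup (Fin 2) K} {l : SL25 →* (V ≃ₗ[ZMod p] V)}

theorem num_le {N P β : ℕ} (hP : P ^ 2 = β) (hP2 : 2 ≤ P) (h : N * P + 1 ≤ β + N) : N ≤ P + 1 := by
  obtain ⟨Q, rfl⟩ : ∃ Q, P = Q + 1 := ⟨P - 1, by omega⟩
  subst hP
  have h1 : N * Q ≤ (Q + 2) * Q := by linarith only [h]
  exact Nat.le_of_mul_le_mul_right h1 (by omega)

namespace SetupQ

variable (hS : SetupQ G K j l)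

include hS

/-- the number of outer involutions inducing a given automorphism -/
theorem card_N0 (hh : Half G 2) {t₀ : V ≃ₗ[ZMod p] V} (ht₀ : t₀ ∈ G) (hn₀ : t₀ ∉ LC G l) (h₀ : t₀ * t₀ = 1) {P : ℕ}
    (hP : P ^ 2 = bb K V) (hP2 : 2 ≤ P) :
    Nat.card {α : V ≃ₗ[ZMod p] V // α ∈ AA G l ∧ α * (t₀ * α * t₀⁻¹) = 1} ≤ P + 1 := by
  have := hS.fin
  obtain ⟨ψ, hψ, -⟩ := hS.outer_data ht₀ hn₀ h₀
  obtain ⟨φ, hφv, hφ, -⟩ := hS.exists_phi hψ
  have hφφ : ∀ M, φ (φ M) = M := by
    intro M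
    have h1 : φ (φ M) - M = 0 := by
      refine faithful (V := V) hS.nontriv fun v => ?_
      obtain ⟨w, rfl⟩ : ∃ w, v = t₀ (t₀ w) := ⟨v, by rw [← LinearEquiv.mul_apply, h₀]; rfl⟩
      rw [sub_smul, ← hφv, ← hφv, sub_eq_zero, ← LinearEquiv.mul_apply, ← LinearEquiv.mul_apply, h₀]
      rfl
    exact sub_eq_zero.1 h1
  have hφz : φ ((zeta j) • 1) = -((zeta j) • 1) := by
    have h1 : φ ((zeta j) • 1) + (zeta j) • 1 = 0 := by
      refine faithful (V := V) hS.nontriv fun v => ?_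
      obtain ⟨w, rfl⟩ := t₀.surjective v
      have h2 := hS.zeta_anti ht₀ hn₀ w
      unfold sc at h2
      rw [add_smul, ← hφv, h2, neg_add_cancel]
    exact eq_neg_of_add_eq_zero_left h1
  obtain ⟨e, e', he, he', hne, hne', hee⟩ := exists_zero_div hS.two_ne φ hφφ hS.zeta_ne hφz
  set U := AddSubgroup.toZModSubmodule p (am V e).range with hU
  have hmemU : ∀ u, u ∈ U ↔ ∃ w, e • w = u := fun u => Iff.rfl
  have hcU : Nat.card U = bb K V := card_range_of_zero_div hne hne' hee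
  let ι := {α : V ≃ₗ[ZMod p] V // α ∈ AA G l ∧ α * (t₀ * α * t₀⁻¹) = 1}
  have hF := Fintype.ofFinite ι
  have hg : ∀ i : ι, i.1 * t₀ ∈ G ∧ i.1 * t₀ ∉ LC G l ∧ (i.1 * t₀) * (i.1 * t₀) = 1 := by
    rintro ⟨a, ha, ha'⟩
    have hinv : t₀⁻¹ = t₀ := inv_eq_of_mul_eq_one_left h₀
    refine ⟨mul_mem (AA_le ha) ht₀, fun h => hn₀ ((Subgroup.mul_mem_cancel_left _ (AA_le_LC ha)).1 h), ?_⟩
    change (a * t₀) * (a * t₀) = 1
    rw [hinv] at ha'
    rw [← ha']; group
  have h1 := pack_sum (V := V) (ι := ι) (fun i => {u | u ∈ U ∧ (i.1 * t₀) u = u}) (U : Set V) U.zero_mem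
    (fun i u hu => hu.1) (fun i => ⟨U.zero_mem, map_zero _⟩) (by
      rintro i i' hne v ⟨-, hv⟩ ⟨-, hv'⟩
      by_contra hv0
      apply hne
      have h2 := eq_of_fix hh hv0 (hg i).1 (hg i').1 (fun h => (hg i).2.1 (by rw [h]; exact one_mem _))
        (fun h => (hg i').2.1 (by rw [h]; exact one_mem _)) hv hv'
      exact Subtype.ext (mul_right_cancel h2))
  have h2 : ∀ i : ι, Nat.card ({u | u ∈ U ∧ (i.1 * t₀) u = u} : Set V) = P := by
    intro i
    have h3 := hS.card_fix_outer (hg i).1 (hg i).2.1 (hg i).2.2 U (by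
      rintro u ⟨w, rfl⟩
      refine ⟨(i.1 * t₀) w, ?_⟩
      change e • (i.1 * t₀) w = (i.1 * t₀) (e • w)
      rw [LinearEquiv.mul_apply, LinearEquiv.mul_apply, hφv, he, hS.comm_smul i.2.1]) (by
      rintro u ⟨w, rfl⟩
      refine ⟨sc (zeta j) w, ?_⟩
      change e • sc (zeta j) w = sc (zeta j) (e • w)
      unfold sc
      rw [← mul_smul, ← mul_smul, mul_smul_comm, mul_one, smul_mul_assoc, one_mul])
    rw [hcU, ← hP] at h3
    exact Nat.pow_left_injective (n := 2) (by norm_num) h3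
  rw [Finset.sum_congr rfl (fun i _ => h2 i), Finset.sum_const, Finset.card_univ, smul_eq_mul] at h1
  change Fintype.card ι * P + 1 ≤ Nat.card U + Fintype.card ι at h1
  rw [hcU, ← Nat.card_eq_fintype_card] at h1
  exact num_le hP hP2 h1

/-- the number of `α ∈ AA` with `α² = -1` -/
theorem card_S (hh : Half G 2) {i : K} (hi : i * i = -1) {P : ℕ} (hP : P ^ 2 = bb K V) (hP2 : 2 ≤ P) :
    Nat.card {α : V ≃ₗ[ZMod p] V // α ∈ AA G l ∧ α * α = l (-1)} ≤ P + 1 := by
  -- the matrix `-i S`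
  set M : Matrix (Fin 2) (Fin 2) K := (-i) • (j S : Matrix (Fin 2) (Fin 2) K) with hM
  have hSS : (j S : Matrix (Fin 2) (Fin 2) K) * (j S) = -1 := by
    have h1 : j S * j S = -1 := by rw [← map_mul, relS, hS.j_neg]
    have h2 := congrArg Subtype.val h1
    simpa only [_root_.Matrix.SpecialLinearGroup.coe_mul, _root_.Matrix.SpecialLinearGroup.coe_neg, _root_.Matrix.SpecialLinearGroup.coe_one] using h2
  have hMM : M * M = 1 := by
    rw [hM, smul_mul_smul_comm, hSS, neg_mul_neg, hi, neg_smul, one_smul, neg_neg]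
  have hact : ∀ u : V, M • u = sc (-i) (l S u) := by
    intro u
    rw [hS.act, hM]
    unfold sc
    rw [← mul_smul, smul_mul_assoc, one_mul]
  have hfixM : ∀ u : V, M • u = u ↔ l S u = sc i u := by
    intro u
    rw [hact]
    constructor
    · intro h
      have h1 := congrArg (sc i) h
      rw [sc_sc, mul_neg, hi, neg_neg, sc_one] at h1
      exact h1
    · intro h
      rw [h, sc_sc, neg_mul, hi, neg_neg, sc_one]
  -- the eigenspace
  let U0 : AddSubgroup V :=
    { carrier := {u | M • u = u}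
      zero_mem' := smul_zero _
      add_mem' := fun {a b} ha hb => by
        change M • (a + b) = a + b
        have ha' : M • a = a := ha
        have hb' : M • b = b := hb
        rw [smul_add, ha', hb']
      neg_mem' := fun {a} ha => by
        change M • (-a) = -a
        have ha' : M • a = a := ha
        rw [smul_neg, ha'] }
  set U := AddSubgroup.toZModSubmodule p U0 with hU
  have hmemU : ∀ u, u ∈ U ↔ M • u = u := fun u => Iff.rfl
  obtain ⟨w, hw⟩ := F.four_inv S relS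
  have hcU : Nat.card U = bb K V := by
    have h1 := split_sq (p := p) hS.p_ne_two ⊤ (am V M) (fun u _ => trivial) (fun u _ => by
      change M • M • u = u
      rw [← mul_smul, hMM, one_smul]) (fun u => l w u) (l w).injective (fun u _ => trivial) (fun u => by
      rw [map_neg]) (fun u _ => by
      change M • (l w u) = - l w (M • u)
      rw [hact, hact]
      have e1 : l S * l w = l (-1) * (l w * l S) := by
        rw [← map_mul, ← map_mul, ← map_mul]
        congr 1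
        have h2 : S⁻¹ * w = w * S := by rw [← hw]; group
        have h3 : S⁻¹ = -S := by
          rw [inv_eq_iff_mul_eq_one]; rw [mul_neg, relS, neg_neg]
        rw [← h2, h3]; simp
      have e2 := DFunLike.congr_fun e1 u
      simp only [LinearEquiv.mul_apply] at e2
      rw [e2, hS.l_neg]
      unfold sc
      rw [smul_neg]
      congr 1
      have e3 : ∀ c : K, ∀ u : V, l w ((c • (1 : Matrix (Fin 2) (Fin 2) K)) • u) = (c • (1 : Matrix (Fin 2) (Fin 2) K)) • l w u := by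
        intro c u
        rw [hS.act, hS.act, ← mul_smul, ← mul_smul, mul_smul_comm, mul_one, smul_mul_assoc, one_mul]
      rw [e3])
    rw [Nat.card_congr (Equiv.subtypeUnivEquiv (α := V) (p := fun x => x ∈ (⊤ : Submodule (ZMod p) V)) fun _ => trivial),
      card_V_eq (K := K) (V := V)] at h1
    rw [← Nat.pow_left_injective (n := 2) (by norm_num) h1]
    exact Nat.card_congr (Equiv.subtypeEquivRight fun u => by simp [hmemU])
  -- the family
  let ι := {α : V ≃ₗ[ZMod p] V // α ∈ AA G l ∧ α * α = l (-1)}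
  have hF := Fintype.ofFinite ι
  let g : ι → V →+ V := fun a => (am V (i • 1 : Matrix (Fin 2) (Fin 2) K)).comp (a.1 : V →ₗ[ZMod p] V).toAddMonoidHom
  have hgv : ∀ a u, g a u = sc i (a.1 u) := fun a u => rfl
  let Fm : ι → Set V := fun a => {u | u ∈ U ∧ g a u = u}
  have hfix : ∀ a : ι, ∀ u, u ∈ Fm a → (l S * a.1) u = u := by
    rintro a u ⟨hu, hau⟩
    rw [hgv] at hau
    rw [hmemU, hfixM] at hu
    rw [(mem_AA.1 a.2.1).2 S, LinearEquiv.mul_apply, hu, hS.AA_sc a.2.1, hau]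
  have hne1 : ∀ a : ι, l S * a.1 ≠ 1 := by
    intro a h
    have h1 : l S = a.1⁻¹ := eq_inv_of_mul_eq_one_left h
    have h2 : l S ∈ AA G l := by rw [h1]; exact inv_mem a.2.1
    rcases hS.central_of_AA h2 with h3 | h3
    · exact absurd h3 (by decide +kernel)
    · have h4 := relS
      rw [h3] at h4
      exact neg_one_ne (by rw [← h4]; simp)
  have h1 := pack_sum (V := V) (ι := ι) Fm (U : Set V) U.zero_mem (fun a u hu => hu.1)
    (fun a => ⟨U.zero_mem, map_zero _⟩) (by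
      rintro a a' hne v hv hv'
      by_contra hv0
      apply hne
      have h2 := eq_of_fix hh hv0 (mul_mem (hS.mem S) (AA_le a.2.1)) (mul_mem (hS.mem S) (AA_le a'.2.1)) (hne1 a) (hne1 a')
        (hfix a v hv) (hfix a' v hv')
      exact Subtype.ext (mul_left_cancel h2))
  let ng : ι ≃ ι :=
    { toFun := fun a => ⟨l (-1) * a.1, mul_mem hS.l_neg_mem a.2.1, by
        calc l (-1) * a.1 * (l (-1) * a.1) = l (-1) * (a.1 * l (-1)) * a.1 := by group
          _ = (l (-1) * l (-1)) * (a.1 * a.1) := by rw [← (mem_AA.1 a.2.1).2 (-1)]; group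
          _ = l (-1) := by rw [l_neg_sq, a.2.2, one_mul]⟩
      invFun := fun a => ⟨l (-1) * a.1, mul_mem hS.l_neg_mem a.2.1, by
        calc l (-1) * a.1 * (l (-1) * a.1) = l (-1) * (a.1 * l (-1)) * a.1 := by group
          _ = (l (-1) * l (-1)) * (a.1 * a.1) := by rw [← (mem_AA.1 a.2.1).2 (-1)]; group
          _ = l (-1) := by rw [l_neg_sq, a.2.2, one_mul]⟩
      left_inv := fun a => Subtype.ext (by
        change l (-1) * (l (-1) * a.1) = a.1
        rw [← mul_assoc, l_neg_sq, one_mul])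
      right_inv := fun a => Subtype.ext (by
        change l (-1) * (l (-1) * a.1) = a.1
        rw [← mul_assoc, l_neg_sq, one_mul]) }
  have hgn : ∀ a u, g (ng a) u = - g a u := by
    intro a u
    rw [hgv, hgv]
    change sc i ((l (-1) * a.1) u) = _
    rw [LinearEquiv.mul_apply, hS.l_neg]
    unfold sc
    rw [smul_neg]
  have h2 : ∀ a : ι, 2 * P ≤ Nat.card (Fm a) + Nat.card (Fm (ng a)) := by
    intro a
    have h3 := split (p := p) hS.p_ne_two U (g a) (by
      intro u hu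
      rw [hmemU] at hu ⊢
      rw [hgv]
      have e1 : M • sc i (a.1 u) = sc i (a.1 (M • u)) := by
        rw [hS.comm_smul a.2.1]
        unfold sc
        rw [← mul_smul, ← mul_smul, mul_smul_comm, mul_one, smul_mul_assoc, one_mul]
      rw [e1, hu]) (by
      intro u _
      rw [hgv, hgv, hS.AA_sc a.2.1, sc_sc, hi, sc_neg, sc_one, ← LinearEquiv.mul_apply, a.2.2, hS.l_neg, neg_neg])
    have h4 : Nat.card {u // u ∈ U ∧ g a u = -u} = Nat.card (Fm (ng a)) := by
      refine Nat.card_congr (Equiv.subtypeEquivRight fun u => ?_)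
      change (u ∈ U ∧ g a u = -u) ↔ (u ∈ U ∧ g (ng a) u = u)
      rw [hgn, neg_eq_iff_eq_neg]
    have h5 : Nat.card {u // u ∈ U ∧ g a u = u} = Nat.card (Fm a) := rfl
    rw [h4, h5, hcU, ← hP] at h3
    by_contra hlt
    push Not at hlt
    linarith only [h3, sq_nonneg ((Nat.card (Fm a) : ℤ) - Nat.card (Fm (ng a))), Nat.pow_lt_pow_left hlt (n := 2) (by norm_num)]
  have h3 : Fintype.card ι * (2 * P) ≤ 2 * ∑ a, Nat.card (Fm a) := by
    have e1 : ∑ a, Nat.card (Fm (ng a)) = ∑ a, Nat.card (Fm a) := Equiv.sum_comp ng (fun a => Nat.card (Fm a))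
    rw [two_mul (∑ a, Nat.card (Fm a))]
    nth_rewrite 2 [← e1]
    rw [← Finset.sum_add_distrib, ← Finset.card_univ, ← smul_eq_mul, ← Finset.sum_const]
    exact Finset.sum_le_sum fun a _ => h2 a
  change ∑ a, Nat.card (Fm a) + 1 ≤ Nat.card U + Fintype.card ι at h1
  rw [hcU] at h1
  change Nat.card ι ≤ P + 1
  rw [Nat.card_eq_fintype_card]
  refine num_le hP hP2 ?_
  have h4 : Fintype.card ι * P ≤ ∑ a, Nat.card (Fm a) := by
    have : 2 * (Fintype.card ι * P) ≤ 2 * ∑ a, Nat.card (Fm a) := by linarith only [h3]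
    omega
  linarith only [h3, h1]

end SetupQ

end setup

end Cfsg.Agent.H312.HT
end

private theorem dce_fb88897566ef : _root_.True := by
  try have : _root_.True := by simp only [_root_.Cfsg.Agent.H312.HT.AA.eq_1]
  exact _root_.True.intro
end

-- part: H312/HT/Row
section
prune_inst 0x400000000000000000000000000002000200000000000000000000000000000000000000000000200000000000000000000000000000000000000000000000000000000000000000000000000000000000000000000000000
set_option linter.all false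
open scoped Cfsg.Agent.FastGrp

-- part: H312/HT/MultTwo
section
/-!
# Multiplicity at least two is impossible (helper312, S3540)
-/

set_option autoImplicit false

namespace Cfsg.Agent.H312.HT

open Cfsg.Agent.H828.HT Cfsg.Agent.PermutationGroups.AutSL25 Matrix

universe u v

section setup

variable {p : ℕ} [Fact p.Prime] {V : Type u} [AddCommGroup V] [Module (ZMod p) V] [Finite V]
  {G : Subgroup (V ≃ₗ[ZMod p] V)} {h : ℕ} {K : Type v} [Field K] [Module (Matrix (Fin 2) (Fin 2) K) V]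
  {j : SL25 →* Matrix.SpecialLinearGroup (Fin 2) K} {l : SL25 →* (V ≃ₗ[ZMod p] V)}

/-- the vectors fixed by a non-trivial element of `AA` -/
def V1 (G : Subgroup (V ≃ₗ[ZMod p] V)) (l : SL25 →* (V ≃ₗ[ZMod p] V)) : Set V :=
  {v | v ≠ 0 ∧ ∃ α ∈ AA G l, α ≠ 1 ∧ α v = v}

/-- inner involutions -/
abbrev T2 (G : Subgroup (V ≃ₗ[ZMod p] V)) (l : SL25 →* (V ≃ₗ[ZMod p] V)) : Type u :=
  {g : V ≃ₗ[ZMod p] V // g ∈ LC G l ∧ g ∉ AA G l ∧ g * g = 1}

/-- outer involutions -/
abbrev T3 (G : Subgroup (V ≃ₗ[ZMod p] V)) (l : SL25 →* (V ≃ₗ[ZMod p] V)) : Type u :=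
  {g : V ≃ₗ[ZMod p] V // g ∈ G ∧ g ∉ LC G l ∧ g * g = 1}

/-- `B` as a subspace -/
def Bs (p : ℕ) [Fact p.Prime] (K : Type v) [Field K] (V : Type u) [AddCommGroup V] [Module (ZMod p) V]
    [Module (Matrix (Fin 2) (Fin 2) K) V] : Submodule (ZMod p) V := AddSubgroup.toZModSubmodule p
  { carrier := {b | InB K b}
    zero_mem' := smul_zero _
    add_mem' := fun {a b} ha hb => by
      change (eu 0 0 : Matrix (Fin 2) (Fin 2) K) • (a + b) = a + b
      have ha' : (eu 0 0 : Matrix (Fin 2) (Fin 2) K) • a = a := ha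
      have hb' : (eu 0 0 : Matrix (Fin 2) (Fin 2) K) • b = b := hb
      rw [smul_add, ha', hb']
    neg_mem' := fun {a} ha => by
      change (eu 0 0 : Matrix (Fin 2) (Fin 2) K) • (-a) = -a
      have ha' : (eu 0 0 : Matrix (Fin 2) (Fin 2) K) • a = a := ha
      rw [smul_neg, ha'] }

omit [Finite V] in
theorem mem_Bs {b : V} : b ∈ Bs p K V ↔ InB K b := Iff.rfl

omit [Finite V] in
theorem card_Bs : Nat.card (Bs p K V) = bb K V := rfl

theorem bb_pow (hK : Nat.card K = p ^ 2) : ∃ b, bb K V = (p ^ b) ^ 2 := by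
  have hp : p.Prime := Fact.out
  have : Finite K := Nat.finite_of_card_ne_zero (by rw [hK]; exact pow_ne_zero _ hp.ne_zero)
  let _ : Module K V := Module.compHom V (Matrix.scalar (Fin 2) : K →+* Matrix (Fin 2) (Fin 2) K)
  let B : Submodule K V :=
    { carrier := {b | InB K b}
      zero_mem' := smul_zero _
      add_mem' := fun {a b} ha hb => by
        change (eu 0 0 : Matrix (Fin 2) (Fin 2) K) • (a + b) = a + b
        have ha' : (eu 0 0 : Matrix (Fin 2) (Fin 2) K) • a = a := ha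
        have hb' : (eu 0 0 : Matrix (Fin 2) (Fin 2) K) • b = b := hb
        rw [smul_add, ha', hb']
      smul_mem' := fun c b hb => by
        change (eu 0 0 : Matrix (Fin 2) (Fin 2) K) • (Matrix.scalar (Fin 2) c • b) = Matrix.scalar (Fin 2) c • b
        have hb' : (eu 0 0 : Matrix (Fin 2) (Fin 2) K) • b = b := hb
        have h1 : (eu 0 0 : Matrix (Fin 2) (Fin 2) K) * Matrix.scalar (Fin 2) c = Matrix.scalar (Fin 2) c * eu 0 0 :=
          (Matrix.scalar_commute c (fun _ => mul_comm _ _) _).symm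
        rw [← mul_smul, h1, mul_smul, hb'] }
  have h1 : Nat.card B = Nat.card K ^ Module.finrank K B := Module.natCard_eq_pow_finrank
  exact ⟨Module.finrank K B, by change Nat.card B = _; rw [h1, hK, ← pow_mul, ← pow_mul, mul_comm]⟩

theorem bb_ge [Finite K] {v : V} (hv : Rk2 K v) : Nat.card K ^ 2 ≤ bb K V := by
  rw [sq, ← Nat.card_prod]
  refine Nat.card_le_card_of_injective (fun z : K × K => (⟨(z.1 • eu 0 0 + z.2 • eu 0 1 : Matrix (Fin 2) (Fin 2) K) • v, by
    unfold InB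
    rw [← mul_smul, mul_add, mul_smul_comm, mul_smul_comm, eu_mul, eu_mul, if_pos rfl, if_pos rfl]⟩ : {b : V // InB K b})) ?_
  rintro ⟨s, t⟩ ⟨s', t'⟩ h
  have h1 : (s • eu 0 0 + t • eu 0 1 : Matrix (Fin 2) (Fin 2) K) • v = (s' • eu 0 0 + t' • eu 0 1 : Matrix (Fin 2) (Fin 2) K) • v :=
    congrArg Subtype.val h
  have h2 := hv.inj h1
  have h3 := congrFun (congrFun h2 0) 0
  have h4 := congrFun (congrFun h2 0) 1
  simp at h3 h4
  rw [h3, h4]

namespace SetupQ

variable (hS : SetupQ G K j l)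

include hS

theorem card_fix_T2 (g : T2 G l) : Nat.card ({v | g.1 v = v} : Set V) = bb K V := by
  obtain ⟨g, ⟨x, α, hα, rfl⟩, h1, h2⟩ := g
  obtain ⟨h3, h4⟩ := (hS.inner_iff hα).1 ⟨h1, h2⟩
  have h5 := hS.card_fix_inner h3 hα h4
  rw [card_V_eq (K := K) (V := V)] at h5
  exact Nat.pow_left_injective (n := 2) (by norm_num) h5

theorem card_fix_T3 (g : T3 G l) : Nat.card ({v | g.1 v = v} : Set V) = bb K V := by
  have h5 := hS.card_fix_outer g.2.1 g.2.2.1 g.2.2.2 ⊤ (fun _ _ => trivial) (fun _ _ => trivial)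
  rw [Nat.card_congr (Equiv.subtypeUnivEquiv (α := V) (p := fun x => x ∈ (⊤ : Submodule (ZMod p) V)) fun _ => trivial),
    card_V_eq (K := K) (V := V)] at h5
  rw [← Nat.pow_left_injective (n := 2) (by norm_num) h5]
  exact Nat.card_congr (Equiv.subtypeEquivRight fun u => by simp)

theorem cover (hh : Half G 2) :
    bb K V ^ 2 + (Nat.card (T2 G l) + Nat.card (T3 G l)) ≤
      Nat.card (V1 G l) + (Nat.card (T2 G l) + Nat.card (T3 G l)) * bb K V + 1 := by
  have hF := Fintype.ofFinite (T2 G l)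
  have hF' := Fintype.ofFinite (T3 G l)
  have h1 := cover_sum (V := V) (ι := T2 G l ⊕ T3 G l)
    (Sum.elim (fun g => {v | g.1 v = v}) (fun g => {v | g.1 v = v})) (V1 G l) (by
      rintro (g | g)
      · exact map_zero _
      · exact map_zero _) (by
      intro v hv
      have h2 := card_sg hh hv
      obtain ⟨g, hg, hg1⟩ : ∃ g ∈ sg G v, g ≠ 1 := by
        by_contra hcon
        push Not at hcon
        have h1 : sg G v = ⊥ := (Subgroup.eq_bot_iff_forall _).2 hcon
        rw [h1, Subgroup.card_bot] at h2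
        omega
      by_cases hA : g ∈ AA G l
      · left; exact ⟨hv, g, hA, hg1, hg.2⟩
      · right
        have hsq := sq_of_fix hh hv hg.1 hg.2
        by_cases hL : g ∈ LC G l
        · exact ⟨Sum.inl ⟨g, hL, hA, hsq⟩, hg.2⟩
        · exact ⟨Sum.inr ⟨g, hg.1, hL, hsq⟩, hg.2⟩)
  rw [Fintype.sum_sum_type, Fintype.card_sum] at h1
  simp only [Sum.elim_inl, Sum.elim_inr] at h1
  rw [Finset.sum_congr rfl (fun g _ => hS.card_fix_T2 g),
    Finset.sum_congr rfl (fun g _ => hS.card_fix_T3 g), Finset.sum_const, Finset.sum_const, Finset.card_univ,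
    Finset.card_univ, smul_eq_mul, smul_eq_mul, card_V_eq (K := K) (V := V), ← Nat.card_eq_fintype_card,
    ← Nat.card_eq_fintype_card] at h1
  linarith

theorem packing (hh : Half G 2) :
    (Nat.card (T2 G l) + Nat.card (T3 G l)) * bb K V + 1 ≤ bb K V ^ 2 + (Nat.card (T2 G l) + Nat.card (T3 G l)) := by
  have hF := Fintype.ofFinite (T2 G l)
  have hF' := Fintype.ofFinite (T3 G l)
  have hne2 : ∀ g : T2 G l, g.1 ∈ G ∧ g.1 ≠ 1 := fun g => ⟨hS.LC_le g.2.1, fun h => g.2.2.1 (by rw [h]; exact one_mem _)⟩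
  have hne3 : ∀ g : T3 G l, g.1 ∈ G ∧ g.1 ≠ 1 := fun g => ⟨g.2.1, fun h => g.2.2.1 (by rw [h]; exact one_mem _)⟩
  have h1 := pack_sum (V := V) (ι := T2 G l ⊕ T3 G l)
    (Sum.elim (fun g => {v | g.1 v = v}) (fun g => {v | g.1 v = v})) Set.univ trivial (fun _ => Set.subset_univ _) (by
      rintro (g | g)
      · exact map_zero _
      · exact map_zero _) (by
      rintro (g | g) (g' | g') hne v hv hv' <;> by_contra hv0
      · exact hne (congrArg Sum.inl (Subtype.ext (eq_of_fix hh hv0 (hne2 g).1 (hne2 g').1 (hne2 g).2 (hne2 g').2 hv hv')))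
      · have := eq_of_fix hh hv0 (hne2 g).1 (hne3 g').1 (hne2 g).2 (hne3 g').2 hv hv'
        exact g'.2.2.1 (by rw [← this]; exact g.2.1)
      · have := eq_of_fix hh hv0 (hne3 g).1 (hne2 g').1 (hne3 g).2 (hne2 g').2 hv hv'
        exact g.2.2.1 (by rw [this]; exact g'.2.1)
      · exact hne (congrArg Sum.inr (Subtype.ext (eq_of_fix hh hv0 (hne3 g).1 (hne3 g').1 (hne3 g).2 (hne3 g').2 hv hv'))))
  rw [Fintype.sum_sum_type, Fintype.card_sum] at h1
  simp only [Sum.elim_inl, Sum.elim_inr] at h1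
  rw [Finset.sum_congr rfl (fun g _ => hS.card_fix_T2 g),
    Finset.sum_congr rfl (fun g _ => hS.card_fix_T3 g), Finset.sum_const, Finset.sum_const, Finset.card_univ,
    Finset.card_univ, smul_eq_mul, smul_eq_mul, Nat.card_congr (Equiv.Set.univ V), card_V_eq (K := K) (V := V),
    ← Nat.card_eq_fintype_card, ← Nat.card_eq_fintype_card] at h1
  linarith

/-- the fixed space in `B` -/
theorem card_CB {α : V ≃ₗ[ZMod p] V} (hα : α ∈ AA G l) (h1 : α ≠ 1) :
    7 * Nat.card {b : V // InB K b ∧ α b = b} ≤ bb K V := by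
  obtain ⟨b, hb, hb'⟩ := hS.exists_moved hα h1
  have hlt : Bs p K V ⊓ fx α < Bs p K V := by
    refine lt_of_le_of_ne inf_le_left fun h => hb' ?_
    have h2 : b ∈ Bs p K V := hb
    rw [← h] at h2
    exact mem_fx.1 h2.2
  have h2 := Submodule.finrank_lt_finrank_of_lt hlt
  have h3 : Nat.card {b : V // InB K b ∧ α b = b} = Nat.card (Bs p K V ⊓ fx α : Submodule (ZMod p) V) :=
    Nat.card_congr (Equiv.subtypeEquivRight fun u => by
      rw [Submodule.mem_inf, mem_fx, mem_Bs])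
  rw [h3, ← card_Bs (p := p), card_eq_pow (p := p), card_eq_pow (p := p) (Bs p K V)]
  have hp : 0 < p := (Fact.out : p.Prime).pos
  calc 7 * p ^ Module.finrank (ZMod p) (Bs p K V ⊓ fx α : Submodule (ZMod p) V) ≤
      p * p ^ Module.finrank (ZMod p) (Bs p K V ⊓ fx α : Submodule (ZMod p) V) := Nat.mul_le_mul_right _ hS.p7
    _ = p ^ (Module.finrank (ZMod p) (Bs p K V ⊓ fx α : Submodule (ZMod p) V) + 1) := by rw [pow_succ, mul_comm]
    _ ≤ _ := Nat.pow_le_pow_right hp h2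

theorem card_V1 (hh : Half G 2) : 7 * Nat.card (V1 G l) ≤ (bb K V - 1) * (7 + bb K V) := by
  let B0 := {b : V // InB K b ∧ b ≠ 0}
  have hB0 : Nat.card B0 = bb K V - 1 := by
    have h1 := card_nz ({b : V | InB K b}) (smul_zero _)
    have h2 : Nat.card B0 + 1 = bb K V := h1
    omega
  let C : B0 → Type u := fun b₀ => {b : V // InB K b ∧ ∃ α ∈ AA G l, α ≠ 1 ∧ α b₀.1 = b₀.1 ∧ α b = b}
  have hF := Fintype.ofFinite B0
  have hC : ∀ b₀, 7 * Nat.card (C b₀) ≤ bb K V := by
    intro b₀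
    by_cases hex : ∃ α ∈ AA G l, α ≠ 1 ∧ α b₀.1 = b₀.1
    · obtain ⟨α, hα, hα1, hαb⟩ := hex
      refine le_trans (Nat.mul_le_mul_left _ ?_) (hS.card_CB hα hα1)
      refine Nat.card_le_card_of_injective (fun b => ⟨b.1, b.2.1, ?_⟩) ?_
      · obtain ⟨b, hb, α', hα', hα1', h2, h3⟩ := b
        rw [eq_of_fix hh b₀.2.2 (AA_le hα) (AA_le hα') hα1 hα1' hαb h2]
        exact h3
      · intro a b hab
        have h5 := congrArg Subtype.val hab
        exact Subtype.ext h5
    · have : IsEmpty (C b₀) := ⟨fun b => by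
        obtain ⟨b, hb, α', hα', hα1', h2, h3⟩ := b
        exact hex ⟨α', hα', hα1', h2⟩⟩
      rw [Nat.card_of_isEmpty]
      omega
  have h1 : Nat.card (V1 G l) ≤ Nat.card (B0 ⊕ Σ b₀ : B0, C b₀) := by
    have key : ∀ v : V1 G l, ∃ s : B0 ⊕ Σ b₀ : B0, C b₀,
        Sum.elim (fun b => vec K 0 b.1) (fun z => vec K z.1.1 z.2.1) s = v.1 := by
      rintro ⟨v, hv0, α, hα, hα1, hv⟩
      by_cases h0 : (eu 0 0 : Matrix (Fin 2) (Fin 2) K) • v = 0
      · refine ⟨Sum.inl ⟨(eu 0 1 : Matrix (Fin 2) (Fin 2) K) • v, inB_e01 v, fun h => hv0 ?_⟩, ?_⟩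
        · rw [← vec_coord (K := K) v, h0, h]
          unfold vec
          rw [smul_zero, zero_add]
        · change vec K 0 _ = v
          conv_rhs => rw [← vec_coord (K := K) v, h0]
      · refine ⟨Sum.inr ⟨⟨(eu 0 0 : Matrix (Fin 2) (Fin 2) K) • v, inB_e00 v, h0⟩,
          ⟨(eu 0 1 : Matrix (Fin 2) (Fin 2) K) • v, inB_e01 v, α, hα, hα1, ?_, ?_⟩⟩, vec_coord v⟩
        · rw [hS.comm_smul hα, hv]
        · rw [hS.comm_smul hα, hv]
    choose f hf using key
    refine Nat.card_le_card_of_injective f ?_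
    intro v w hvw
    apply Subtype.ext
    rw [← hf v, ← hf w, hvw]
  rw [Nat.card_sum, Nat.card_sigma] at h1
  have h2 : 7 * ∑ b₀ : B0, Nat.card (C b₀) ≤ (bb K V - 1) * bb K V := by
    rw [Finset.mul_sum, ← hB0, Nat.card_eq_fintype_card, ← Finset.card_univ, ← smul_eq_mul, ← Finset.sum_const]
    exact Finset.sum_le_sum fun b _ => hC b
  calc 7 * Nat.card (V1 G l) ≤ 7 * (Nat.card B0 + ∑ b₀ : B0, Nat.card (C b₀)) := Nat.mul_le_mul_left _ h1
    _ = (bb K V - 1) * 7 + 7 * ∑ b₀ : B0, Nat.card (C b₀) := by rw [hB0]; ring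
    _ ≤ (bb K V - 1) * 7 + (bb K V - 1) * bb K V := by omega
    _ = _ := by ring

theorem exists_i (hK : Nat.card K = p ^ 2) : ∃ i : K, i * i = -1 := by
  have := hS.fin
  have hF := Fintype.ofFinite K
  have h1 : IsSquare (-1 : K) := by
    rw [FiniteField.isSquare_neg_one_iff, ← Nat.card_eq_fintype_card, hK]
    have h7 := hS.p7
    have hodd : p % 2 = 1 := by
      rcases (Fact.out : p.Prime).eq_two_or_odd with h | h
      · omega
      · exact h
    have : p ^ 2 % 4 = 1 := by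
      have h4 : p % 4 = 1 ∨ p % 4 = 3 := by omega
      rw [Nat.pow_mod]
      rcases h4 with h | h <;> rw [h]
    omega
  obtain ⟨i, hi⟩ := h1
  exact ⟨i, hi.symm⟩

theorem card_T2_le (hh : Half G 2) (hK : Nat.card K = p ^ 2) {P : ℕ} (hP : P ^ 2 = bb K V) (hP2 : 2 ≤ P) :
    Nat.card (T2 G l) ≤ 15 * (P + 1) := by
  obtain ⟨i, hi⟩ := hS.exists_i hK
  rw [hS.card_T2]
  exact Nat.mul_le_mul_left _ (hS.card_S hh hi hP hP2)

theorem card_T3_le (hh : Half G 2) {P : ℕ} (hP : P ^ 2 = bb K V) (hP2 : 2 ≤ P) :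
    Nat.card (T3 G l) ≤ 10 * (P + 1) := by
  rcases isEmpty_or_nonempty (T3 G l) with h | ⟨⟨t₀, ht₀, hn₀, h₀⟩⟩
  · rw [Nat.card_of_isEmpty]; omega
  · rw [hS.card_T3 ht₀ hn₀ h₀]
    exact Nat.mul_le_mul_left _ (hS.card_N0 hh ht₀ hn₀ h₀ hP hP2)

/-- **there are no vectors of rank two** -/
theorem mult_two (hG : ¬ p ∣ Nat.card G) (hh : Half G h) (h2 : 2 ≤ h) {v : V} (hv : Rk2 K v) : False := by
  have hK := hS.card.resolve_left (hS.card_K hG hh h2 hv)
  obtain rfl := hS.h_eq_two hG hh h2 hv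
  have := hS.fin
  obtain ⟨b, hb⟩ := bb_pow (V := V) hK.1
  have hge := bb_ge hv
  rw [hK.1, hb] at hge
  have h7 := hS.p7
  have hP : p ^ 2 ≤ p ^ b := by
    by_contra hlt
    push Not at hlt
    exact absurd hge (not_le.2 (Nat.pow_lt_pow_left hlt (by norm_num)))
  set P := p ^ b with hPdef
  have h49 : 49 ≤ P := le_trans (by nlinarith only [h7]) hP
  have h1 := hS.cover hh
  have h2 := hS.card_V1 hh
  have h3 := hS.card_T2_le hh hK.1 (P := P) hb.symm (by omega)
  have h4 := hS.card_T3_le hh (P := P) hb.symm (by omega)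
  rw [hb] at h1 h2
  obtain ⟨Q, hQ⟩ : ∃ Q, P ^ 2 = Q + 1 := ⟨P ^ 2 - 1, by have : 49 ^ 2 ≤ P ^ 2 := Nat.pow_le_pow_left h49 2; omega⟩
  rw [hQ] at h1 h2
  rw [Nat.add_sub_cancel] at h2
  set n := Nat.card (T2 G l) + Nat.card (T3 G l) with hn
  have h5 : n ≤ 25 * (P + 1) := by omega
  -- (Q+1)^2 + n ≤ V1 + n (Q+1) + 1
  have h6 : 7 * (Q * (Q + 2)) ≤ Q * (8 + Q) + 7 * (n * Q) := by linarith only [h2, h1]
  have h7' : Q * (7 * (Q + 2)) ≤ Q * ((8 + Q) + 7 * n) := by linarith only [h2, h1]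
  have hQpos : 0 < Q := by have : 49 ^ 2 ≤ P ^ 2 := Nat.pow_le_pow_left h49 2; omega
  have h8 := Nat.le_of_mul_le_mul_left h7' hQpos
  nlinarith only [h49, h3, h4, hQ, hn, h8]

end SetupQ

end setup

end Cfsg.Agent.H312.HT
end

-- part: H312/HT/MultOne
section
/-!
# Multiplicity one (helper312, S3540)
-/

set_option autoImplicit false

namespace Cfsg.Agent.H312.HT

open Cfsg.Agent.H828.HT Cfsg.Agent.PermutationGroups.AutSL25 Matrix

universe u v

theorem exists_r {h : ℕ} (h2 : 2 ≤ h) (hne : h ≠ 2) : ∃ r : ℕ, r.Prime ∧ ∀ s, (h = s ∨ h = 2 * s) → r ∣ s := by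
  by_cases h4 : 4 ∣ h
  · refine ⟨2, Nat.prime_two, ?_⟩
    rintro s (rfl | rfl)
    · exact dvd_trans (by norm_num) h4
    · omega
  · obtain ⟨m, hm1, hmo, hm⟩ : ∃ m, m ≠ 1 ∧ m % 2 = 1 ∧ (h = m ∨ h = 2 * m) := by
      rcases Nat.mod_two_eq_zero_or_one h with h0 | h0
      · exact ⟨h / 2, by omega, by omega, by omega⟩
      · exact ⟨h, by omega, h0, Or.inl rfl⟩
    refine ⟨m.minFac, Nat.minFac_prime hm1, ?_⟩
    have hd := Nat.minFac_dvd m
    intro s hs
    have : s = m ∨ s = 2 * m := by (clear * - hmo hm hs; (solve | lia | omega))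
    rcases this with rfl | rfl
    · exact hd
    · exact dvd_mul_of_dvd_right hd 2

section setup

variable {p : ℕ} [Fact p.Prime] {V : Type u} [AddCommGroup V] [Module (ZMod p) V] [Finite V]
  {G : Subgroup (V ≃ₗ[ZMod p] V)} {h : ℕ} {K : Type v} [Field K] [Module (Matrix (Fin 2) (Fin 2) K) V]
  {j : SL25 →* Matrix.SpecialLinearGroup (Fin 2) K} {l : SL25 →* (V ≃ₗ[ZMod p] V)}

theorem bb_eq (hb : Nat.card V = Nat.card K ^ 2) : bb K V = Nat.card K := by
  rw [card_V_eq (K := K) (V := V)] at hb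
  exact Nat.pow_left_injective (n := 2) (by norm_num) hb

omit [Finite V] in
theorem sc_ne {c : K} {v : V} (hv : v ≠ 0) (h : sc c v = 0) : c = 0 := by
  by_contra hc
  exact hv (sc_inj hc (by rw [h, sc_zero]))

omit [Finite V] in
theorem sc_inj' {c d : K} {v : V} (hv : v ≠ 0) (h : sc c v = sc d v) : c = d := by
  have h1 : sc (c + -d) v = 0 := by rw [add_sc, sc_neg, h, add_neg_cancel]
  have h2 := sc_ne hv h1
  rwa [← sub_eq_add_neg, sub_eq_zero] at h2

namespace SetupQ

variable (hS : SetupQ G K j l)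

include hS

/-- `AA` acts by scalars -/
theorem scal (hb : Nat.card V = Nat.card K ^ 2) {α : V ≃ₗ[ZMod p] V} (hα : α ∈ AA G l) : ∃ c : K, ∀ v, α v = sc c v := by
  have := hS.fin
  have hbb := bb_eq hb
  obtain ⟨b₀, h0, hne⟩ : ∃ b₀ : V, InB K b₀ ∧ b₀ ≠ 0 := by
    by_contra hcon
    push Not at hcon
    obtain ⟨v, hv⟩ := hS.nontriv
    apply hv
    rw [← vec_coord (K := K) v, hcon _ (inB_e00 v), hcon _ (inB_e01 v)]
    unfold vec
    rw [smul_zero, add_zero]
  have hscB : ∀ c : K, InB K (sc c b₀) := by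
    intro c
    unfold InB sc
    rw [← mul_smul, mul_smul_comm, mul_one]
    nth_rewrite 2 [← h0]
    rw [← mul_smul, smul_mul_assoc, one_mul]
  have hbij : Function.Bijective (fun c : K => (⟨sc c b₀, hscB c⟩ : {b : V // InB K b})) := by
    rw [Nat.bijective_iff_injective_and_card]
    refine ⟨?_, hbb.symm⟩
    intro c d hcd
    exact sc_inj' hne (congrArg Subtype.val hcd)
  have hall : ∀ b : V, InB K b → ∃ c : K, b = sc c b₀ := by
    intro b hb
    obtain ⟨c, hc⟩ := hbij.2 ⟨b, hb⟩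
    exact ⟨c, (congrArg Subtype.val hc).symm⟩
  obtain ⟨c, hc⟩ := hall _ (hS.AA_inB hα h0)
  refine ⟨c, fun v => ?_⟩
  have hB : ∀ b : V, InB K b → α b = sc c b := by
    intro b hb
    obtain ⟨d, rfl⟩ := hall b hb
    rw [hS.AA_sc hα, hc, sc_sc, sc_sc, mul_comm]
  conv_lhs => rw [← vec_coord (K := K) v]
  rw [hS.AA_vec hα, hB _ (inB_e00 v), hB _ (inB_e01 v)]
  conv_rhs => rw [← vec_coord (K := K) v]
  unfold vec
  rw [sc_add]
  congr 1
  unfold sc
  have e : (eu 1 0 : Matrix (Fin 2) (Fin 2) K) * (c • 1) = (c • 1) * eu 1 0 := by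
    rw [mul_smul_comm, mul_one, smul_mul_assoc, one_mul]
  rw [← mul_smul, e, mul_smul]

theorem AA_free (hb : Nat.card V = Nat.card K ^ 2) {α : V ≃ₗ[ZMod p] V} (hα : α ∈ AA G l) {v : V} (hv : v ≠ 0)
    (h1 : α v = v) : α = 1 := by
  obtain ⟨c, hc⟩ := hS.scal hb hα
  have h2 : sc c v = sc (1 : K) v := by rw [← hc, h1, sc_one]
  have h3 := sc_inj' hv h2
  ext w
  rw [hc, h3, sc_one]
  rfl

theorem AA_comm (hb : Nat.card V = Nat.card K ^ 2) {α β : V ≃ₗ[ZMod p] V} (hα : α ∈ AA G l) (hβ : β ∈ AA G l) :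
    α * β = β * α := by
  obtain ⟨c, hc⟩ := hS.scal hb hα
  obtain ⟨d, hd⟩ := hS.scal hb hβ
  ext w
  rw [LinearEquiv.mul_apply, LinearEquiv.mul_apply, hc, hd, hc, hd, sc_sc, sc_sc, mul_comm]

/-- the eigenvectors of an element -/
theorem eig_le (hb : Nat.card V = Nat.card K ^ 2) {x : SL25} (h1 : x ≠ 1) (h2 : x ≠ -1) :
    Nat.card {v : V // v ≠ 0 ∧ ∃ c : K, l x v = sc c v} ≤ 2 * (Nat.card K - 1) := by
  have hbb := bb_eq hb
  by_cases hex : ∃ v : V, v ≠ 0 ∧ ∃ c : K, l x v = sc c v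
  · obtain ⟨v₀, hv₀, c₁, hc₁⟩ := hex
    have hquad : ∀ (v : V) (c : K), v ≠ 0 → l x v = sc c v → c * c - tr (j x) * c + 1 = 0 := by
      intro v c hv hc
      have h3 := sl_sq (j x)
      have h4 : ((j x : Matrix (Fin 2) (Fin 2) K) * (j x)) • v = sc (c * c) v := by
        rw [mul_smul, ← hS.act, ← hS.act, hc]
        have : l x (sc c v) = sc c (l x v) := by
          unfold sc
          rw [hS.act, hS.act, ← mul_smul, ← mul_smul, mul_smul_comm, mul_one, smul_mul_assoc, one_mul]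
        rw [this, hc, sc_sc]
      rw [h3] at h4
      apply sc_ne hv
      rw [sub_smul, one_smul] at h4
      have h5 : ((j x 0 0 + j x 1 1) • (j x : Matrix (Fin 2) (Fin 2) K)) • v = sc (tr (j x) * c) v := by
        rw [← sc_sc, ← hc, hS.act]
        unfold sc tr
        rw [← mul_smul, smul_mul_assoc, one_mul]
      rw [h5] at h4
      rw [sub_eq_add_neg, add_sc, add_sc, sc_neg, sc_one, ← h4]
      abel
    have hker : ∀ c : K, Nat.card {v : V // v ∈ (am V ((j x : Matrix (Fin 2) (Fin 2) K) - c • 1)).ker ∧ v ≠ 0} ≤ Nat.card K - 1 := by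
      intro c
      have h3 : (j x : Matrix (Fin 2) (Fin 2) K) - c • 1 ≠ 0 := by
        intro h4
        have h5 := sub_eq_zero.1 h4
        have h6 := hS.not_scalar h1 h2
        have e00 := congrFun (congrFun h5 0) 0
        have e01 := congrFun (congrFun h5 0) 1
        have e10 := congrFun (congrFun h5 1) 0
        have e11 := congrFun (congrFun h5 1) 1
        simp only [_root_.Fin.isValue, _root_.Matrix.smul_apply, _root_.Matrix.one_apply_eq, _root_.smul_eq_mul, _root_.mul_one, _root_.ne_eq, _root_.zero_ne_one, _root_.not_false_eq_true, _root_.Matrix.one_apply_ne, _root_.MulZeroClass.mul_zero, _root_.one_ne_zero] at e00 e01 e10 e11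
        rcases h6 with h6 | h6 | h6
        · exact h6 e01
        · exact h6 e10
        · exact h6 (by rw [e00, e11])
      have h4 := card_ker_le (V := V) h3
      have h5 := card_nz (V := V) (((am V ((j x : Matrix (Fin 2) (Fin 2) K) - c • 1)).ker : AddSubgroup V) : Set V)
        (AddSubgroup.zero_mem _)
      have h6 : Nat.card {v : V // v ∈ (am V ((j x : Matrix (Fin 2) (Fin 2) K) - c • 1)).ker ∧ v ≠ 0} + 1 =
        Nat.card (am V ((j x : Matrix (Fin 2) (Fin 2) K) - c • 1)).ker := h5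
      omega
    have hmem : ∀ (v : V) (c : K), l x v = sc c v → v ∈ (am V ((j x : Matrix (Fin 2) (Fin 2) K) - c • 1)).ker := by
      intro v c hc
      rw [AddMonoidHom.mem_ker]
      change ((j x : Matrix (Fin 2) (Fin 2) K) - c • 1) • v = 0
      rw [sub_smul, ← hS.act, hc]
      unfold sc
      rw [sub_self]
    have q1 := hquad v₀ c₁ hv₀ hc₁
    have h3 : Nat.card {v : V // v ≠ 0 ∧ ∃ c : K, l x v = sc c v} ≤
        Nat.card ({v : V // v ∈ (am V ((j x : Matrix (Fin 2) (Fin 2) K) - c₁ • 1)).ker ∧ v ≠ 0} ⊕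
          {v : V // v ∈ (am V ((j x : Matrix (Fin 2) (Fin 2) K) - (tr (j x) - c₁) • 1)).ker ∧ v ≠ 0}) := by
      have key : ∀ v : {v : V // v ≠ 0 ∧ ∃ c : K, l x v = sc c v},
          ∃ s : ({v : V // v ∈ (am V ((j x : Matrix (Fin 2) (Fin 2) K) - c₁ • 1)).ker ∧ v ≠ 0} ⊕
          {v : V // v ∈ (am V ((j x : Matrix (Fin 2) (Fin 2) K) - (tr (j x) - c₁) • 1)).ker ∧ v ≠ 0}),
          Sum.elim (fun z => z.1) (fun z => z.1) s = v.1 := by
        rintro ⟨v, hv, c, hc⟩
        have q2 := hquad v c hv hc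
        have q3 : (c - c₁) * (c - (tr (j x) - c₁)) = 0 := by linear_combination q2 - q1
        rcases mul_eq_zero.1 q3 with h4 | h4
        · rw [sub_eq_zero] at h4
          subst h4
          exact ⟨Sum.inl ⟨v, hmem v _ hc, hv⟩, rfl⟩
        · rw [sub_eq_zero] at h4
          exact ⟨Sum.inr ⟨v, by rw [← h4]; exact hmem v _ hc, hv⟩, rfl⟩
      choose f hf using key
      refine Nat.card_le_card_of_injective f ?_
      intro v w hvw
      apply Subtype.ext
      rw [← hf v, ← hf w, hvw]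
    rw [Nat.card_sum] at h3
    have h4 := hker c₁
    have h5 := hker (tr (j x) - c₁)
    omega
  · have : IsEmpty {v : V // v ≠ 0 ∧ ∃ c : K, l x v = sc c v} := ⟨fun v => hex ⟨v.1, v.2⟩⟩
    rw [Nat.card_of_isEmpty]
    omega

theorem eig_count (hb : Nat.card V = Nat.card K ^ 2) (X : SL25 → Prop) (hX1 : ∀ x, X x → x * x ≠ 1)
    (hXi : ∀ x, X x → X x⁻¹) (hex : ∀ v : V, v ≠ 0 → ∃ x, X x ∧ ∃ c : K, l x v = sc c v) :
    Nat.card K + 1 ≤ Nat.card {x // X x} := by
  classical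
  have hq := hS.q_ge
  -- upper bound
  have hF : Fintype {x // X x} := Fintype.ofFinite _
  have h1 : Nat.card (Σ x : {x // X x}, {v : V // v ≠ 0 ∧ ∃ c : K, l x.1 v = sc c v}) ≤
      Nat.card {x // X x} * (2 * (Nat.card K - 1)) := by
    rw [Nat.card_sigma, Nat.card_eq_fintype_card (α := {x // X x}), ← Finset.card_univ, ← smul_eq_mul, ← Finset.sum_const]
    refine Finset.sum_le_sum fun x _ => hS.eig_le hb ?_ ?_
    · intro h; exact hX1 _ x.2 (by rw [h, mul_one])
    · intro h; exact hX1 _ x.2 (by rw [h]; simp)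
  -- lower bound
  have hex' : ∀ v : {v : V // v ≠ 0}, ∃ x : {x // X x}, ∃ c : K, l x.1 v.1 = sc c v.1 := fun v => by
    obtain ⟨x, hx, h⟩ := hex v.1 v.2
    exact ⟨⟨x, hx⟩, h⟩
  choose f hf using hex'
  have hinv : ∀ v : {v : V // v ≠ 0}, ∃ c : K, l (f v).1⁻¹ v.1 = sc c v.1 := by
    intro v
    obtain ⟨c, hc⟩ := hf v
    have hc0 : c ≠ 0 := by
      rintro rfl
      have h3 : sc (0 : K) v.1 = 0 := by
        unfold sc
        rw [zero_smul, zero_smul]
      rw [h3] at hc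
      exact v.2 ((LinearEquiv.map_eq_zero_iff _).1 hc)
    refine ⟨c⁻¹, ?_⟩
    have h3 : v.1 = sc c⁻¹ (l (f v).1 v.1) := by rw [hc, sc_sc, inv_mul_cancel₀ hc0, sc_one]
    have h4 : l (f v).1⁻¹ (sc c⁻¹ (l (f v).1 v.1)) = sc c⁻¹ v.1 := by
      have h5 : ∀ u : V, l (f v).1⁻¹ (sc c⁻¹ u) = sc c⁻¹ (l (f v).1⁻¹ u) := by
        intro u
        unfold sc
        rw [hS.act, hS.act, ← mul_smul, ← mul_smul, mul_smul_comm, mul_one, smul_mul_assoc, one_mul]
      rw [h5, ← LinearEquiv.mul_apply, ← map_mul, inv_mul_cancel, map_one]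
      rfl
    rw [← h3] at h4
    exact h4
  have h2 : Nat.card ({v : V // v ≠ 0} × Bool) ≤
      Nat.card (Σ x : {x // X x}, {v : V // v ≠ 0 ∧ ∃ c : K, l x.1 v = sc c v}) := by
    refine Nat.card_le_card_of_injective (fun z : {v : V // v ≠ 0} × Bool =>
      if z.2 then ⟨f z.1, z.1.1, z.1.2, hf z.1⟩ else ⟨⟨(f z.1).1⁻¹, hXi _ (f z.1).2⟩, z.1.1, z.1.2, hinv z.1⟩) ?_
    have hff : ∀ v, (f v).1 ≠ (f v).1⁻¹ := fun v h => hX1 _ (f v).2 (by nth_rewrite 2 [h]; rw [mul_inv_cancel])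
    rintro ⟨v, b⟩ ⟨w, b'⟩ hvw
    have key : ∀ s t : (Σ x : {x // X x}, {v : V // v ≠ 0 ∧ ∃ c : K, l x.1 v = sc c v}), s = t →
        s.1.1 = t.1.1 ∧ s.2.1 = t.2.1 := by rintro s t rfl; exact ⟨rfl, rfl⟩
    have h3 := key _ _ hvw
    cases b <;> cases b'
    · have : v = w := Subtype.ext h3.2
      rw [this]
    · have : v = w := Subtype.ext h3.2
      subst this
      exact absurd h3.1.symm (hff v)
    · have : v = w := Subtype.ext h3.2
      subst this
      exact absurd h3.1 (hff v)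
    · have : v = w := Subtype.ext h3.2
      rw [this]
  have h3 := card_nz (Set.univ : Set V) (Set.mem_univ 0)
  rw [Nat.card_congr (Equiv.Set.univ V), hb] at h3
  have h4 : Nat.card {v : V // v ≠ 0} = Nat.card {v : V // v ∈ (Set.univ : Set V) ∧ v ≠ 0} :=
    Nat.card_congr (Equiv.subtypeEquivRight fun v => by simp)
  rw [Nat.card_prod, h4, Nat.card_eq_fintype_card (α := Bool), Fintype.card_bool] at h2
  obtain ⟨q, hq1⟩ : ∃ q, Nat.card K = q + 1 := ⟨Nat.card K - 1, by omega⟩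
  rw [hq1] at h1 h3 ⊢
  rw [Nat.add_sub_cancel] at h1
  have h5 : Nat.card {v : V // v ∈ (Set.univ : Set V) ∧ v ≠ 0} = (q + 2) * q := by
    have : (q + 1) ^ 2 = (q + 2) * q + 1 := by ring
    omega
  rw [h5] at h2
  have h6 : (q + 2) * (2 * q) ≤ Nat.card {x // X x} * (2 * q) := by
    calc (q + 2) * (2 * q) = (q + 2) * q * 2 := by ring
      _ ≤ _ := h2.trans h1
  exact Nat.le_of_mul_le_mul_right h6 (by omega)

end SetupQ

end setup

end Cfsg.Agent.H312.HT
end

-- part: H312/HT/MultOneB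
section
/-!
# Multiplicity one: the numerical conclusion (helper312, S3540)
-/

set_option autoImplicit false

namespace Cfsg.Agent.H312.HT

open Cfsg.Agent.H828.HT Cfsg.Agent.PermutationGroups.AutSL25 Matrix

universe u v

/-- the order of the square of an element outside the centre -/
theorem F.sq_orders (x : SL25) (h1 : x ≠ 1) (h2 : x ≠ -1) :
    (x * x) ^ 2 = 1 ∨ (x * x) ^ 3 = 1 ∨ (x * x) ^ 5 = 1 := by
  have hn : (-1 : SL25) * -1 = 1 := by simp
  rcases F.orders x h1 h2 with h | h | h | h | h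
  · left; rw [h, sq, hn]
  · right; left
    have : (x * x) ^ 3 = (x * x * x) * (x * x * x) := by simp only [pow_succ, pow_zero, one_mul, mul_assoc]
    rw [this, h, mul_one]
  · right; left
    have : (x * x) ^ 3 = (x * x * x) * (x * x * x) := by simp only [pow_succ, pow_zero, one_mul, mul_assoc]
    rw [this, h, hn]
  · right; right
    have : (x * x) ^ 5 = (x * x * x * x * x) * (x * x * x * x * x) := by simp only [pow_succ, pow_zero, one_mul, mul_assoc]
    rw [this, h, mul_one]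
  · right; right
    have : (x * x) ^ 5 = (x * x * x * x * x) * (x * x * x * x * x) := by simp only [pow_succ, pow_zero, one_mul, mul_assoc]
    rw [this, h, hn]

theorem F.prime_power {r : ℕ} (hr : r.Prime) (x : SL25) (h1 : x ≠ 1) (h2 : x ≠ -1) (hx : x ^ r = 1 ∨ x ^ r = -1) :
    r = 2 ∨ r = 3 ∨ r = 5 := by
  by_contra hcon
  push Not at hcon
  obtain ⟨r2, r3, r5⟩ := hcon
  have hn : (-1 : SL25) * -1 = 1 := by simp
  have hy : (x * x) ^ r = 1 := by
    have : (x * x) ^ r = x ^ r * x ^ r := by rw [← pow_add, ← two_mul, pow_mul, sq]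
    rw [this]
    rcases hx with h | h <;> rw [h]
    · rw [mul_one]
    · exact hn
  have key : ∀ s : ℕ, s.Prime → r ≠ s → (x * x) ^ s = 1 → x * x = 1 := by
    intro s hs hrs hys
    have h3 : orderOf (x * x) ∣ r := orderOf_dvd_of_pow_eq_one hy
    have h4 : orderOf (x * x) ∣ s := orderOf_dvd_of_pow_eq_one hys
    have h5 : r.Coprime s := (Nat.coprime_primes hr hs).2 hrs
    have h6 : orderOf (x * x) = 1 := Nat.eq_one_of_dvd_coprimes h5 h3 h4
    exact orderOf_eq_one_iff.1 h6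
  have h3 : x * x = 1 := by
    rcases F.sq_orders x h1 h2 with h | h | h
    · exact key 2 Nat.prime_two r2 h
    · exact key 3 Nat.prime_three r3 h
    · exact key 5 Nat.prime_five r5 h
  exact h2 (eq_neg_one x h3 h1)

section setup

variable {p : ℕ} [Fact p.Prime] {V : Type u} [AddCommGroup V] [Module (ZMod p) V] [Finite V]
  {G : Subgroup (V ≃ₗ[ZMod p] V)} {h : ℕ} {K : Type v} [Field K] [Module (Matrix (Fin 2) (Fin 2) K) V]
  {j : SL25 →* Matrix.SpecialLinearGroup (Fin 2) K} {l : SL25 →* (V ≃ₗ[ZMod p] V)}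

namespace SetupQ

variable (hS : SetupQ G K j l)

include hS

theorem small_q (hb : Nat.card V = Nat.card K ^ 2) {r : ℕ} (hr : r.Prime)
    (hdvd : ∀ v : V, v ≠ 0 → r ∣ Nat.card (sg (LC G l) v)) : Nat.card K + 1 ≤ 30 := by
  have hex : ∀ v : V, v ≠ 0 → ∃ x : SL25, x ≠ 1 ∧ x ≠ -1 ∧ (x ^ r = 1 ∨ x ^ r = -1) ∧ ∃ c : K, l x v = sc c v := by
    intro v hv
    have := Fact.mk hr
    obtain ⟨⟨g, ⟨x, α, hα, hg⟩, hgv⟩, hord⟩ := exists_prime_orderOf_dvd_card' r (hdvd v hv)
    have hgr : g ^ r = 1 := by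
      have h1 := pow_orderOf_eq_one (⟨g, ⟨x, α, hα, hg⟩, hgv⟩ : sg (LC G l) v)
      rw [hord] at h1
      exact congrArg Subtype.val h1
    have hg1 : g ≠ 1 := by
      rintro rfl
      have : (⟨1, ⟨x, α, hα, hg⟩, hgv⟩ : sg (LC G l) v) = 1 := rfl
      rw [this, orderOf_one] at hord
      exact hr.one_lt.ne hord
    have hcomm : Commute (l x) α := (mem_AA.1 hα).2 x
    have h2 : l (x ^ r) * α ^ r = 1 := by rw [map_pow, ← hcomm.mul_pow, ← hg, hgr]
    have h3 : l (x ^ r) ∈ AA G l := by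
      rw [eq_inv_of_mul_eq_one_left h2]
      exact inv_mem (pow_mem hα r)
    have hgA : g ∉ AA G l := fun h => hg1 (hS.AA_free hb h hv hgv)
    have hx1 : x ≠ 1 := by
      rintro rfl
      apply hgA
      rw [hg, map_one, one_mul]; exact hα
    have hx2 : x ≠ -1 := by
      rintro rfl
      apply hgA
      rw [hg]
      exact mul_mem hS.l_neg_mem hα
    obtain ⟨c, hc⟩ := hS.scal hb (inv_mem hα)
    refine ⟨x, hx1, hx2, hS.central_of_AA h3, c, ?_⟩
    rw [← hc]
    have h4 : l x (α v) = v := by rw [← LinearEquiv.mul_apply, ← hg]; exact hgv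
    have h5 : α (l x v) = v := by rw [← LinearEquiv.mul_apply, ← (mem_AA.1 hα).2 x]; exact h4
    calc l x v = α⁻¹ (α (l x v)) := by rw [← LinearEquiv.mul_apply, inv_mul_cancel]; rfl
      _ = α⁻¹ v := by rw [h5]
  have hnn : (-1 : SL25) * -1 = 1 := by simp
  have hneg : ∀ (x : SL25) (v : V), (∃ c : K, l x v = sc c v) → ∃ c : K, l (-x) v = sc c v := by
    rintro x v ⟨c, hc⟩
    refine ⟨-c, ?_⟩
    have h1 : l (-x) = l (-1) * l x := by rw [← map_mul]; simp
    rw [h1, LinearEquiv.mul_apply, hS.l_neg, hc, sc_neg]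
  have hrr : r = 2 ∨ r = 3 ∨ r = 5 := by
    obtain ⟨v, hv⟩ := hS.nontriv
    obtain ⟨x, h1, h2, h3, -⟩ := hex v hv
    exact F.prime_power hr x h1 h2 h3
  rcases hrr with rfl | rfl | rfl
  · refine (hS.eig_count hb (fun x => x * x = -1) ?_ ?_ ?_).trans ?_
    · intro x hx h
      exact neg_one_ne (hx.symm.trans h)
    · intro x hx
      have : (-1 : SL25)⁻¹ = -1 := by rw [inv_eq_iff_mul_eq_one]; exact hnn
      rw [← _root_.mul_inv_rev, hx, this]
    · intro v hv
      obtain ⟨x, h1, h2, h3, h4⟩ := hex v hv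
      refine ⟨x, ?_, h4⟩
      rw [sq] at h3
      rcases h3 with h3 | h3
      · exact absurd (eq_neg_one x h3 h1) h2
      · exact h3
    · rw [Nat.card_eq_fintype_card, F.card_four]
  · refine (hS.eig_count hb (fun x => x * x * x = 1 ∧ x ≠ 1) ?_ ?_ ?_).trans ?_
    · rintro x ⟨hx, hx1⟩ h
      rw [h, one_mul] at hx
      exact hx1 hx
    · rintro x ⟨hx, hx1⟩
      refine ⟨?_, fun h => hx1 (inv_eq_one.1 h)⟩
      calc x⁻¹ * x⁻¹ * x⁻¹ = (x * x * x)⁻¹ := by group
        _ = 1 := by rw [hx, inv_one]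
    · intro v hv
      obtain ⟨x, h1, h2, h3, h4⟩ := hex v hv
      have h5 : x ^ 3 = x * x * x := by simp only [pow_succ, pow_zero, one_mul]
      rw [h5] at h3
      rcases h3 with h3 | h3
      · exact ⟨x, ⟨h3, h1⟩, h4⟩
      · refine ⟨-x, ⟨?_, fun h => h2 ?_⟩, hneg x v h4⟩
        · have : -x * -x * -x = -(x * x * x) := by simp
          rw [this, h3]; simp
        · rw [← h]; simp
    · rw [Nat.card_eq_fintype_card, F.card_three]; norm_num
  · refine (hS.eig_count hb (fun x => x * x * x * x * x = 1 ∧ x ≠ 1) ?_ ?_ ?_).trans ?_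
    · rintro x ⟨hx, hx1⟩ h
      have : x * x * x * x * x = (x * x) * (x * x) * x := by group
      rw [this, h, one_mul, one_mul] at hx
      exact hx1 hx
    · rintro x ⟨hx, hx1⟩
      refine ⟨?_, fun h => hx1 (inv_eq_one.1 h)⟩
      calc x⁻¹ * x⁻¹ * x⁻¹ * x⁻¹ * x⁻¹ = (x * x * x * x * x)⁻¹ := by group
        _ = 1 := by rw [hx, inv_one]
    · intro v hv
      obtain ⟨x, h1, h2, h3, h4⟩ := hex v hv
      have h5 : x ^ 5 = x * x * x * x * x := by simp only [pow_succ, pow_zero, one_mul]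
      rw [h5] at h3
      rcases h3 with h3 | h3
      · exact ⟨x, ⟨h3, h1⟩, h4⟩
      · refine ⟨-x, ⟨?_, fun h => h2 ?_⟩, hneg x v h4⟩
        · have : -x * -x * -x * -x * -x = -(x * x * x * x * x) := by simp
          rw [this, h3]; simp
        · rw [← h]; simp
    · rw [Nat.card_eq_fintype_card, F.card_five]; norm_num

/-! ### `|K| = p` -/

omit hS in
theorem _root_.Cfsg.Agent.H312.HT.F.no7 : ∀ z : ZMod 7, z * z + z ≠ 1 := by decide
omit hS in
theorem _root_.Cfsg.Agent.H312.HT.F.no13 : ∀ z : ZMod 13, z * z + z ≠ 1 := by decide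
omit hS in
theorem _root_.Cfsg.Agent.H312.HT.F.no17 : ∀ z : ZMod 17, z * z + z ≠ 1 := by decide
omit hS in
theorem _root_.Cfsg.Agent.H312.HT.F.no23 : ∀ z : ZMod 23, z * z + z ≠ 1 := by decide

omit [Finite V] in
theorem exists_root (hK : Nat.card K = p) : ∃ z : ZMod p, z * z + z = 1 := by
  have := hS.char
  have := hS.fin
  have hF := Fintype.ofFinite K
  rw [Nat.card_eq_fintype_card] at hK
  have hsurj : Function.Bijective (ZMod.castHom (dvd_refl p) K) := by
    rw [Fintype.bijective_iff_injective_and_card]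
    exact ⟨(ZMod.castHom _ K).injective, by rw [ZMod.card, hK]⟩
  obtain ⟨z, hz⟩ := hsurj.2 (tr (j T))
  refine ⟨z, hsurj.1 ?_⟩
  rw [map_add, map_mul, map_one, hz, ← sq]
  exact hS.gamma

omit [Finite V] in
theorem primes_of_root (hK : Nat.card K = p) (h30 : p + 1 ≤ 30) : p = 11 ∨ p = 19 ∨ p = 29 := by
  obtain ⟨z, hz⟩ := hS.exists_root hK
  have h7 := hS.p7
  have hp : p.Prime := Fact.out
  clear hS hK
  have h29 : p ≤ 29 := by omega
  interval_cases p
  all_goals first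
    | (exfalso; revert hp; norm_num; done)
    | exact (F.no7 z hz).elim
    | exact (F.no13 z hz).elim
    | exact (F.no17 z hz).elim
    | exact (F.no23 z hz).elim
    | simp

theorem mult_one_p (hh : Half G h) (h2 : 2 ≤ h) (hb : Nat.card V = Nat.card K ^ 2) (hK : Nat.card K = p) :
    Module.finrank (ZMod p) V = 2 ∧ (p = 11 ∨ p = 19 ∨ p = 29) := by
  obtain ⟨r, hr, hrh⟩ := Nat.exists_prime_and_dvd (n := h) (by omega)
  have h1 := hS.small_q hb hr (by
    intro v hv
    have h3 : sg (LC G l) v = sg G v := le_antisymm (sg_mono hS.LC_le v) fun g hg => ⟨hS.mem_LC_of_card hK hg.1, hg.2⟩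
    rw [h3, card_sg hh hv]
    exact hrh)
  rw [hK] at h1
  refine ⟨?_, hS.primes_of_root hK h1⟩
  rw [card_eq_pow (p := p), hK] at hb
  exact Nat.pow_right_injective (Fact.out : p.Prime).two_le hb

/-! ### `|K| = p²` -/

theorem card_S2 (hb : Nat.card V = Nat.card K ^ 2) {i : K} (hi : i * i = -1) :
    Nat.card {α : V ≃ₗ[ZMod p] V // α ∈ AA G l ∧ α * α = l (-1)} ≤ 2 := by
  classical
  obtain ⟨v₀, hv₀⟩ := hS.nontriv
  have hsc : ∀ α : {α : V ≃ₗ[ZMod p] V // α ∈ AA G l ∧ α * α = l (-1)}, ∃ c : K, (∀ v, α.1 v = sc c v) ∧ (c = i ∨ c = -i) := by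
    rintro ⟨α, hα, hα2⟩
    obtain ⟨c, hc⟩ := hS.scal hb hα
    refine ⟨c, hc, ?_⟩
    have h1 : sc (c * c) v₀ = sc (-1 : K) v₀ := by
      rw [← sc_sc, ← hc, ← hc, ← LinearEquiv.mul_apply, hα2, hS.l_neg, sc_neg, sc_one]
    have h2 := sc_inj' hv₀ h1
    have h3 : (c - i) * (c + i) = 0 := by linear_combination h2 - hi
    rcases mul_eq_zero.1 h3 with h4 | h4
    · left; exact sub_eq_zero.1 h4
    · right; exact eq_neg_of_add_eq_zero_left h4
  choose f hf hf' using hsc
  have h1 : Nat.card {α : V ≃ₗ[ZMod p] V // α ∈ AA G l ∧ α * α = l (-1)} ≤ Nat.card Bool := by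
    refine Nat.card_le_card_of_injective (fun a => decide (f a = i)) ?_
    intro a b hab
    have h2 : (f a = i) ↔ (f b = i) := by simpa using hab
    have h3 : f a = f b := by
      rcases hf' a with ha | ha
      · rw [ha, h2.1 ha]
      · rcases hf' b with hb | hb
        · rw [hb, h2.2 hb]
        · rw [ha, hb]
    apply Subtype.ext
    ext v
    rw [hf, hf, h3]
  rwa [Nat.card_eq_fintype_card (α := Bool), Fintype.card_bool] at h1

/-- the group of the `α ∈ AA` with `α α^t = 1` -/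
def N0 (hb : Nat.card V = Nat.card K ^ 2) {t₀ : V ≃ₗ[ZMod p] V} (ht₀ : t₀ ∈ G) : Subgroup (V ≃ₗ[ZMod p] V) where
  carrier := {α | α ∈ AA G l ∧ α * (t₀ * α * t₀⁻¹) = 1}
  one_mem' := ⟨one_mem _, by group⟩
  mul_mem' := by
    rintro a b ⟨ha, ha'⟩ ⟨hb1, hb'⟩
    refine ⟨mul_mem ha hb1, ?_⟩
    have h1 := hS.AA_comm hb hb1 (hS.AA_conj ht₀ ha)
    calc a * b * (t₀ * (a * b) * t₀⁻¹) = a * (b * (t₀ * a * t₀⁻¹)) * (t₀ * b * t₀⁻¹) := by group
      _ = a * ((t₀ * a * t₀⁻¹) * b) * (t₀ * b * t₀⁻¹) := by rw [h1]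
      _ = (a * (t₀ * a * t₀⁻¹)) * (b * (t₀ * b * t₀⁻¹)) := by group
      _ = 1 := by rw [ha', hb', mul_one]
  inv_mem' := by
    rintro a ⟨ha, ha'⟩
    refine ⟨inv_mem ha, ?_⟩
    have h1 := hS.AA_comm hb ha (hS.AA_conj ht₀ ha)
    calc a⁻¹ * (t₀ * a⁻¹ * t₀⁻¹) = ((t₀ * a * t₀⁻¹) * a)⁻¹ := by group
      _ = 1 := by rw [← h1, ha', inv_one]

theorem N0_even (hb : Nat.card V = Nat.card K ^ 2) {t₀ : V ≃ₗ[ZMod p] V} (ht₀ : t₀ ∈ G) :
    2 ∣ Nat.card {α : V ≃ₗ[ZMod p] V // α ∈ AA G l ∧ α * (t₀ * α * t₀⁻¹) = 1} := by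
  change 2 ∣ Nat.card (hS.N0 hb ht₀)
  have hm : l (-1) ∈ hS.N0 hb ht₀ := by
    refine ⟨hS.l_neg_mem, ?_⟩
    have h1 : t₀ * l (-1) = l (-1) * t₀ := by
      ext v
      rw [LinearEquiv.mul_apply, LinearEquiv.mul_apply, hS.l_neg, hS.l_neg, map_neg]
    rw [h1, mul_assoc (l (-1)), mul_inv_cancel, mul_one, l_neg_sq]
  have h2 : orderOf (⟨l (-1), hm⟩ : hS.N0 hb ht₀) = 2 := by
    have := Fact.mk Nat.prime_two
    refine orderOf_eq_prime ?_ ?_
    · apply Subtype.ext
      change (l (-1)) ^ 2 = 1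
      rw [sq, l_neg_sq]
    · intro h
      have h3 : l (-1) = 1 := congrArg Subtype.val h
      exact neg_one_ne (hS.l_inj (by rw [h3, map_one]))
  rw [← h2]
  exact orderOf_dvd_natCard _

theorem N0_four (hb : Nat.card V = Nat.card K ^ 2) (h7 : p = 7) {t₀ : V ≃ₗ[ZMod p] V} (ht₀ : t₀ ∈ G) (hn₀ : t₀ ∉ LC G l)
    {α : V ≃ₗ[ZMod p] V} (hα : α ∈ AA G l) (hα2 : α * α = l (-1)) :
    4 ∣ Nat.card {α : V ≃ₗ[ZMod p] V // α ∈ AA G l ∧ α * (t₀ * α * t₀⁻¹) = 1} := by
  change 4 ∣ Nat.card (hS.N0 hb ht₀)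
  obtain ⟨v₀, hv₀⟩ := hS.nontriv
  obtain ⟨c, hc⟩ := hS.scal hb hα
  have hcc : c * c = -1 := by
    have h1 : sc (c * c) v₀ = sc (-1 : K) v₀ := by
      rw [← sc_sc, ← hc, ← hc, ← LinearEquiv.mul_apply, hα2, hS.l_neg, sc_neg, sc_one]
    exact sc_inj' hv₀ h1
  have h70 : (7 : K) = 0 := by
    have := hS.char
    have h1 : ((p : ℕ) : K) = 0 := CharP.cast_eq_zero K p
    rw [h7] at h1
    exact_mod_cast h1
  have h3 : (3 : K) ≠ 0 := by
    intro h
    have h2 : (1 : K) = 0 := by linear_combination h70 - 2 * h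
    exact one_ne_zero h2
  have hz : zeta j = 3 * c ∨ zeta j = -(3 * c) := by
    have h4 : (zeta j - 3 * c) * (zeta j + 3 * c) = 0 := by
      have hg := hS.gamma
      unfold zeta
      linear_combination 4 * hg - 9 * hcc + 2 * h70
    rcases mul_eq_zero.1 h4 with h5 | h5
    · left; exact sub_eq_zero.1 h5
    · right; exact eq_neg_of_add_eq_zero_left h5
  have hanti : ∀ v, t₀ (sc c v) = - sc c (t₀ v) := by
    intro v
    have h4 : t₀ (sc (3 * c) v) = - sc (3 * c) (t₀ v) := by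
      have h5 := hS.zeta_anti ht₀ hn₀ v
      rcases hz with h6 | h6
      · rw [← h6]; exact h5
      · rw [h6, sc_neg, sc_neg, map_neg, neg_neg] at h5
        rw [← h5, neg_neg]
    have h5 : ∀ w : V, sc (3 * c) w = sc c w + sc c w + sc c w := by
      intro w
      rw [show (3 : K) * c = c + c + c by ring, add_sc, add_sc]
    rw [h5, h5, map_add, map_add] at h4
    have h6 : sc (3 : K) (t₀ (sc c v) + sc c (t₀ v)) = sc (3 : K) 0 := by
      rw [sc_zero, show (3 : K) = 1 + 1 + 1 by norm_num, add_sc, add_sc, sc_one]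
      have : (t₀ (sc c v) + t₀ (sc c v) + t₀ (sc c v)) + (sc c (t₀ v) + sc c (t₀ v) + sc c (t₀ v)) = 0 := by
        rw [h4]; abel
      rw [← this]; abel
    exact eq_neg_of_add_eq_zero_left (sc_inj h3 h6)
  have hm : α ∈ hS.N0 hb ht₀ := by
    refine ⟨hα, ?_⟩
    ext v
    rw [LinearEquiv.mul_apply, LinearEquiv.mul_apply, LinearEquiv.mul_apply, hc, hc, hanti, ← LinearEquiv.mul_apply t₀,
      mul_inv_cancel]
    change sc c (-sc c v) = v
    rw [← sc_neg, sc_sc, mul_neg, hcc, neg_neg, sc_one]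
  have h4 : orderOf (⟨α, hm⟩ : hS.N0 hb ht₀) = 4 := by
    have := Fact.mk Nat.prime_two
    refine orderOf_eq_prime_pow (p := 2) (n := 1) ?_ ?_
    · intro h
      have h5 : α ^ (2 ^ 1) = 1 := congrArg Subtype.val h
      rw [pow_one, sq, hα2] at h5
      exact neg_one_ne (hS.l_inj (by rw [h5, map_one]))
    · apply Subtype.ext
      change α ^ (2 ^ (1 + 1)) = 1
      have : α ^ (2 ^ (1 + 1)) = (α * α) * (α * α) := by rw [← sq, ← sq, ← pow_mul]; norm_num
      rw [this, hα2, l_neg_sq]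
  rw [← h4]
  exact orderOf_dvd_natCard _

theorem mult_one_q (hh : Half G h) (h2 : 2 ≤ h) (hb : Nat.card V = Nat.card K ^ 2) (hK : Nat.card K = p ^ 2)
    (hroot : ∀ n : ℕ, (n : K) * n + n ≠ 1) : Module.finrank (ZMod p) V = 4 ∧ p = 13 := by
  have h7 := hS.p7
  have hp : p.Prime := Fact.out
  have hh2 : h = 2 := by
    by_contra hne
    obtain ⟨r, hr, hrs⟩ := exists_r h2 hne
    have h3 := hS.small_q hb hr (by
      intro v hv
      apply hrs
      rw [← card_sg hh hv]
      exact hS.card_sg_LC v)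
    rw [hK] at h3
    nlinarith only [h7, h3]
  subst hh2
  have hbb : bb K V = p ^ 2 := by rw [bb_eq hb, hK]
  have hV1 : Nat.card (V1 G l) = 0 := by
    have : IsEmpty (V1 G l) := ⟨fun v => by
      obtain ⟨v, hv, α, hα, hα1, hαv⟩ := v
      exact hα1 (hS.AA_free hb hα hv hαv)⟩
    exact Nat.card_of_isEmpty
  have c1 := hS.cover hh
  have c2 := hS.packing hh
  rw [hV1] at c1
  have hn : Nat.card (T2 G l) + Nat.card (T3 G l) = p ^ 2 + 1 := by
    rw [hbb] at c1 c2
    set n := Nat.card (T2 G l) + Nat.card (T3 G l) with hn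
    obtain ⟨Q, hQ⟩ : ∃ Q, p ^ 2 = Q + 1 := ⟨p ^ 2 - 1, by have : 7 ^ 2 ≤ p ^ 2 := Nat.pow_le_pow_left h7 2; omega⟩
    have hQpos : 0 < Q := by have : 7 ^ 2 ≤ p ^ 2 := Nat.pow_le_pow_left h7 2; omega
    rw [hQ] at c1 c2 ⊢
    have e1 : n * Q = (Q + 1 + 1) * Q := by linarith only [c2, c1]
    exact Nat.eq_of_mul_eq_mul_right hQpos e1
  obtain ⟨i, hi⟩ := hS.exists_i hK
  have h3 : Nat.card (T2 G l) ≤ 30 := by
    rw [hS.card_T2]
    have := hS.card_S2 hb hi
    omega
  have h4 := hS.card_T3_le hh (P := p) hbb.symm (by omega)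
  have h13 : p ≤ 13 := by nlinarith only [hn, h3, h4]
  have hchar := hS.char
  have hcases : p = 7 ∨ p = 11 ∨ p = 13 := by
    clear hS hK hbb c1 c2 hn h3 h4 hV1 hh hroot hb hchar
    interval_cases p
    all_goals first
      | (exfalso; revert hp; norm_num; done)
      | simp
  have hfr : Module.finrank (ZMod p) V = 4 := by
    rw [card_eq_pow (p := p), hK, ← pow_mul] at hb
    exact Nat.pow_right_injective hp.two_le hb
  rcases hcases with h5 | h5 | h5
  · exfalso
    have h50 : p ^ 2 = 49 := by rw [h5]; norm_num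
    rw [h50, hS.card_T2] at hn
    rcases isEmpty_or_nonempty (T3 G l) with he | ⟨⟨t₀, ht₀, hn₀, h₀⟩⟩
    · rw [Nat.card_of_isEmpty (α := T3 G l)] at hn
      omega
    · rw [hS.card_T3 ht₀ hn₀ h₀] at hn
      have e1 := hS.N0_even hb ht₀
      by_cases hS0 : Nat.card {α : V ≃ₗ[ZMod p] V // α ∈ AA G l ∧ α * α = l (-1)} = 0
      · omega
      · obtain ⟨⟨α, hα, hα2⟩⟩ : Nonempty {α : V ≃ₗ[ZMod p] V // α ∈ AA G l ∧ α * α = l (-1)} := by
          by_contra hne
          rw [not_nonempty_iff] at hne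
          exact hS0 Nat.card_of_isEmpty
        have e2 := hS.N0_four hb h5 ht₀ hn₀ hα hα2
        (clear * - hn e2; omega)
  · exfalso
    apply hroot 3
    have h1 : ((p : ℕ) : K) = 0 := CharP.cast_eq_zero K p
    rw [h5] at h1
    push_cast at h1 ⊢
    linear_combination h1
  · exact ⟨hfr, h5⟩

/-- **multiplicity one** -/
theorem mult_one (hh : Half G h) (h2 : 2 ≤ h) (hb : Nat.card V = Nat.card K ^ 2) :
    (Module.finrank (ZMod p) V = 2 ∧ (p = 11 ∨ p = 19 ∨ p = 29)) ∨ (Module.finrank (ZMod p) V = 4 ∧ p = 13) := by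
  rcases hS.card with hK | ⟨hK, hroot⟩
  · left; exact hS.mult_one_p hh h2 hb hK
  · right; exact hS.mult_one_q hh h2 hb hK hroot

end SetupQ

end setup

end Cfsg.Agent.H312.HT
end

-- part: H432/HT/Quat
section
/-!
# S3540, TEAM HT: the enveloping algebra of `SL(2,5)` without fixed vectors of elements of order three (helper432)
-/

set_option autoImplicit false

namespace Cfsg.Agent.H432.HT

open Cfsg.Agent.H828.HT Cfsg.Agent.PermutationGroups.AutSL25 Cfsg.Agent.H312.HT Matrix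

section alg

variable {K : Type*} [Field K] {C : Type*} [Ring C] [Algebra K C]

/-- the linear combination of `1, a, b, ab` with given coordinates -/
def ev (K : Type*) [Field K] {C : Type*} [Ring C] [Algebra K C] (a b : C) : (Fin 4 → K) →ₗ[K] C where
  toFun t := t 0 • (1 : C) + t 1 • a + t 2 • b + t 3 • (a * b)
  map_add' t u := by simp only [Pi.add_apply]; module
  map_smul' k t := by simp only [Pi.smul_apply, smul_eq_mul, RingHom.id_apply]; module

theorem ev_apply (a b : C) (t : Fin 4 → K) :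
    ev K a b t = t 0 • (1 : C) + t 1 • a + t 2 • b + t 3 • (a * b) := rfl

/-- the multiplication table -/
def mm (γ : K) (t u : Fin 4 → K) : Fin 4 → K :=
  ![t 0 * u 0 - t 1 * u 1 + γ * (t 2 * u 1) - t 2 * u 2 + t 3 * u 1 - t 3 * u 3,
    t 0 * u 1 + t 1 * u 0 - t 2 * u 1 + t 2 * u 3 + γ * (t 3 * u 1) - t 3 * u 2,
    t 0 * u 2 - t 1 * u 3 + t 2 * u 0 - t 2 * u 2 + γ * (t 2 * u 3) + t 3 * u 1,
    t 0 * u 3 + t 1 * u 2 - t 2 * u 1 + t 3 * u 0 - t 3 * u 2 + γ * (t 3 * u 3)]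

theorem ev_mul {γ : K} {a b : C} (haa : a * a = -1) (hbb : b * b = -1 - b)
    (hba : b * a = γ • (1 : C) - a - a * b) (t u : Fin 4 → K) :
    ev K a b t * ev K a b u = ev K a b (mm γ t u) := by
  have h1 : a * (a * b) = -b := by rw [← mul_assoc, haa]; simp
  have h2 : b * (a * b) = γ • b + a := by
    rw [← mul_assoc, hba]
    simp only [sub_mul, smul_mul_assoc, one_mul, mul_assoc, hbb, mul_sub, mul_neg, mul_one]
    abel
  have h3 : (a * b) * a = γ • a + 1 + b := by
    rw [mul_assoc, hba]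
    simp only [mul_sub, mul_smul_comm, mul_one, haa, h1]
    abel
  have h4 : (a * b) * b = -a - a * b := by
    rw [mul_assoc, hbb, mul_sub, mul_neg, mul_one]
  have h5 : (a * b) * (a * b) = γ • (a * b) - 1 := by
    rw [mul_assoc, h2, mul_add, mul_smul_comm, haa]; abel
  simp only [ev_apply, mm, Matrix.cons_val_zero, Matrix.cons_val_one, Matrix.cons_val,
    add_mul, mul_add, smul_mul_assoc, mul_smul_comm, one_mul, mul_one, haa, hbb, hba, h1, h2, h3, h4, h5,
    smul_sub, smul_add, smul_neg, smul_smul]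
  module

variable (γ r s : K)

/-- the first generator -/
def a0 : Matrix (Fin 2) (Fin 2) K := !![0, -1; 1, 0]

/-- the second generator -/
def b0 : Matrix (Fin 2) (Fin 2) K := !![r, s; s - γ, -1 - r]

theorem a0_sq : (a0 : Matrix (Fin 2) (Fin 2) K) * a0 = -1 := by
  ext i j
  (revert i j; simp only [a0, Matrix.mul_apply, Fin.sum_univ_two, _root_.Fin.forall_fin_succ, _root_.Matrix.of_apply, _root_.Matrix.cons_val', _root_.Matrix.cons_val_fin_one, Fin.isValue, _root_.Matrix.cons_val_zero, _root_.Matrix.cons_val_one, _root_.Matrix.neg_apply, _root_.MulZeroClass.mul_zero, _root_.mul_one, _root_.zero_add, _root_.Matrix.cons_val_succ, _root_.mul_neg, _root_.add_zero, _root_.neg_inj, _root_.IsEmpty.forall_iff, _root_.and_true, _root_.Matrix.one_apply_eq, Nat.reduceAdd, _root_.Fin.succ_zero_eq_one, _root_.ne_eq, _root_.zero_ne_one, _root_.not_false_eq_true, _root_.Matrix.one_apply_ne, _root_.and_self, _root_.Fin.succ_ne_zero, _root_.neg_zero, _root_.true_and])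

variable {γ r s}

theorem b0_sq (h : r ^ 2 + r + 1 + s ^ 2 - s * γ = 0) : b0 γ r s * b0 γ r s = -1 - b0 γ r s := by
  ext i j
  (revert i j; simp only [b0, Matrix.mul_apply, Fin.sum_univ_two, _root_.Fin.forall_fin_succ, _root_.Matrix.of_apply, _root_.Matrix.cons_val', _root_.Matrix.cons_val_fin_one, Fin.isValue, _root_.Matrix.cons_val_zero, _root_.Matrix.cons_val_one, _root_.Matrix.sub_apply, _root_.Matrix.neg_apply, _root_.Matrix.cons_val_succ, _root_.IsEmpty.forall_iff, _root_.and_true, _root_.Matrix.one_apply_eq, Nat.reduceAdd, _root_.Fin.succ_zero_eq_one, _root_.ne_eq, _root_.zero_ne_one, _root_.not_false_eq_true, _root_.Matrix.one_apply_ne, _root_.neg_zero, _root_.zero_sub, _root_.Fin.succ_ne_zero, _root_.neg_sub, _root_.sub_sub_cancel]) <;> (repeat' with_reducible apply And.intro) <;> first | linear_combination h | ring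

theorem b0_a0 : b0 γ r s * a0 = γ • (1 : Matrix (Fin 2) (Fin 2) K) - a0 - a0 * b0 γ r s := by
  ext i j
  (revert i j; simp only [b0, a0, Matrix.mul_apply, Fin.sum_univ_two, _root_.Fin.forall_fin_succ, _root_.Matrix.of_apply, _root_.Matrix.cons_val', _root_.Matrix.cons_val_fin_one, Fin.isValue, _root_.Matrix.cons_val_zero, _root_.Matrix.cons_val_one, _root_.Matrix.cons_mul, _root_.Nat.succ_eq_add_one, Nat.reduceAdd, _root_.Matrix.vecMul_cons, _root_.Matrix.head_cons, _root_.zero_smul, _root_.Matrix.tail_cons, _root_.neg_smul, _root_.one_smul, _root_.Matrix.neg_cons, _root_.neg_sub, _root_.sub_neg_eq_add, _root_.Matrix.neg_empty, _root_.Matrix.empty_vecMul, _root_.add_zero, _root_.zero_add, _root_.Matrix.empty_mul, _root_.Equiv.symm_apply_apply, _root_.Matrix.sub_apply, _root_.Matrix.smul_apply, _root_.smul_eq_mul, _root_.MulZeroClass.mul_zero, _root_.mul_one, _root_.Matrix.cons_val_succ, _root_.mul_neg, _root_.IsEmpty.forall_iff, _root_.and_true,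 _root_.Matrix.one_apply_eq, _root_.sub_zero, _root_.sub_sub_cancel, _root_.Fin.succ_zero_eq_one, _root_.ne_eq, _root_.zero_ne_one, _root_.not_false_eq_true, _root_.Matrix.one_apply_ne, _root_.sub_add_cancel_right, _root_.and_self, _root_.Fin.succ_ne_zero, _root_.zero_sub, _root_.sub_left_inj, _root_.true_and])

theorem ev_inj (h : r ^ 2 + r + 1 + s ^ 2 - s * γ = 0) (hγ : γ ^ 2 - 3 ≠ 0) :
    Function.Injective (ev K (a0 : Matrix (Fin 2) (Fin 2) K) (b0 γ r s)) := by
  rw [← LinearMap.ker_eq_bot, LinearMap.ker_eq_bot']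
  intro t ht
  have e00 := congrFun (congrFun ht 0) 0
  have e01 := congrFun (congrFun ht 0) 1
  have e10 := congrFun (congrFun ht 1) 0
  have e11 := congrFun (congrFun ht 1) 1
  simp only [ev_apply, a0, b0, _root_.Fin.isValue, _root_.Matrix.smul_of, _root_.Matrix.smul_cons, _root_.smul_eq_mul, _root_.MulZeroClass.mul_zero, _root_.mul_neg, _root_.mul_one, _root_.Matrix.smul_empty, _root_.Matrix.cons_mul, _root_.Nat.succ_eq_add_one, _root_.Nat.reduceAdd, _root_.Matrix.vecMul_cons, _root_.Matrix.head_cons, _root_.zero_smul, _root_.Matrix.tail_cons, _root_.neg_smul, _root_.one_smul, _root_.Matrix.neg_cons, _root_.neg_sub, _root_.sub_neg_eq_add, _root_.Matrix.neg_empty, _root_.Matrix.empty_vecMul, _root_.add_zero, _root_.zero_add, _root_.Matrix.empty_mul, _root_.Equiv.symm_apply_apply, _root_.Matrix.add_apply, _root_.Matrix.smul_apply, _root_.Matrix.one_apply_eq, _root_.Matrix.of_apply, _root_.Matrix.cons_val', _root_.Matrix.cons_val_zero, _root_.Matrix.cons_val_fin_one,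 _root_.Matrix.zero_apply, _root_.ne_eq, _root_.zero_ne_one, _root_.not_false_eq_true, _root_.Matrix.one_apply_ne, _root_.Matrix.cons_val_one, _root_.one_ne_zero] at e00 e01 e10 e11
  have h3 : t 2 * (γ ^ 2 - 3) = 0 := by
    linear_combination (1 + 2 * r) * (e00 - e11) + (2 * s - γ) * (e01 + e10) - 4 * t 2 * h
  have h4 : t 3 * (γ ^ 2 - 3) = 0 := by
    linear_combination (-(2 * s - γ)) * (e00 - e11) + (1 + 2 * r) * (e01 + e10) - 4 * t 3 * h
  have t3 : t 2 = 0 := (mul_eq_zero.1 h3).resolve_right hγ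
  have t4 : t 3 = 0 := (mul_eq_zero.1 h4).resolve_right hγ
  rw [t3, t4] at e00 e10
  funext i
  fin_cases i
  · simpa using e00
  · simpa using e10
  · exact t3
  · exact t4

theorem ev_bij (h : r ^ 2 + r + 1 + s ^ 2 - s * γ = 0) (hγ : γ ^ 2 - 3 ≠ 0) :
    Function.Bijective (ev K (a0 : Matrix (Fin 2) (Fin 2) K) (b0 γ r s)) := by
  have hi := ev_inj h hγ
  refine ⟨hi, ?_⟩
  exact (LinearMap.injective_iff_surjective_of_finrank_eq_finrank (by
    rw [Module.finrank_fintype_fun_eq_card, Module.finrank_matrix, Module.finrank_self]; simp)).1 hi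

/-- the coordinates of a matrix -/
noncomputable def co (h : r ^ 2 + r + 1 + s ^ 2 - s * γ = 0) (hγ : γ ^ 2 - 3 ≠ 0) :
    (Fin 4 → K) ≃ₗ[K] Matrix (Fin 2) (Fin 2) K :=
  LinearEquiv.ofBijective _ (ev_bij h hγ)

theorem co_apply (h : r ^ 2 + r + 1 + s ^ 2 - s * γ = 0) (hγ : γ ^ 2 - 3 ≠ 0) (t : Fin 4 → K) :
    co h hγ t = ev K a0 (b0 γ r s) t := rfl

/-- the homomorphism from the matrix algebra -/
theorem exists_hom (h : r ^ 2 + r + 1 + s ^ 2 - s * γ = 0) (hγ : γ ^ 2 - 3 ≠ 0) {a b : C}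
    (haa : a * a = -1) (hbb : b * b = -1 - b) (hba : b * a = γ • (1 : C) - a - a * b) :
    ∃ Φ : Matrix (Fin 2) (Fin 2) K →ₐ[K] C, Φ a0 = a ∧ Φ (b0 γ r s) = b := by
  have key : ∀ t : Fin 4 → K, ((ev K a b).comp (co h hγ).symm.toLinearMap)
      (ev K a0 (b0 γ r s) t) = ev K a b t := by
    intro t
    simp only [LinearMap.comp_apply]
    congr 1
    change (co h hγ).symm (ev K a0 (b0 γ r s) t) = t
    rw [← co_apply h hγ, LinearEquiv.symm_apply_apply]
  refine ⟨AlgHom.ofLinearMap ((ev K a b).comp (co h hγ).symm.toLinearMap) ?_ ?_, ?_, ?_⟩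
  · have h1 : (1 : Matrix (Fin 2) (Fin 2) K) = ev K a0 (b0 γ r s) ![1, 0, 0, 0] := by
      simp only [ev_apply, _root_.Fin.isValue, _root_.Matrix.cons_val_zero, _root_.one_smul, _root_.Matrix.cons_val_one, _root_.zero_smul, _root_.add_zero, _root_.Matrix.cons_val]
    rw [h1, key]
    simp only [ev_apply, _root_.Fin.isValue, _root_.Matrix.cons_val_zero, _root_.one_smul, _root_.Matrix.cons_val_one, _root_.zero_smul, _root_.add_zero, _root_.Matrix.cons_val]
  · intro x y
    obtain ⟨t, rfl⟩ := (ev_bij h hγ).2 x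
    obtain ⟨u, rfl⟩ := (ev_bij h hγ).2 y
    rw [ev_mul (γ := γ) a0_sq (b0_sq h) b0_a0, key, key, key, ev_mul haa hbb hba]
  · rw [AlgHom.ofLinearMap_apply]
    have h1 : (a0 : Matrix (Fin 2) (Fin 2) K) = ev K a0 (b0 γ r s) ![0, 1, 0, 0] := by
      simp only [ev_apply, _root_.Fin.isValue, _root_.Matrix.cons_val_zero, _root_.zero_smul, _root_.Matrix.cons_val_one, _root_.one_smul, _root_.zero_add, _root_.Matrix.cons_val, _root_.add_zero]
    rw [h1, key]
    simp [ev_apply]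
  · rw [AlgHom.ofLinearMap_apply]
    have h1 : b0 γ r s = ev K a0 (b0 γ r s) ![0, 0, 1, 0] := by
      simp only [ev_apply, _root_.Fin.isValue, _root_.Matrix.cons_val_zero, _root_.zero_smul, _root_.Matrix.cons_val_one, _root_.add_zero, _root_.Matrix.cons_val, _root_.one_smul, _root_.zero_add]
    conv_lhs => rw [h1]
    rw [key]
    simp [ev_apply]

/-- version without an algebra structure on the target -/
theorem exists_hom' {E : Type*} [Ring E] (ψ : K →+* E) (h : r ^ 2 + r + 1 + s ^ 2 - s * γ = 0)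
    (hγ : γ ^ 2 - 3 ≠ 0) {a b : E} (haa : a * a = -1) (hbb : b * b = -1 - b)
    (hba : b * a = ψ γ - a - a * b) (ha : ∀ k, ψ k * a = a * ψ k) (hb : ∀ k, ψ k * b = b * ψ k) :
    ∃ Φ : Matrix (Fin 2) (Fin 2) K →+* E, Φ a0 = a ∧ Φ (b0 γ r s) = b ∧
      ∀ k : K, Φ (k • 1) = ψ k := by
  let S : Subring E := Subring.centralizer (Set.range ψ)
  have hψ : ∀ k, ψ k ∈ S := by
    intro k
    rw [Subring.mem_centralizer_iff]
    rintro _ ⟨l, rfl⟩
    rw [← map_mul, ← map_mul, mul_comm]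
  let ψ' : K →+* S := ψ.codRestrict S hψ
  have hc : ∀ (k : K) (x : S), ψ' k * x = x * ψ' k := by
    intro k x
    apply Subtype.ext
    exact (Subring.mem_centralizer_iff.1 x.2) (ψ k) ⟨k, rfl⟩
  let _ : Algebra K S := ψ'.toAlgebra' hc
  have haS : a ∈ S := by
    rw [Subring.mem_centralizer_iff]
    rintro _ ⟨l, rfl⟩
    exact ha l
  have hbS : b ∈ S := by
    rw [Subring.mem_centralizer_iff]
    rintro _ ⟨l, rfl⟩
    exact hb l
  have hsm : ∀ k : K, (k • (1 : S) : S) = ψ' k := by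
    intro k
    rw [Algebra.smul_def, mul_one]
    rfl
  obtain ⟨Φ, h1, h2⟩ := exists_hom (C := S) (a := ⟨a, haS⟩) (b := ⟨b, hbS⟩) h hγ
    (Subtype.ext haa) (Subtype.ext (by simpa only [_root_.MulMemClass.mk_mul_mk, _root_.AddSubgroupClass.coe_sub, _root_.NegMemClass.coe_neg, _root_.OneMemClass.coe_one] using hbb))
    (by
      rw [hsm]
      exact Subtype.ext hba)
  refine ⟨S.subtype.comp Φ.toRingHom, ?_, ?_, ?_⟩
  · change ((Φ a0 : S) : E) = a
    rw [h1]
  · change ((Φ (b0 γ r s) : S) : E) = b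
    rw [h2]
  · intro k
    change ((Φ (k • 1) : S) : E) = ψ k
    rw [map_smul, map_one, hsm]
    rfl

theorem quint {R : Type*} [Ring R] {c y : R} (hy2 : y * y = c * y - 1)
    (hy5 : y * y * y * y * y = 1) : (c * c + c - 1) * ((c * c - c - 1) * y - (c - 1)) = 0 := by
  have y3 : y * y * y = (c * c - 1) * y - c := by
    rw [hy2, sub_mul, mul_assoc, hy2]; noncomm_ring
  have y4 : y * y * y * y = (c * c * c - 2 * c) * y - (c * c - 1) := by
    rw [y3, sub_mul, mul_assoc, hy2]; noncomm_ring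
  have y5 : y * y * y * y * y = (c * c * c * c - 3 * (c * c) + 1) * y - (c * c * c - 2 * c) := by
    rw [y4, sub_mul, mul_assoc, hy2]; noncomm_ring
  have h : (c * c + c - 1) * ((c * c - c - 1) * y - (c - 1)) =
      ((c * c * c * c - 3 * (c * c) + 1) * y - (c * c * c - 2 * c)) - 1 := by noncomm_ring
  rw [h, ← y5, hy5, sub_self]

end alg

section field

variable {p : ℕ} [Fact p.Prime] {E : Type*} [Ring E] [Algebra (ZMod p) E]

open Polynomial in
/-- the field generated by the central element -/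
theorem field_data (c : E) (hc : c * c + c - 1 = 0)
    (hcase : ∀ l : ZMod p, c ≠ algebraMap (ZMod p) E l → ∀ x : E, (c - algebraMap (ZMod p) E l) * x = 0 → x = 0) :
    ∃ (K : Type) (_ : Field K) (ψ : K →+* E) (γ : K), γ * γ + γ = 1 ∧ ψ γ = c ∧
      (∀ x, c * x = x * c → ∀ k, ψ k * x = x * ψ k) ∧ CharP K p ∧ Finite K ∧
      (Nat.card K = p ∨ (Nat.card K = p ^ 2 ∧ ∀ n : ℕ, (n : K) * n + n ≠ 1)) ∧
      ∀ S : Subring K, γ ∈ S → S = ⊤ := by
  by_cases h : ∃ l : ZMod p, l * l + l = 1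
  · obtain ⟨l, hl⟩ := h
    have hprod : (c - algebraMap (ZMod p) E l) * (c - algebraMap (ZMod p) E (-1 - l)) = 0 := by
      have h1 : algebraMap (ZMod p) E (l * l + l) = 1 := by rw [hl, map_one]
      rw [map_add, map_mul] at h1
      have h2 : c * algebraMap (ZMod p) E l = algebraMap (ZMod p) E l * c :=
        (Algebra.commutes l c).symm
      have h3 : (c - algebraMap (ZMod p) E l) * (c - algebraMap (ZMod p) E (-1 - l)) =
          (c * c + c - 1) - (algebraMap (ZMod p) E l * algebraMap (ZMod p) E l + algebraMap (ZMod p) E l - 1)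
            + (c * algebraMap (ZMod p) E l - algebraMap (ZMod p) E l * c) := by
        rw [map_sub, map_neg, map_one]; noncomm_ring
      rw [h3, hc, h1, h2]; simp
    have hex : ∃ γ : ZMod p, γ * γ + γ = 1 ∧ algebraMap (ZMod p) E γ = c := by
      by_cases h4 : c = algebraMap (ZMod p) E l
      · exact ⟨l, hl, h4.symm⟩
      · have h5 := hcase l h4 _ hprod
        refine ⟨-1 - l, ?_, (sub_eq_zero.1 h5).symm⟩
        linear_combination hl
    obtain ⟨γ, hγ, hγc⟩ := hex
    refine ⟨ZMod p, inferInstance, algebraMap (ZMod p) E, γ, hγ, hγc, ?_, inferInstance, inferInstance,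
      Or.inl (by simp), ?_⟩
    · intro x _ k
      exact Algebra.commutes k x
    · intro S _
      rw [eq_top_iff]
      intro k _
      rw [← ZMod.natCast_zmod_val k]
      exact natCast_mem S _
  · have hp0 : (X ^ 2 + X - 1 : (ZMod p)[X]) = X ^ 2 + (X - 1) := by ring
    have hdeg : (X - 1 : (ZMod p)[X]).degree < 2 := by
      have : (X - 1 : (ZMod p)[X]) = X - C 1 := by simp
      rw [this, degree_X_sub_C]; decide
    have hmon : (X ^ 2 + X - 1 : (ZMod p)[X]).Monic := by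
      rw [hp0]; exact monic_X_pow_add hdeg
    have hnat : (X ^ 2 + X - 1 : (ZMod p)[X]).natDegree = 2 := by
      compute_degree!
    have hirr : Irreducible (X ^ 2 + X - 1 : (ZMod p)[X]) := by
      rw [hmon.irreducible_iff_roots_eq_zero_of_degree_le_three (by rw [hnat]) (by rw [hnat]; decide)]
      rw [Multiset.eq_zero_iff_forall_notMem]
      intro l hl
      rw [mem_roots hmon.ne_zero, IsRoot.def] at hl
      simp only [eval_add, eval_sub, eval_pow, eval_X, eval_one] at hl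
      exact h ⟨l, by linear_combination hl⟩
    have hF : Fact (Irreducible (X ^ 2 + X - 1 : (ZMod p)[X])) := ⟨hirr⟩
    have haev : aeval c (X ^ 2 + X - 1 : (ZMod p)[X]) = 0 := by
      simp only [map_add, map_sub, map_pow, aeval_X, map_one]
      rw [pow_two]; exact hc
    let ψ : AdjoinRoot (X ^ 2 + X - 1 : (ZMod p)[X]) →+* E :=
      Ideal.Quotient.lift (Ideal.span {(X ^ 2 + X - 1 : (ZMod p)[X])}) (aeval c : (ZMod p)[X] →ₐ[ZMod p] E).toRingHom
        (by
          intro g hg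
          obtain ⟨q, rfl⟩ := Ideal.mem_span_singleton'.1 hg
          change aeval c (q * _) = 0
          rw [map_mul, haev, mul_zero])
    have hψ : ∀ g : (ZMod p)[X], ψ (AdjoinRoot.mk _ g) = aeval c g := by
      intro g
      exact Ideal.Quotient.lift_mk _ _ _
    have hroot : AdjoinRoot.root (X ^ 2 + X - 1 : (ZMod p)[X]) * AdjoinRoot.root _ + AdjoinRoot.root _ = 1 := by
      have h1 := AdjoinRoot.eval₂_root (X ^ 2 + X - 1 : (ZMod p)[X])
      simp only [eval₂_add, eval₂_sub, eval₂_pow, eval₂_X, eval₂_one] at h1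
      linear_combination h1
    refine ⟨AdjoinRoot (X ^ 2 + X - 1 : (ZMod p)[X]), inferInstance, ψ, AdjoinRoot.root _, hroot, ?_, ?_,
      charP_of_injective_algebraMap (algebraMap (ZMod p) _).injective p, ?_, Or.inr ⟨?_, ?_⟩, ?_⟩
    · rw [← AdjoinRoot.mk_X, hψ, aeval_X]
    · intro x hx k
      obtain ⟨g, rfl⟩ := AdjoinRoot.mk_surjective k
      rw [hψ]
      have h1 : aeval c g ∈ Subalgebra.centralizer (ZMod p) {x} := by
        have h2 : Algebra.adjoin (ZMod p) {c} ≤ Subalgebra.centralizer (ZMod p) {x} := by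
          rw [Algebra.adjoin_le_iff, Set.singleton_subset_iff]
          change c ∈ Subalgebra.centralizer (ZMod p) {x}
          rw [Subalgebra.mem_centralizer_iff]
          rintro _ rfl
          exact hx.symm
        exact h2 (aeval_mem_adjoin_singleton _ _)
      rw [Subalgebra.mem_centralizer_iff] at h1
      exact (h1 x rfl).symm
    · have := (AdjoinRoot.powerBasis' hmon).finite
      exact Module.finite_of_finite (ZMod p)
    · have h1 := (AdjoinRoot.powerBasis' hmon).finrank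
      rw [AdjoinRoot.powerBasis'_dim, hnat] at h1
      have := (AdjoinRoot.powerBasis' hmon).finite
      rw [Module.natCard_eq_pow_finrank (K := ZMod p), h1, Nat.card_zmod]
    · intro n hn
      apply h
      refine ⟨(n : ZMod p), ?_⟩
      apply (algebraMap (ZMod p) (AdjoinRoot (X ^ 2 + X - 1 : (ZMod p)[X]))).injective
      rw [map_add, map_mul, map_natCast, map_one, hn]
    · intro S hS
      rw [eq_top_iff]
      intro k _
      obtain ⟨g, rfl⟩ := AdjoinRoot.mk_surjective k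
      induction g using Polynomial.induction_on' with
      | add f g hf hg => rw [map_add]; exact S.add_mem (hf trivial) (hg trivial)
      | monomial n a =>
        rw [← C_mul_X_pow_eq_monomial, map_mul, map_pow, AdjoinRoot.mk_X, AdjoinRoot.mk_C]
        refine S.mul_mem ?_ (S.pow_mem hS n)
        rw [← ZMod.natCast_zmod_val a, map_natCast]
        exact natCast_mem S _

end field

section main

universe u

variable {p : ℕ} [Fact p.Prime] {V : Type u} [AddCommGroup V] [Module (ZMod p) V]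

/-- the representation as a homomorphism to the endomorphism ring -/
def rep (e : SL25 →* (V ≃ₗ[ZMod p] V)) : SL25 →* Module.End (ZMod p) V :=
  (LinearEquiv.automorphismGroup.toLinearMapMonoidHom).comp e

theorem rep_apply (e : SL25 →* (V ≃ₗ[ZMod p] V)) (x : SL25) (v : V) : rep e x v = e x v := rfl

theorem rep_inj {e : SL25 →* (V ≃ₗ[ZMod p] V)} (he : Function.Injective e) :
    Function.Injective (rep e) := by
  intro x y h
  apply he
  ext v
  exact LinearMap.congr_fun h v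

/-- an element of the enveloping algebra that commutes with the group is zero or injective -/
theorem fs {e : SL25 →* (V ≃ₗ[ZMod p] V)} (hom : FaithSub e.range) {f : Module.End (ZMod p) V}
    (hf : f ∈ Algebra.adjoin (ZMod p) (Set.range (rep e))) (hc : ∀ x, rep e x * f = f * rep e x)
    {w : V} (hw : w ≠ 0) (hfw : f w = 0) : f = 0 := by
  refine hom (LinearMap.ker f) ?_ ?_ f ?_ (fun w hw => hw)
  · intro h
    have h1 : w ∈ LinearMap.ker f := hfw
    rw [h, Submodule.mem_bot] at h1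
    exact hw h1
  · rintro _ ⟨x, rfl⟩ w hw
    have h1 := LinearMap.congr_fun (hc x) w
    simp only [Module.End.mul_apply, rep_apply] at h1
    change f (e x w) = 0
    rw [← h1]
    have h2 : f w = 0 := hw
    rw [h2, map_zero]
  · convert hf using 2
    ext g
    constructor
    · rintro ⟨_, ⟨x, rfl⟩, rfl⟩
      exact ⟨x, rfl⟩
    · rintro ⟨x, rfl⟩
      exact ⟨e x, ⟨x, rfl⟩, rfl⟩

theorem seven_le {G : Subgroup (V ≃ₗ[ZMod p] V)} (hG : ¬ p ∣ Nat.card G)
    {e : SL25 →* (V ≃ₗ[ZMod p] V)} (he : Function.Injective e) (hL : ∀ x, e x ∈ G) : 7 ≤ p := by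
  have h1 : Nat.card SL25 ∣ Nat.card G := by
    have h2 : Function.Injective (e.codRestrict G hL) := by
      intro x y h
      exact he (congrArg Subtype.val h)
    exact Subgroup.card_dvd_of_injective _ h2
  rw [natCard] at h1
  have hp : p.Prime := Fact.out
  by_contra h
  have h3 : ¬ p ∣ 120 := fun h4 => hG (h4.trans h1)
  have h5 : p < 7 := by omega
  interval_cases p <;> first | exact h3 (by decide) | exact absurd hp (by decide)

theorem cube_eq : (-(S * T) : SL25) * (-(S * T)) * (-(S * T)) = 1 := by decide +kernel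
theorem cube_ne : (-(S * T) : SL25) ≠ 1 := by decide +kernel
theorem S_mul : (S * -(S * T) : SL25) = T := by decide +kernel
theorem Tinv : (T⁻¹ * T⁻¹ * T⁻¹ * T⁻¹ * T⁻¹ : SL25) = 1 := by (set_option synthInstance.maxSize 20000 in open scoped Cfsg.Agent.Lib.MatDec in decide +kernel)

/-- the relations in the enveloping algebra -/
theorem rels {G : Subgroup (V ≃ₗ[ZMod p] V)} (hG : ¬ p ∣ Nat.card G)
    {e : SL25 →* (V ≃ₗ[ZMod p] V)} (he : Function.Injective e) (hL : ∀ x, e x ∈ G)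
    (hom : FaithSub e.range) (h3 : ∀ x, x * x * x = 1 → x ≠ 1 → ∀ v, e x v = v → v = 0) :
    ∃ a b c : Module.End (ZMod p) V, rep e S = a ∧ rep e (-(S * T)) = b ∧ a * b = rep e T ∧
      a * a = -1 ∧ b * b = -1 - b ∧ b * a = c - a - a * b ∧ (∀ x, rep e x * c = c * rep e x) ∧
      c * c + c - 1 = 0 ∧ c ∈ Algebra.adjoin (ZMod p) (Set.range (rep e)) := by
  have hp7 := seven_le hG he hL
  have hinj := rep_inj he
  have hmem : ∀ x, rep e x ∈ Algebra.adjoin (ZMod p) (Set.range (rep e)) := fun x =>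
    Algebra.subset_adjoin ⟨x, rfl⟩
  -- `-1` acts as `-1`
  have hneg : rep e (-1) = -1 := by
    have hcm : ∀ x, rep e x * (rep e (-1) - 1) = (rep e (-1) - 1) * rep e x := by
      intro x
      rw [mul_sub, sub_mul, ← map_mul, ← map_mul, mul_neg, neg_mul, mul_one, one_mul, mul_one, one_mul]
    have hne : ∀ w : V, w ≠ 0 → (rep e (-1) - 1) w ≠ 0 := by
      intro w hw h0
      have h1 := fs hom (Subalgebra.sub_mem _ (hmem _) (Subalgebra.one_mem _)) hcm hw h0
      rw [sub_eq_zero] at h1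
      exact neg_one_ne (hinj (h1.trans (map_one _).symm))
    have h2 : rep e (-1) * rep e (-1) = 1 := by rw [← map_mul]; simp only [_root_.mul_neg, _root_.mul_one, _root_.neg_neg, _root_.map_one]
    rw [← sub_eq_zero, sub_neg_eq_add]
    ext v
    by_contra h
    apply hne _ h
    have h3 := LinearMap.congr_fun (show (rep e (-1) - 1) * (rep e (-1) + 1) = 0 by
      have : (rep e (-1) - 1) * (rep e (-1) + 1) = rep e (-1) * rep e (-1) - 1 := by noncomm_ring
      rw [this, h2, sub_self]) v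
    exact h3
  obtain ⟨a, ha⟩ : ∃ a, rep e S = a := ⟨_, rfl⟩
  obtain ⟨b, hb⟩ : ∃ b, rep e (-(S * T)) = b := ⟨_, rfl⟩
  have hab : a * b = rep e T := by rw [← ha, ← hb, ← map_mul, S_mul]
  have haa : a * a = -1 := by rw [← ha, ← map_mul, relS, hneg]
  have hb3 : b * b * b = 1 := by rw [← hb, ← map_mul, ← map_mul, cube_eq, map_one]
  have hbb0 : b * b + b + 1 = 0 := by
    ext v
    have h4 : b * (b * b + b + 1) = b * b + b + 1 := by
      have : b * (b * b + b + 1) = b * b * b + b * b + b := by noncomm_ring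
      rw [this, hb3]; abel
    have h5 := LinearMap.congr_fun h4 v
    refine h3 (-(S * T)) cube_eq cube_ne _ ?_
    rw [← rep_apply, hb]
    exact h5
  have hbb : b * b = -1 - b := by
    have : b * b = (b * b + b + 1) + (-1 - b) := by abel
    rw [this, hbb0, zero_add]
  obtain ⟨c, hc⟩ : ∃ c, a * b + b * a + a = c := ⟨_, rfl⟩
  have hac : a * c = c * a := by
    rw [← hc]
    have h1 : a * (a * b + b * a + a) = (a * a) * b + a * b * a + a * a := by noncomm_ring
    have h2 : (a * b + b * a + a) * a = a * b * a + b * (a * a) + a * a := by noncomm_ring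
    rw [h1, h2, haa]; noncomm_ring
  have hbc : b * c = c * b := by
    rw [← hc]
    have h1 : b * (a * b + b * a + a) = b * a * b + (b * b) * a + b * a := by noncomm_ring
    have h2 : (a * b + b * a + a) * b = a * (b * b) + b * a * b + a * b := by noncomm_ring
    rw [h1, h2, hbb]; noncomm_ring
  have hcen : ∀ x, rep e x * c = c * rep e x := by
    intro x
    have hx : x ∈ Subgroup.closure ({S, T} : Set SL25) := by rw [closure_eq_top]; trivial
    induction hx using Subgroup.closure_induction with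
    | mem x hx =>
      rcases hx with rfl | hx
      · rw [ha]; exact hac
      · rw [Set.mem_singleton_iff] at hx
        subst hx
        rw [← hab, mul_assoc, hbc, ← mul_assoc, hac, mul_assoc]
    | one => simp only [_root_.map_one, _root_.one_mul, _root_.mul_one]
    | mul x y _ _ hx hy => rw [map_mul, mul_assoc, hy, ← mul_assoc, hx, mul_assoc]
    | inv x _ hx =>
      have h1 : rep e x⁻¹ * rep e x = 1 := by rw [← map_mul]; simp only [_root_.inv_mul_cancel, _root_.map_one]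
      have h2 : rep e x * rep e x⁻¹ = 1 := by rw [← map_mul]; simp
      calc rep e x⁻¹ * c = rep e x⁻¹ * c * (rep e x * rep e x⁻¹) := by rw [h2, mul_one]
        _ = rep e x⁻¹ * (c * rep e x) * rep e x⁻¹ := by noncomm_ring
        _ = rep e x⁻¹ * rep e x * c * rep e x⁻¹ := by rw [← hx]; noncomm_ring
        _ = c * rep e x⁻¹ := by rw [h1, one_mul]
  have hcmem : c ∈ Algebra.adjoin (ZMod p) (Set.range (rep e)) := by
    rw [← hc, ← ha, ← hb]
    exact add_mem (add_mem (mul_mem (hmem _) (hmem _)) (mul_mem (hmem _) (hmem _))) (hmem _)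
  refine ⟨a, b, c, ha, hb, hab, haa, hbb, by rw [← hc]; abel, hcen, ?_, hcmem⟩
  -- the quadratic equation
  have hy1 : (a * b) * (b * a + a) = 1 := by
    have h1 : (a * b) * (b * a + a) = a * (b * b) * a + a * b * a := by noncomm_ring
    have h2 : a * (-1 - b) * a + a * b * a = -(a * a) := by noncomm_ring
    rw [h1, hbb, h2, haa, neg_neg]
  have hy2 : (b * a + a) * (a * b) = 1 := by
    have h1 : (b * a + a) * (a * b) = b * (a * a) * b + (a * a) * b := by noncomm_ring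
    have h2 : b * -1 * b + -1 * b = -(b * b) - b := by noncomm_ring
    rw [h1, haa, h2, hbb]; abel
  have hsum : c = a * b + (b * a + a) := by rw [← hc]; abel
  have hq1 : (a * b) * (a * b) = c * (a * b) - 1 := by
    have h1 : c * (a * b) = (a * b) * (a * b) + (b * a + a) * (a * b) := by
      conv_lhs => rw [hsum, add_mul]
    rw [h1, hy2]; abel
  have hq2 : (b * a + a) * (b * a + a) = c * (b * a + a) - 1 := by
    have h1 : c * (b * a + a) = (a * b) * (b * a + a) + (b * a + a) * (b * a + a) := by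
      conv_lhs => rw [hsum, add_mul]
    rw [h1, hy1]; abel
  have hT5 : (a * b) * (a * b) * (a * b) * (a * b) * (a * b) = 1 := by
    rw [hab, ← map_mul, ← map_mul, ← map_mul, ← map_mul, relT, map_one]
  have hTi : b * a + a = rep e T⁻¹ := by
    have h1 : rep e T⁻¹ * (a * b) = 1 := by rw [hab, ← map_mul]; simp only [_root_.inv_mul_cancel, _root_.map_one]
    calc b * a + a = rep e T⁻¹ * (a * b) * (b * a + a) := by rw [h1, one_mul]
      _ = rep e T⁻¹ := by rw [mul_assoc, hy1, mul_one]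
  have hT5' : (b * a + a) * (b * a + a) * (b * a + a) * (b * a + a) * (b * a + a) = 1 := by
    rw [hTi, ← map_mul, ← map_mul, ← map_mul, ← map_mul, Tinv, map_one]
  by_contra hf
  have hfm : c * c + c - 1 ∈ Algebra.adjoin (ZMod p) (Set.range (rep e)) :=
    sub_mem (add_mem (mul_mem hcmem hcmem) hcmem) (one_mem _)
  have hfc : ∀ x, rep e x * (c * c + c - 1) = (c * c + c - 1) * rep e x := by
    intro x
    have h1 : rep e x * (c * c + c - 1) = (rep e x * c) * c + rep e x * c - rep e x := by noncomm_ring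
    have h2 : c * rep e x * c + c * rep e x - rep e x = c * (rep e x * c) + c * rep e x - rep e x := by
      noncomm_ring
    rw [h1, hcen, h2, hcen]; noncomm_ring
  have hfi : ∀ g : Module.End (ZMod p) V, (c * c + c - 1) * g = 0 → g = 0 := by
    intro g hg
    ext v
    by_contra h
    exact hf (fs hom hfm hfc h (LinearMap.congr_fun hg v))
  have e1 := hfi _ (quint hq1 hT5)
  have e2 := hfi _ (quint hq2 hT5')
  have e3 : (c * c + c - 1) * (c - 2) = 0 := by
    have h1 : (c * c + c - 1) * (c - 2) = (c * c - c - 1) * c - (c - 1) - (c - 1) := by noncomm_ring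
    have h2 : (c * c - c - 1) * c - (c - 1) - (c - 1) =
        ((c * c - c - 1) * (a * b) - (c - 1)) + ((c * c - c - 1) * (b * a + a) - (c - 1)) := by
      conv_lhs => rw [show (c * c - c - 1) * c = (c * c - c - 1) * (a * b + (b * a + a)) by rw [← hsum]]
      noncomm_ring
    rw [h1, h2, e1, e2, add_zero]
  have e4 : c = 2 := sub_eq_zero.1 (hfi _ e3)
  rw [e4] at hq1
  obtain ⟨y, hy⟩ : ∃ y, a * b = y := ⟨_, rfl⟩
  rw [hy] at hq1 hT5
  have e5 : (y - 1) * (y - 1) = 0 := by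
    have : (y - 1) * (y - 1) = y * y - (2 * y - 1) := by noncomm_ring
    rw [this, hq1, sub_self]
  have e6 : y * y * y * y * y - 1 - 5 * (y - 1) =
      (y - 1) * (y - 1) * (y * y * y + 2 * (y * y) + 3 * y + 4) := by noncomm_ring
  rw [e5, zero_mul, hT5, sub_self, zero_sub, neg_eq_zero] at e6
  have h5 : (5 : ZMod p) ≠ 0 := by
    intro h
    have h6 : ((5 : ℕ) : ZMod p) = 0 := by exact_mod_cast h
    rw [ZMod.natCast_eq_zero_iff] at h6
    exact absurd (Nat.le_of_dvd (by norm_num) h6) (by omega)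
  have e7 : y = 1 := by
    rw [← sub_eq_zero]
    have h8 : (5 : ZMod p) • (y - 1) = 0 := by
      rw [← e6, Algebra.smul_def, map_ofNat]
    exact (smul_eq_zero.1 h8).resolve_left h5
  have h9 : rep e T = rep e 1 := by rw [← hab, hy, e7, map_one]
  exact T_ne (hinj h9)

open Polynomial in
theorem exists_rs {K : Type*} [Field K] [Finite K] (hodd : Nat.card K % 2 = 1) (γ : K) :
    ∃ r s : K, r ^ 2 + r + 1 + s ^ 2 - s * γ = 0 := by
  have := Fintype.ofFinite K
  have h1 : (X ^ 2 + X + 1 : K[X]).degree = 2 := by compute_degree!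
  have h2 : (X ^ 2 - C γ * X : K[X]).degree = 2 := by compute_degree!
  obtain ⟨r, s, h⟩ := FiniteField.exists_root_sum_quadratic h1 h2 (by
    rw [← Nat.card_eq_fintype_card]; exact hodd)
  refine ⟨r, s, ?_⟩
  simp only [eval_add, eval_sub, eval_mul, eval_pow, eval_X, eval_C, eval_one] at h
  linear_combination h

theorem det_a0 {K : Type*} [Field K] : (a0 : Matrix (Fin 2) (Fin 2) K).det = 1 := by
  simp [a0, Matrix.det_fin_two]

theorem det_b0 {K : Type*} [Field K] {γ r s : K} (h : r ^ 2 + r + 1 + s ^ 2 - s * γ = 0) :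
    (b0 γ r s).det = 1 := by
  simp only [b0, Matrix.det_fin_two_of]
  linear_combination -h

/-- (Q) the quaternion algebra -/
theorem exists_setup {G : Subgroup (V ≃ₗ[ZMod p] V)} (hV : ∃ v : V, v ≠ 0) (hG : ¬ p ∣ Nat.card G)
    (e : SL25 →* (V ≃ₗ[ZMod p] V))
    (he : Function.Injective e) (hL : ∀ x, e x ∈ G) (hn : ∀ g ∈ G, ∀ x, ∃ y, g * e x * g⁻¹ = e y)
    (hom : FaithSub e.range) (h3 : ∀ x, x * x * x = 1 → x ≠ 1 → ∀ v, e x v = v → v = 0) :
    ∃ (K : Type) (_ : Field K) (_ : Module (Matrix (Fin 2) (Fin 2) K) V)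
      (j : SL25 →* Matrix.SpecialLinearGroup (Fin 2) K), SetupQ G K j e := by
  have hp7 := seven_le hG he hL
  have hp : p.Prime := Fact.out
  obtain ⟨a, b, c, ha, hb, hab, haa, hbb, hba, hcen, hcc, hcmem⟩ := rels hG he hL hom h3
  have hVn : Nontrivial V := by
    obtain ⟨v, hv⟩ := hV
    exact ⟨v, 0, hv⟩
  have hcase : ∀ l : ZMod p, c ≠ algebraMap (ZMod p) (Module.End (ZMod p) V) l →
      ∀ x : Module.End (ZMod p) V, (c - algebraMap (ZMod p) _ l) * x = 0 → x = 0 := by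
    intro l hl x hx
    ext v
    by_contra h
    apply hl
    rw [← sub_eq_zero]
    refine fs hom (sub_mem hcmem (Subalgebra.algebraMap_mem _ l)) ?_ h (LinearMap.congr_fun hx v)
    intro x
    rw [mul_sub, sub_mul, hcen, Algebra.commutes l (rep e x)]
  obtain ⟨K, fK, ψ, γ, hγ, hψc, hψ, hch, hfin, hcard, hgen⟩ := field_data (p := p) c hcc hcase
  have hodd : Nat.card K % 2 = 1 := by
    have hp2 : p % 2 = 1 := Nat.odd_iff.1 (hp.odd_of_ne_two (by omega))
    rcases hcard with h | ⟨h, _⟩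
    · rw [h, hp2]
    · rw [h, Nat.pow_mod, hp2]
  have hγ3 : γ ^ 2 - 3 ≠ 0 := by
    intro h
    have h1 : γ = -2 := by linear_combination hγ - h
    rw [h1] at hγ
    have h2 : (1 : K) = 0 := by linear_combination hγ
    exact one_ne_zero h2
  obtain ⟨r, s, hrs⟩ := exists_rs hodd γ
  have hcS := hcen S
  have hcB := hcen (-(S * T))
  rw [ha] at hcS
  rw [hb] at hcB
  obtain ⟨Φ, hΦa, hΦb, hΦk⟩ := exists_hom' ψ hrs hγ3 haa hbb (by rw [hψc]; exact hba)
    (hψ a hcS.symm) (hψ b hcB.symm)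
  have hΦ : Function.Injective Φ := RingHom.injective Φ
  obtain ⟨A0, hA0⟩ : ∃ g : Matrix.SpecialLinearGroup (Fin 2) K,
      (g : Matrix (Fin 2) (Fin 2) K) = a0 := ⟨⟨a0, det_a0⟩, rfl⟩
  obtain ⟨B0, hB0⟩ : ∃ g : Matrix.SpecialLinearGroup (Fin 2) K,
      (g : Matrix (Fin 2) (Fin 2) K) = b0 γ r s := ⟨⟨b0 γ r s, det_b0 hrs⟩, rfl⟩
  have hex : ∀ x : SL25, ∃ g : Matrix.SpecialLinearGroup (Fin 2) K,
      Φ (g : Matrix (Fin 2) (Fin 2) K) = rep e x := by
    intro x
    have hx : x ∈ Subgroup.closure ({S, T} : Set SL25) := by rw [closure_eq_top]; trivial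
    induction hx using Subgroup.closure_induction with
    | mem x hx =>
      rcases hx with rfl | hx
      · exact ⟨A0, by rw [ha, hA0, hΦa]⟩
      · rw [Set.mem_singleton_iff] at hx
        subst hx
        refine ⟨A0 * B0, ?_⟩
        rw [Matrix.SpecialLinearGroup.coe_mul, map_mul, ← hab, hA0, hB0, hΦa, hΦb]
    | one => exact ⟨1, by simp only [_root_.Matrix.SpecialLinearGroup.coe_one, _root_.map_one]⟩
    | mul x y _ _ hx hy =>
      obtain ⟨g, hg⟩ := hx
      obtain ⟨k, hk⟩ := hy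
      exact ⟨g * k, by rw [Matrix.SpecialLinearGroup.coe_mul, map_mul, hg, hk, map_mul]⟩
    | inv x _ hx =>
      obtain ⟨g, hg⟩ := hx
      refine ⟨g⁻¹, ?_⟩
      have h1 : rep e x * rep e x⁻¹ = 1 := by rw [← map_mul]; simp only [_root_.mul_inv_cancel, _root_.map_one]
      have h2 : Φ ((g⁻¹ : Matrix.SpecialLinearGroup (Fin 2) K) : Matrix (Fin 2) (Fin 2) K) *
          rep e x = 1 := by
        rw [← hg, ← map_mul, ← Matrix.SpecialLinearGroup.coe_mul]
        simp
      calc Φ ((g⁻¹ : Matrix.SpecialLinearGroup (Fin 2) K) : Matrix (Fin 2) (Fin 2) K)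
          = Φ ((g⁻¹ : Matrix.SpecialLinearGroup (Fin 2) K) : Matrix (Fin 2) (Fin 2) K) *
            (rep e x * rep e x⁻¹) := by rw [h1, mul_one]
        _ = rep e x⁻¹ := by rw [← mul_assoc, h2, one_mul]
  choose j₀ hj₀ using hex
  let j : SL25 →* Matrix.SpecialLinearGroup (Fin 2) K :=
    { toFun := j₀
      map_one' := by
        apply Subtype.ext
        apply hΦ
        rw [hj₀, map_one]
        simp
      map_mul' := by
        intro x y
        apply Subtype.ext
        apply hΦ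
        rw [Matrix.SpecialLinearGroup.coe_mul, map_mul, hj₀, hj₀, hj₀, map_mul] }
  have hj : ∀ x, Φ (j x : Matrix (Fin 2) (Fin 2) K) = rep e x := hj₀
  let mV : Module (Matrix (Fin 2) (Fin 2) K) V := Module.compHom V Φ
  refine ⟨K, fK, mV, j, ?_⟩
  have hact : ∀ x v, e x v = (j x : Matrix (Fin 2) (Fin 2) K) • v := by
    intro x v
    change rep e x v = Φ (j x : Matrix (Fin 2) (Fin 2) K) v
    rw [hj]
  refine
    { p7 := hp7
      char := hch
      fin := hfin
      card := hcard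
      nontriv := hV
      jinj := ?_
      act := hact
      mem := hL
      norm := hn
      span := ?_ }
  · intro x y hxy
    apply he
    ext v
    rw [hact, hact, hxy]
  · -- the additive closure of the image
    let j' : SL25 →* Matrix (Fin 2) (Fin 2) K :=
      { toFun := fun x => (j x : Matrix (Fin 2) (Fin 2) K)
        map_one' := by simp
        map_mul' := fun x y => by simp only [_root_.map_mul, _root_.Matrix.SpecialLinearGroup.coe_mul] }
    let R : Subring (Matrix (Fin 2) (Fin 2) K) := Subring.closure (Set.range j')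
    have hR : R = ⊤ := by
      have hmem : ∀ x, (j x : Matrix (Fin 2) (Fin 2) K) ∈ R := fun x => Subring.subset_closure ⟨x, rfl⟩
      have hjS : (j S : Matrix (Fin 2) (Fin 2) K) = a0 := by
        apply hΦ; rw [hj, hΦa, ha]
      have hjB : (j (-(S * T)) : Matrix (Fin 2) (Fin 2) K) = b0 γ r s := by
        apply hΦ; rw [hj, hΦb, hb]
      have h1 : (a0 : Matrix (Fin 2) (Fin 2) K) ∈ R := by rw [← hjS]; exact hmem _
      have h2 : b0 γ r s ∈ R := by rw [← hjB]; exact hmem _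
      have h4 : γ • (1 : Matrix (Fin 2) (Fin 2) K) ∈ R := by
        have h5 : γ • (1 : Matrix (Fin 2) (Fin 2) K) =
            a0 * b0 γ r s + b0 γ r s * a0 + a0 := by rw [b0_a0]; abel
        rw [h5]
        exact add_mem (add_mem (mul_mem h1 h2) (mul_mem h2 h1)) h1
      have h6 : ∀ k : K, k • (1 : Matrix (Fin 2) (Fin 2) K) ∈ R := by
        intro k
        have h7 : R.comap (algebraMap K (Matrix (Fin 2) (Fin 2) K)) = ⊤ := by
          apply hgen
          rw [Subring.mem_comap, Algebra.algebraMap_eq_smul_one]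
          exact h4
        have h8 : k ∈ R.comap (algebraMap K (Matrix (Fin 2) (Fin 2) K)) := by rw [h7]; trivial
        rw [Subring.mem_comap, Algebra.algebraMap_eq_smul_one] at h8
        exact h8
      have h9 : ∀ (k : K) (M : Matrix (Fin 2) (Fin 2) K), M ∈ R → k • M ∈ R := by
        intro k M hM
        have : k • M = (k • 1) * M := by simp
        rw [this]
        exact mul_mem (h6 k) hM
      rw [eq_top_iff]
      intro M _
      obtain ⟨t, rfl⟩ := (ev_bij hrs hγ3).2 M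
      rw [ev_apply]
      exact add_mem (add_mem (add_mem (h9 _ _ (one_mem _)) (h9 _ _ h1)) (h9 _ _ h2))
        (h9 _ _ (mul_mem h1 h2))
    rw [eq_top_iff]
    intro M _
    have h1 : M ∈ R := by rw [hR]; trivial
    rw [Subring.mem_closure_iff] at h1
    have h2 : ((Submonoid.closure (Set.range j') : Submonoid (Matrix (Fin 2) (Fin 2) K)) :
        Set (Matrix (Fin 2) (Fin 2) K)) = Set.range j' := by
      have h3 : (Set.range j' : Set (Matrix (Fin 2) (Fin 2) K)) = (MonoidHom.mrange j' : Set _) := by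
        simp
      rw [h3, Submonoid.closure_eq]
    rw [h2] at h1
    exact h1

end main

end Cfsg.Agent.H432.HT
end

-- part: H312/HT/SL25
section
/-!
# S3540: a normal subgroup `SL(2,5)` (helper312)
-/

set_option autoImplicit false

namespace Cfsg.Agent.H312.HT

open Cfsg.Agent.H828.HT Cfsg.Agent.PermutationGroups.AutSL25 Matrix
open Cfsg.Agent.H960.HT (Homog NIrr exists_nirr sSup_nirr AllHomog SL5Row Lst Irr)

universe u v

variable {p : ℕ} [Fact p.Prime] {V : Type u} [AddCommGroup V] [Module (ZMod p) V] [Finite V]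
  {G : Subgroup (V ≃ₗ[ZMod p] V)} {h : ℕ}

/-- homogeneous normal subgroups -/
theorem faithSub_of_homog [Nontrivial V] {N : Subgroup (V ≃ₗ[ZMod p] V)} (hH : Homog N) (hirr : Irr G)
    (hN : ∀ g ∈ G, ∀ n ∈ N, g * n * g⁻¹ ∈ N) : FaithSub N := by
  intro W hW hinv e he h0
  obtain ⟨M, hMW, hM⟩ := exists_nirr N hW hinv
  have hker : ∀ M' : Submodule (ZMod p) V, NIrr N M' → M' ≤ LinearMap.ker e := by
    intro M' hM' v' hv'
    obtain ⟨φ, hφ⟩ := hH M M' hM hM'
    have key : ∀ v : M, ∃ w : M, (w : V) = e v ∧ (φ w : V) = e (φ v) := by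
      refine Algebra.adjoin_induction (p := fun e _ => ∀ v : M, ∃ w : M, (w : V) = e v ∧ (φ w : V) = e (φ v))
        ?_ ?_ ?_ ?_ he
      · rintro _ ⟨n, hn, rfl⟩ v
        exact ⟨⟨n v, hM.inv n hn v v.2⟩, rfl, hφ n hn v _ rfl⟩
      · intro r v
        refine ⟨r • v, rfl, ?_⟩
        rw [map_smul]; rfl
      · intro x y _ _ hx hy v
        obtain ⟨w1, h1, h1'⟩ := hx v
        obtain ⟨w2, h2, h2'⟩ := hy v
        refine ⟨w1 + w2, ?_, ?_⟩
        · rw [Submodule.coe_add, h1, h2]; rfl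
        · rw [map_add, Submodule.coe_add, h1', h2']; rfl
      · intro x y _ _ hx hy v
        obtain ⟨w2, h2, h2'⟩ := hy v
        obtain ⟨w1, h1, h1'⟩ := hx w2
        refine ⟨w1, ?_, ?_⟩
        · rw [h1, h2]; rfl
        · rw [h1', h2']; rfl
    obtain ⟨w, h1, h2⟩ := key (φ.symm ⟨v', hv'⟩)
    rw [h0 _ (hMW (φ.symm ⟨v', hv'⟩).2)] at h1
    have h3 : w = 0 := Subtype.ext h1
    rw [h3, map_zero, LinearEquiv.apply_symm_apply] at h2
    exact h2.symm
  have h1 : (⊤ : Submodule (ZMod p) V) ≤ LinearMap.ker e := by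
    rw [← sSup_nirr hirr hN]
    exact sSup_le fun M' hM' => hker M' hM'
  ext v
  exact h1 (Submodule.mem_top (x := v))

section

variable {K : Type v} [Field K] [Module (Matrix (Fin 2) (Fin 2) K) V]
  {j : SL25 →* Matrix.SpecialLinearGroup (Fin 2) K} {l : SL25 →* (V ≃ₗ[ZMod p] V)}

theorem card_of_no_rk2 (hS : SetupQ G K j l) (hno : ∀ v : V, ¬ Rk2 K v) : Nat.card V = Nat.card K ^ 2 := by
  have := hS.fin
  rw [card_V_eq (K := K) (V := V)]
  congr 1
  obtain ⟨b₀, h0, hne⟩ : ∃ b₀ : V, InB K b₀ ∧ b₀ ≠ 0 := by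
    by_contra hcon
    push Not at hcon
    obtain ⟨v, hv⟩ := hS.nontriv
    apply hv
    rw [← vec_coord (K := K) v, hcon _ (inB_e00 v), hcon _ (inB_e01 v)]
    unfold vec
    rw [smul_zero, add_zero]
  have hscB : ∀ c : K, InB K (sc c b₀) := by
    intro c
    unfold InB sc
    rw [← mul_smul, mul_smul_comm, mul_one]
    nth_rewrite 2 [← h0]
    rw [← mul_smul, smul_mul_assoc, one_mul]
  refine (Nat.card_congr (Equiv.ofBijective (fun c : K => (⟨sc c b₀, hscB c⟩ : {b : V // InB K b})) ⟨?_, ?_⟩)).symm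
  · intro c d hcd
    exact sc_inj' hne (congrArg Subtype.val hcd)
  · rintro ⟨b, hb⟩
    by_contra hcon
    push Not at hcon
    apply hno (vec K b₀ b)
    refine rk2_vec h0 hb fun s t hst => ?_
    have ht : t = 0 := by
      by_contra ht
      apply hcon (-(t⁻¹ * s))
      apply Subtype.ext
      change sc (-(t⁻¹ * s)) b₀ = b
      have h2 := congrArg (sc t⁻¹) hst
      rw [sc_add, sc_sc, sc_sc, inv_mul_cancel₀ ht, sc_one, sc_zero] at h2
      rw [sc_neg]
      exact (eq_neg_of_add_eq_zero_right h2).symm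
    refine ⟨?_, ht⟩
    rw [ht] at hst
    have h3 : sc (0 : K) b = 0 := by
      unfold sc
      rw [zero_smul, zero_smul]
    rw [h3, add_zero] at hst
    exact sc_ne hne hst

end

/-- elements of order three have no fixed vectors -/
def ThreeFree : Prop := ∀ (p : ℕ) [Fact p.Prime] (V : Type u) [AddCommGroup V] [Module (ZMod p) V] [Finite V]
  (G : Subgroup (V ≃ₗ[ZMod p] V)) (h : ℕ) (_ : ¬ p ∣ Nat.card G) (_ : Half G h) (_ : 2 ≤ h)
  (e : SL25 →* (V ≃ₗ[ZMod p] V)) (_ : Function.Injective e) (_ : ∀ x, e x ∈ G)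
  (_ : ∀ g ∈ G, ∀ x, ∃ y, g * e x * g⁻¹ = e y) (_ : FaithSub e.range),
  ∀ x, x * x * x = 1 → x ≠ 1 → ∀ v, e x v = v → v = 0

/-- **normal `SL(2,5)`** -/
theorem sl25_of (hT : ThreeFree.{u}) : SL5Row.{u} := by
  intro p _ V _ _ _ G h hp2 hh h2 hG hirr hhom S hSG hSn ⟨e⟩
  set l : SL25 →* (V ≃ₗ[ZMod p] V) := S.subtype.comp (e.symm : SL25 →* S) with hl
  have hlapp : ∀ x, l x = (e.symm x : V ≃ₗ[ZMod p] V) := fun _ => rfl
  have hinj : Function.Injective l := S.subtype_injective.comp e.symm.injective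
  have hrange : l.range = S := by
    ext g
    constructor
    · rintro ⟨x, rfl⟩; exact (e.symm x).2
    · intro hg
      exact ⟨e ⟨g, hg⟩, by rw [hlapp, MulEquiv.symm_apply_apply]⟩
  have hmem : ∀ x, l x ∈ G := fun x => hSG (e.symm x).2
  have hnorm : ∀ g ∈ G, ∀ x, ∃ y, g * l x * g⁻¹ = l y := by
    intro g hg x
    refine ⟨e ⟨g * l x * g⁻¹, hSn g hg _ (e.symm x).2⟩, ?_⟩
    rw [hlapp (e _), MulEquiv.symm_apply_apply]
  have hnt : Nontrivial V := by
    by_contra hcon
    rw [not_nontrivial_iff_subsingleton] at hcon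
    have h1 : l (-1) = l 1 := by
      ext v
      exact Subsingleton.elim _ _
    exact neg_one_ne (hinj h1)
  have hfs : FaithSub l.range := by
    rw [hrange]
    exact faithSub_of_homog (hhom S hSG hSn) hirr hSn
  obtain ⟨K, _, _, j, hQ⟩ := Cfsg.Agent.H432.HT.exists_setup (exists_ne (0 : V)) hG l hinj hmem hnorm hfs
    (hT p V G h hG hh h2 l hinj hmem hnorm hfs)
  by_cases hex : ∃ v : V, Rk2 K v
  · obtain ⟨v, hv⟩ := hex
    exact (hQ.mult_two hG hh h2 hv).elim
  · push Not at hex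
    exact hQ.mult_one hh h2 (card_of_no_rk2 hQ hex)

end Cfsg.Agent.H312.HT
end

-- part: H432/HT/ThreeA
section
/-!
# S3540, TEAM HT: elements of order three of `SL(2,5)`, the counting part (helper432)
-/

set_option autoImplicit false

namespace Cfsg.Agent.H432.HT

open Cfsg.Agent.PermutationGroups.AutSL25 Matrix Cfsg.Agent.H312.HT.F

/-! ### finite facts -/

/-- a second element of order three -/
def B2 : SL25 := ⟨!![3, 4; 3, 1], by decide⟩

theorem B2_conj : ∃ g : SL25, B2 = g * B * g⁻¹ := by (delta Cfsg.Agent.H312.HT.F.B; set_option synthInstance.maxSize 20000 in open scoped Cfsg.Agent.Lib.MatDec in decide +kernel)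

theorem S_word : S = B * B2 * B * B * B2 := by decide +kernel

theorem three_conj : ∀ x : SL25, x * x * x = 1 → x ≠ 1 → ∃ w : SL25, x = w * B * w⁻¹ := by (set_option synthInstance.maxSize 20000 in open scoped Cfsg.Agent.Lib.MatDec in decide +kernel)

theorem three_inv : ∀ x : SL25, x * x * x = 1 → ∃ w : SL25, w * x * w⁻¹ = x⁻¹ := by (set_option synthInstance.maxSize 20000 in open scoped Cfsg.Agent.Lib.MatDec in decide +kernel)

theorem neg_comm : ∃ w : SL25, (-1 : SL25) = S * w * S⁻¹ * w⁻¹ := by (set_option synthInstance.maxSize 20000 in open scoped Cfsg.Agent.Lib.MatDec in decide +kernel)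

/-- half of the elements of order three -/
def half (x : SL25) : Bool :=
  decide ((x 0 0).val * 125 + (x 0 1).val * 25 + (x 1 0).val * 5 + (x 1 1).val <
    (x⁻¹ 0 0).val * 125 + (x⁻¹ 0 1).val * 25 + (x⁻¹ 1 0).val * 5 + (x⁻¹ 1 1).val)

theorem half_or : ∀ x : SL25, x * x * x = 1 → x ≠ 1 → half x = true ∨ half x⁻¹ = true := by (delta Cfsg.Agent.H432.HT.half; set_option synthInstance.maxSize 20000 in open scoped Cfsg.Agent.Lib.MatDec in decide +kernel)

theorem card_half : Fintype.card {x : SL25 // x * x * x = 1 ∧ x ≠ 1 ∧ half x = true} = 10 := by (delta Cfsg.Agent.H432.HT.half; set_option synthInstance.maxSize 20000 in open scoped Cfsg.Agent.Lib.MatDec in decide +kernel)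

section rep

variable {p : ℕ} [Fact p.Prime] {W : Type*} [AddCommGroup W] [Module (ZMod p) W]
  {ρ : SL25 →* Module.End (ZMod p) W}

/-- irreducible representations -/
def Irr (ρ : SL25 →* Module.End (ZMod p) W) : Prop :=
  ∀ U : Submodule (ZMod p) W, (∀ x, ∀ u ∈ U, ρ x u ∈ U) → U = ⊥ ∨ U = ⊤

theorem two_ne (hp : 7 ≤ p) : (2 : ZMod p) ≠ 0 := by
  intro h
  have h1 : ((2 : ℕ) : ZMod p) = 0 := by exact_mod_cast h
  rw [ZMod.natCast_eq_zero_iff] at h1
  exact absurd (Nat.le_of_dvd (by norm_num) h1) (by omega)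

theorem three_ne (hp : 7 ≤ p) : (3 : ZMod p) ≠ 0 := by
  intro h
  have h1 : ((3 : ℕ) : ZMod p) = 0 := by exact_mod_cast h
  rw [ZMod.natCast_eq_zero_iff] at h1
  exact absurd (Nat.le_of_dvd (by norm_num) h1) (by omega)

theorem eq_zero_of_neg (hp : 7 ≤ p) {v : W} (h : -v = v) : v = 0 := by
  have h1 : (2 : ZMod p) • v = 0 := by
    rw [two_smul]
    nth_rewrite 1 [← h]
    exact neg_add_cancel v
  exact (smul_eq_zero.1 h1).resolve_left (two_ne hp)

/-- the two spaces of `B` and `B2` meet trivially -/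
theorem inter_zero (hp : 7 ≤ p) (hneg : ρ (-1) = -1) {τ : Module.End (ZMod p) W}
    (hτ : ∀ x, ρ x * τ = τ * ρ x) (hτ3 : τ * τ * τ = 1) {v : W} (h1 : ρ B v = τ v)
    (h2 : ρ B2 v = τ v) : v = 0 := by
  have hc : ∀ x (u : W), ρ x (τ u) = τ (ρ x u) := fun x u => LinearMap.congr_fun (hτ x) u
  have h3 : ∀ u : W, τ (τ (τ u)) = u := fun u => LinearMap.congr_fun hτ3 u
  have hS : ρ S v = τ (τ v) := by
    rw [S_word]
    simp only [map_mul, Module.End.mul_apply, h1, h2, hc, h3]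
  have hSS : ρ (S * S) v = τ v := by
    rw [map_mul, Module.End.mul_apply, hS, hc, hc, hS, h3]
  rw [relS, hneg] at hSS
  have h5 : τ v = -v := hSS.symm
  have h6 : τ (τ (τ v)) = -v := by rw [h5, map_neg, h5, neg_neg, h5]
  rw [h3] at h6
  exact eq_zero_of_neg hp h6.symm

theorem inter_zero' (hp : 7 ≤ p) (hneg : ρ (-1) = -1) {τ : Module.End (ZMod p) W}
    (hτ : ∀ x, ρ x * τ = τ * ρ x) (hτ3 : τ * τ * τ = 1) {v : W} (w : SL25)
    (h1 : ρ (w * B * w⁻¹) v = τ v) (h2 : ρ (w * B2 * w⁻¹) v = τ v) : v = 0 := by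
  have hc : ∀ x (u : W), ρ x (τ u) = τ (ρ x u) := fun x u => LinearMap.congr_fun (hτ x) u
  have hw : ∀ u : W, ρ w (ρ w⁻¹ u) = u := by
    intro u
    rw [← Module.End.mul_apply, ← map_mul]; simp only [_root_.mul_inv_cancel, _root_.map_one, _root_.Module.End.one_apply]
  have hw' : ∀ u : W, ρ w⁻¹ (ρ w u) = u := by
    intro u
    rw [← Module.End.mul_apply, ← map_mul]; simp only [_root_.inv_mul_cancel, _root_.map_one, _root_.Module.End.one_apply]
  have h0 : ρ w⁻¹ v = 0 := by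
    apply inter_zero hp hneg hτ hτ3
    · rw [map_mul, map_mul, Module.End.mul_apply, Module.End.mul_apply] at h1
      have h3 := congrArg (ρ w⁻¹) h1
      rw [hw', hc] at h3
      exact h3
    · rw [map_mul, map_mul, Module.End.mul_apply, Module.End.mul_apply] at h2
      have h3 := congrArg (ρ w⁻¹) h2
      rw [hw', hc] at h3
      exact h3
  rw [← hw v, h0, map_zero]

/-- the eigenspace -/
def F (ρ : SL25 →* Module.End (ZMod p) W) (x : SL25) (τ : Module.End (ZMod p) W) : Submodule (ZMod p) W :=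
  LinearMap.ker (ρ x - τ)

theorem mem_F {x : SL25} {τ : Module.End (ZMod p) W} {v : W} : v ∈ F ρ x τ ↔ ρ x v = τ v := by
  rw [F, LinearMap.mem_ker, LinearMap.sub_apply, sub_eq_zero]

variable [Finite W]

theorem card_F (hp : 7 ≤ p) (hneg : ρ (-1) = -1) {τ : Module.End (ZMod p) W}
    (hτ : ∀ x, ρ x * τ = τ * ρ x) (hτ3 : τ * τ * τ = 1) {x : SL25} (hx : x * x * x = 1) (hx1 : x ≠ 1) :
    Nat.card (F ρ x τ) ^ 2 ≤ Nat.card W := by
  have hc : ∀ x (u : W), ρ x (τ u) = τ (ρ x u) := fun x u => LinearMap.congr_fun (hτ x) u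
  obtain ⟨w, rfl⟩ := three_conj x hx hx1
  obtain ⟨g, hg⟩ := B2_conj
  have hinv : ∀ (k : SL25) (u : W), ρ k⁻¹ (ρ k u) = u := by
    intro k u
    rw [← Module.End.mul_apply, ← map_mul]; simp only [_root_.inv_mul_cancel, _root_.map_one, _root_.Module.End.one_apply]
  -- transport to the second space
  have hmap : ∀ v ∈ F ρ (w * B * w⁻¹) τ, ρ (w * g * w⁻¹) v ∈ F ρ (w * B2 * w⁻¹) τ := by
    intro v hv
    rw [mem_F] at hv ⊢
    have h1 : (w * B2 * w⁻¹) * (w * g * w⁻¹) = (w * g * w⁻¹) * (w * B * w⁻¹) := by rw [hg]; group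
    rw [← Module.End.mul_apply, ← map_mul, h1, map_mul, Module.End.mul_apply, hv, hc]
  have hcard : Nat.card (F ρ (w * B * w⁻¹) τ) ≤ Nat.card (F ρ (w * B2 * w⁻¹) τ) := by
    apply Nat.card_le_card_of_injective (fun v : F ρ (w * B * w⁻¹) τ => (⟨ρ (w * g * w⁻¹) v.1, hmap _ v.2⟩ :
      F ρ (w * B2 * w⁻¹) τ))
    intro u v huv
    have h1 : ρ (w * g * w⁻¹) u.1 = ρ (w * g * w⁻¹) v.1 := congrArg Subtype.val huv
    apply Subtype.ext
    rw [← hinv (w * g * w⁻¹) u.1, h1, hinv]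
  have h2 : Nat.card (F ρ (w * B * w⁻¹) τ) * Nat.card (F ρ (w * B2 * w⁻¹) τ) ≤ Nat.card W := by
    rw [← Nat.card_prod]
    apply Nat.card_le_card_of_injective (fun z : F ρ (w * B * w⁻¹) τ × F ρ (w * B2 * w⁻¹) τ => z.1.1 - z.2.1)
    rintro ⟨a, b⟩ ⟨c, d⟩ h
    have h3 : a.1 - c.1 = b.1 - d.1 := by
      have h4 : a.1 - b.1 = c.1 - d.1 := h
      rw [sub_eq_sub_iff_add_eq_add] at h4 ⊢
      rw [h4, add_comm]
    have h5 : a.1 - c.1 ∈ F ρ (w * B * w⁻¹) τ := sub_mem a.2 c.2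
    have h6 : a.1 - c.1 ∈ F ρ (w * B2 * w⁻¹) τ := by rw [h3]; exact sub_mem b.2 d.2
    have h7 := inter_zero' hp hneg hτ hτ3 w (mem_F.1 h5) (mem_F.1 h6)
    have h8 : b.1 - d.1 = 0 := by rw [← h3, h7]
    exact Prod.ext (Subtype.ext (sub_eq_zero.1 h7)) (Subtype.ext (sub_eq_zero.1 h8))
  calc Nat.card (F ρ (w * B * w⁻¹) τ) ^ 2 = Nat.card (F ρ (w * B * w⁻¹) τ) * Nat.card (F ρ (w * B * w⁻¹) τ) := sq _
    _ ≤ _ := (Nat.mul_le_mul_left _ hcard).trans h2

/-! ### the dimension -/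

omit [Finite W] in
theorem det_comm (x w : SL25) : LinearMap.det (ρ (x * w * x⁻¹ * w⁻¹)) = 1 := by
  have h1 : LinearMap.det (ρ x) * LinearMap.det (ρ x⁻¹) = 1 := by
    rw [← map_mul, ← map_mul]; simp only [_root_.mul_inv_cancel, _root_.map_one]
  have h2 : LinearMap.det (ρ w) * LinearMap.det (ρ w⁻¹) = 1 := by
    rw [← map_mul, ← map_mul]; simp only [_root_.mul_inv_cancel, _root_.map_one]
  rw [map_mul, map_mul, map_mul, map_mul, map_mul, map_mul]
  calc _ = (LinearMap.det (ρ x) * LinearMap.det (ρ x⁻¹)) * (LinearMap.det (ρ w) * LinearMap.det (ρ w⁻¹)) := by ring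
    _ = 1 := by rw [h1, h2, one_mul]

omit [Finite W] in
theorem even_finrank (hp : 7 ≤ p) (hneg : ρ (-1) = -1) : Even (Module.finrank (ZMod p) W) := by
  obtain ⟨w, hw⟩ := neg_comm
  have h1 : LinearMap.det (ρ (-1)) = 1 := by rw [hw]; exact det_comm _ _
  rw [hneg] at h1
  have h2 : LinearMap.det (-1 : Module.End (ZMod p) W) = (-1) ^ Module.finrank (ZMod p) W := by
    have h3 : (-1 : Module.End (ZMod p) W) = (-1 : ZMod p) • (1 : Module.End (ZMod p) W) := by simp only [_root_.neg_smul, _root_.one_smul]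
    rw [h3, LinearMap.det_smul, map_one, mul_one]
  rw [h2] at h1
  have h3 : (-1 : ZMod p) ≠ 1 := by
    intro h
    apply two_ne hp
    linear_combination -h
  exact (neg_one_pow_eq_one_iff_even h3).1 h1

omit [Finite W] in
theorem det_three {x : SL25} (hx : x * x * x = 1) : LinearMap.det (ρ x) = 1 := by
  obtain ⟨w, hw⟩ := three_inv x hx
  have h1 : x * x = x * w * x⁻¹ * w⁻¹ := by
    have h2 : x = (w * x * w⁻¹)⁻¹ := by rw [hw, inv_inv]
    nth_rewrite 2 [h2]
    group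
  have h2 : LinearMap.det (ρ (x * x)) = 1 := by rw [h1]; exact det_comm _ _
  have h3 : LinearMap.det (ρ (x * x * x)) = 1 := by rw [hx, map_one, map_one]
  rw [map_mul, map_mul, h2, one_mul] at h3
  exact h3

theorem finrank_ne_two (hp : 7 ≤ p) (hneg : ρ (-1) = -1) {x : SL25} (hx : x * x * x = 1) (hx1 : x ≠ 1) {v : W} (hv : v ≠ 0)
    (hxv : ρ x v = v) : Module.finrank (ZMod p) W ≠ 2 := by
  intro h2
  let b := Module.finBasisOfFinrankEq (ZMod p) W h2
  have hdet : (LinearMap.toMatrix b b (ρ x)).det = 1 := by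
    rw [LinearMap.det_toMatrix]; exact det_three hx
  have hch : (ρ x).charpoly = Polynomial.X ^ 2 - Polynomial.C (LinearMap.toMatrix b b (ρ x)).trace * Polynomial.X +
      Polynomial.C 1 := by
    rw [← LinearMap.charpoly_toMatrix (ρ x) b, Matrix.charpoly_fin_two, hdet]
  have hca := LinearMap.aeval_self_charpoly (ρ x)
  rw [hch] at hca
  set t := (LinearMap.toMatrix b b (ρ x)).trace with ht
  simp only [map_add, map_sub, map_mul, map_pow, Polynomial.aeval_X, Polynomial.aeval_C, map_one] at hca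
  have h3 := LinearMap.congr_fun hca v
  have ht2 : t = 2 := by
    simp only [LinearMap.add_apply, LinearMap.sub_apply, pow_two, Module.End.mul_apply, hxv,
      Module.algebraMap_end_apply, Module.End.one_apply, LinearMap.zero_apply] at h3
    have h4 : (2 - t) • v = 0 := by
      rw [sub_smul, two_smul]
      rw [← h3]; abel
    have h5 := (smul_eq_zero.1 h4).resolve_right hv
    linear_combination -h5
  rw [ht2] at hca
  have h2' : algebraMap (ZMod p) (Module.End (ZMod p) W) 2 = 2 := map_ofNat _ 2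
  rw [h2'] at hca
  have hn : (ρ x - 1) * (ρ x - 1) = 0 := by
    have : (ρ x - 1) * (ρ x - 1) = ρ x ^ 2 - 2 * ρ x + 1 := by noncomm_ring
    rw [this, hca]
  have h6 : ρ x * ρ x * ρ x = 1 := by rw [← map_mul, ← map_mul, hx, map_one]
  have h7 : 3 * (ρ x - 1) = 0 := by
    have h8 : ρ x * ρ x * ρ x - 1 = 3 * (ρ x - 1) + (ρ x - 1) * (ρ x - 1) * (ρ x + 2) := by noncomm_ring
    rw [h6, hn, sub_self, zero_mul, add_zero] at h8
    exact h8.symm
  have h9 : ρ x = 1 := by
    rw [← sub_eq_zero]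
    have h10 : (3 : ZMod p) • (ρ x - 1) = 0 := by
      rw [Algebra.smul_def, map_ofNat]; exact h7
    exact (smul_eq_zero.1 h10).resolve_left (three_ne hp)
  apply hv
  have h11 : ∀ k : SL25, ρ (k * x * k⁻¹) = 1 := by
    intro k
    rw [map_mul, map_mul, h9, mul_one, ← map_mul]; simp only [_root_.mul_inv_cancel, _root_.map_one]
  obtain ⟨w, hw⟩ := three_conj x hx hx1
  obtain ⟨g, hg⟩ := B2_conj
  have hB : B = w⁻¹ * x * (w⁻¹)⁻¹ := by rw [hw]; group
  have hB2 : B2 = (g * w⁻¹) * x * (g * w⁻¹)⁻¹ := by rw [hg, hB]; group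
  apply inter_zero hp hneg (τ := 1) (fun x => by simp) (by simp)
  · rw [hB, h11]
  · rw [hB2, h11]

theorem card_ge (hp : 7 ≤ p) (hneg : ρ (-1) = -1) {x : SL25} (hx : x * x * x = 1) (hx1 : x ≠ 1) {v : W} (hv : v ≠ 0)
    (hxv : ρ x v = v) : 2401 ≤ Nat.card W := by
  have h1 := even_finrank hp hneg
  have h2 := finrank_ne_two hp hneg hx hx1 hv hxv
  have hfin : Module.Finite (ZMod p) W := Module.Finite.of_finite
  have hnt : Nontrivial W := ⟨v, 0, hv⟩
  have h3 : 0 < Module.finrank (ZMod p) W := Module.finrank_pos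
  have h4 : 4 ≤ Module.finrank (ZMod p) W := by
    obtain ⟨k, hk⟩ := h1
    omega
  rw [Module.natCard_eq_pow_finrank (K := ZMod p), Nat.card_zmod]
  calc 2401 = 7 ^ 4 := by norm_num
    _ ≤ p ^ 4 := Nat.pow_le_pow_left hp 4
    _ ≤ p ^ Module.finrank (ZMod p) W := Nat.pow_le_pow_right (by omega) h4

/-! ### the centralizer -/

/-- the elements of order three of the centralizer -/
def Th (ρ : SL25 →* Module.End (ZMod p) W) : Set (Module.End (ZMod p) W) :=
  {τ | (∀ x, ρ x * τ = τ * ρ x) ∧ τ * τ * τ = 1}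

theorem finite_end : Finite (Module.End (ZMod p) W) :=
  Finite.of_injective (fun f : Module.End (ZMod p) W => (f : W → W)) DFunLike.coe_injective

theorem card_Th [Nontrivial W] (hirr : Irr ρ) : Nat.card (Th ρ) ≤ 3 := by
  classical
  have hfe : Finite (Module.End (ZMod p) W) := finite_end
  let D : Subring (Module.End (ZMod p) W) := Subring.centralizer (Set.range ρ)
  have hmem : ∀ {τ : Module.End (ZMod p) W}, τ ∈ D ↔ ∀ x, ρ x * τ = τ * ρ x := by
    intro τ
    rw [Subring.mem_centralizer_iff]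
    constructor
    · intro h x
      exact h _ ⟨x, rfl⟩
    · rintro h _ ⟨x, rfl⟩
      exact h x
  have hz : (NoZeroDivisors D :) := ⟨by
    rintro ⟨a, ha⟩ ⟨b, hb⟩ hab
    have hab' : a * b = 0 := congrArg Subtype.val hab
    have hinv : ∀ x, ∀ u ∈ LinearMap.ker a, ρ x u ∈ LinearMap.ker a := by
      intro x u hu
      have h1 : ρ x (a u) = a (ρ x u) := LinearMap.congr_fun (hmem.1 ha x) u
      rw [LinearMap.mem_ker] at hu ⊢
      rw [← h1, hu, map_zero]
    rcases hirr (LinearMap.ker a) hinv with h | h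
    · right
      apply Subtype.ext
      ext v
      have h1 : b v ∈ LinearMap.ker a := LinearMap.congr_fun hab' v
      rw [h, Submodule.mem_bot] at h1
      exact h1
    · left
      apply Subtype.ext
      exact LinearMap.ker_eq_top.1 h⟩
  have hd : (IsDomain D :) := NoZeroDivisors.to_isDomain D
  have hf : (IsField D :) := Finite.isDomain_to_isField D
  let _ : Field D := hf.toField
  have hle : (Polynomial.nthRoots 3 (1 : D)).toFinset.card ≤ 3 :=
    (Multiset.toFinset_card_le _).trans (Polynomial.card_nthRoots 3 1)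
  have h3 : Nat.card (Th ρ) ≤ Nat.card ((Polynomial.nthRoots 3 (1 : D)).toFinset) := by
    apply Nat.card_le_card_of_injective (fun τ : Th ρ => (⟨⟨τ.1, hmem.2 τ.2.1⟩, by
      rw [Multiset.mem_toFinset, Polynomial.mem_nthRoots (by norm_num)]
      apply Subtype.ext
      have h4 := τ.2.2
      change τ.1 ^ 3 = 1
      rw [pow_three', h4]⟩ : ((Polynomial.nthRoots 3 (1 : D)).toFinset)))
    intro σ τ hst
    have h4 := congrArg (fun z : ((Polynomial.nthRoots 3 (1 : D)).toFinset) => ((z : D) : Module.End (ZMod p) W)) hst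
    exact Subtype.ext h4
  refine h3.trans ?_
  rw [Nat.card_eq_fintype_card, Fintype.card_coe]
  exact hle

/-- the counting argument -/
theorem cover_contra (hp : 7 ≤ p) (hneg : ρ (-1) = -1) (hirr : Irr ρ) {x : SL25} (hx : x * x * x = 1) (hx1 : x ≠ 1)
    {v : W} (hv : v ≠ 0) (hxv : ρ x v = v)
    (hcov : ∀ w : W, w ≠ 0 → ∃ (y : SL25) (τ : Module.End (ZMod p) W), y * y * y = 1 ∧ y ≠ 1 ∧ τ ∈ Th ρ ∧
      ρ y w = τ w) : False := by
  classical
  have hnt : Nontrivial W := ⟨v, 0, hv⟩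
  have hfe : Finite (Module.End (ZMod p) W) := finite_end
  let _ : Fintype W := Fintype.ofFinite W
  let _ : Fintype (Th ρ) := Fintype.ofFinite _
  have hTh := card_Th hirr
  have hge := card_ge hp hneg hx hx1 hv hxv
  let f : {x : SL25 // x * x * x = 1 ∧ x ≠ 1 ∧ half x = true} × Th ρ → Finset W := fun i =>
    (Finset.univ : Finset W).filter fun w => w ∈ F ρ i.1.1 i.2.1
  have hf : ∀ i, (f i).card ≤ Nat.sqrt (Nat.card W) := by
    intro i
    rw [Nat.le_sqrt']
    have h1 := card_F hp hneg i.2.2.1 i.2.2.2 i.1.2.1 i.1.2.2.1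
    have h2 : (f i).card = Nat.card (F ρ i.1.1 i.2.1) := by
      rw [Nat.card_eq_fintype_card, Fintype.card_subtype]
    rw [h2]
    exact h1
  have hsub : (Finset.univ : Finset W) ⊆ (Finset.univ : Finset _).biUnion f := by
    intro w _
    rw [Finset.mem_biUnion]
    have key : ∃ (y : SL25) (τ : Module.End (ZMod p) W), y * y * y = 1 ∧ y ≠ 1 ∧ half y = true ∧ τ ∈ Th ρ ∧
        ρ y w = τ w := by
      have h0 : ∃ (y : SL25) (τ : Module.End (ZMod p) W), y * y * y = 1 ∧ y ≠ 1 ∧ τ ∈ Th ρ ∧ ρ y w = τ w := by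
        by_cases hw : w = 0
        · exact ⟨x, 1, hx, hx1, ⟨fun x => by simp, by simp⟩, by rw [hw]; simp only [_root_.map_zero, _root_.Module.End.one_apply]⟩
        · exact hcov w hw
      obtain ⟨y, τ, h1, h2, h3, h4⟩ := h0
      rcases half_or y h1 h2 with h5 | h5
      · exact ⟨y, τ, h1, h2, h5, h3, h4⟩
      · have hy3 : y⁻¹ * y⁻¹ * y⁻¹ = 1 := by
          have : y⁻¹ * y⁻¹ * y⁻¹ = (y * y * y)⁻¹ := by group
          rw [this, h1, inv_one]
        have hc : ∀ (u : W), ρ y (τ u) = τ (ρ y u) := fun u => LinearMap.congr_fun (h3.1 y) u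
        have ht3 : ∀ u : W, τ (τ (τ u)) = u := fun u => LinearMap.congr_fun h3.2 u
        refine ⟨y⁻¹, τ * τ, hy3, by simpa using h2, h5, ⟨fun z => ?_, ?_⟩, ?_⟩
        · rw [← mul_assoc, h3.1 z, mul_assoc, h3.1 z, mul_assoc]
        · have : τ * τ * (τ * τ) * (τ * τ) = (τ * τ * τ) * (τ * τ * τ) := by noncomm_ring
          rw [this, h3.2, one_mul]
        · have h6 : y⁻¹ = y * y := by
            rw [inv_eq_iff_mul_eq_one]
            rw [← mul_assoc]; exact h1
          rw [h6, map_mul, Module.End.mul_apply, Module.End.mul_apply, h4, hc, h4]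
    obtain ⟨y, τ, h1, h2, h3, h4, h5⟩ := key
    refine ⟨(⟨y, h1, h2, h3⟩, ⟨τ, h4⟩), Finset.mem_univ _, ?_⟩
    simp only [f, Finset.mem_filter, Finset.mem_univ, true_and]
    exact mem_F.2 h5
  have h1 := Finset.card_le_card hsub
  have h2 := Finset.card_biUnion_le_card_mul (Finset.univ : Finset ({x : SL25 // x * x * x = 1 ∧ x ≠ 1 ∧
    half x = true} × Th ρ)) f _ (fun i _ => hf i)
  rw [Finset.card_univ, Fintype.card_prod, card_half, ← Nat.card_eq_fintype_card (α := Th ρ)] at h2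
  have h3 := h1.trans h2
  rw [Finset.card_univ, ← Nat.card_eq_fintype_card (α := W)] at h3
  have h4 : Nat.card W ≤ 30 * Nat.sqrt (Nat.card W) := by
    refine h3.trans (Nat.mul_le_mul_right _ ?_)
    omega
  have h5 : Nat.sqrt (Nat.card W) * Nat.sqrt (Nat.card W) ≤ Nat.card W := Nat.sqrt_le _
  have h6 : 49 ≤ Nat.sqrt (Nat.card W) := by
    rw [Nat.le_sqrt]
    omega
  nlinarith only [hge, h4, h5]

end rep

end Cfsg.Agent.H432.HT
end

-- part: H432/HT/Three
section
/-!
# S3540, TEAM HT: elements of order three of `SL(2,5)` have no fixed vectors (helper432)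
-/

set_option autoImplicit false

namespace Cfsg.Agent.H432.HT

open Cfsg.Agent.H828.HT Cfsg.Agent.PermutationGroups.AutSL25 Cfsg.Agent.H312.HT Matrix Cfsg.Agent.H312.HT.F

universe u

/-! ### automorphisms of order three of `SL(2,5)` -/

theorem T4_conj : ∃ w : SL25, T * T * T * T = w * T * w⁻¹ := by (set_option synthInstance.maxSize 20000 in open scoped Cfsg.Agent.Lib.MatDec in decide +kernel)

theorem neg_cube : ∀ u : SL25, u * u * u = -1 → (-u) * (-u) * (-u) = 1 := by (set_option synthInstance.maxSize 20000 in open scoped Cfsg.Agent.Lib.MatDec in decide +kernel)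

/-- an automorphism of order three is conjugation by an element of order three -/
theorem aut_three (ψ : SL25 →* SL25) (hinj : Function.Injective ψ) (h1 : ψ (-1) = -1) (h3 : ∀ x, ψ (ψ (ψ x)) = x)
    (hne : ∃ x, ψ x ≠ x) : ∃ y : SL25, y * y * y = 1 ∧ y ≠ 1 ∧ ∀ x, ψ x = y * x * y⁻¹ := by
  have h5 : ψ T * ψ T * ψ T * ψ T * ψ T = 1 := by
    rw [← map_mul, ← map_mul, ← map_mul, ← map_mul, relT, map_one]
  have hT1 : (T : SL25) ≠ 1 := by decide +kernel
  have hT : ψ T ≠ 1 := by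
    intro h
    exact hT1 (hinj (h.trans (map_one ψ).symm))
  have hw : ∃ w : SL25, ψ T = w * T * w⁻¹ := by
    rcases five_conj (ψ T) h5 hT with h | ⟨w, hw⟩
    · exact h
    · exfalso
      obtain ⟨a, ha⟩ := T4_conj
      obtain ⟨b, hb⟩ := conj_T3
      -- `ψ T ~ T²`, `ψ² T ~ T⁴ ~ T`, `ψ³ T ~ T²`
      have h6 : ψ (ψ T) = (ψ w * (w * a)) * T * (ψ w * (w * a))⁻¹ := by
        rw [hw, map_mul, map_mul, map_mul, map_inv, hw]
        calc ψ w * ((w * (T * T) * w⁻¹) * (w * (T * T) * w⁻¹)) * (ψ w)⁻¹ =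
            ψ w * (w * (T * T * T * T) * w⁻¹) * (ψ w)⁻¹ := by group
          _ = _ := by rw [ha]; group
      have h7 : ψ (ψ (ψ T)) = (ψ (ψ w * (w * a)) * w) * (T * T) * (ψ (ψ w * (w * a)) * w)⁻¹ := by
        rw [h6, map_mul, map_mul, map_inv, hw]
        group
      rw [h3] at h7
      apply not_conj (ψ (ψ w * (w * a)) * w)⁻¹
      nth_rewrite 1 [h7]
      group
  obtain ⟨w, hw⟩ := hw
  obtain ⟨u, hu⟩ := inner_of_conj ψ h1 hw
  have hcen : ∀ x, (u * u * u) * x = x * (u * u * u) := by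
    intro x
    have h6 := h3 x
    rw [hu, hu (ψ x), hu x] at h6
    calc (u * u * u) * x = (u * (u * (u * x * u⁻¹) * u⁻¹) * u⁻¹) * (u * u * u) := by group
      _ = _ := by rw [h6]
  rcases mem_center_iff _ ⟨hcen S, hcen T⟩ with h6 | h6
  · refine ⟨u, h6, ?_, hu⟩
    rintro rfl
    obtain ⟨x, hx⟩ := hne
    apply hx
    rw [hu]; simp
  · refine ⟨-u, neg_cube u h6, ?_, ?_⟩
    · intro h7
      obtain ⟨x, hx⟩ := hne
      apply hx
      rw [hu]
      have h8 : u = -1 := by rw [← h7, neg_neg]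
      rw [h8]
      have h9 : (-1 : SL25)⁻¹ = -1 := by decide +kernel
      rw [h9]; simp
    · intro x
      rw [hu]
      have h9 : ∀ u : SL25, (-u)⁻¹ = -u⁻¹ := by (set_option synthInstance.maxSize 20000 in open scoped Cfsg.Agent.Lib.MatDec in decide +kernel)
      rw [h9]
      simp

section main

variable {p : ℕ} [Fact p.Prime] {V : Type u} [AddCommGroup V] [Module (ZMod p) V]

/-- an element of the enveloping algebra that commutes with the group is zero or injective -/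
theorem fs3 {e : SL25 →* (V ≃ₗ[ZMod p] V)} (hom : FaithSub e.range) {f : Module.End (ZMod p) V}
    (hf : f ∈ Algebra.adjoin (ZMod p) (Set.range fun x => (e x : V →ₗ[ZMod p] V))) {W : Submodule (ZMod p) V}
    (hW : W ≠ ⊥) (hi : ∀ x, ∀ w ∈ W, e x w ∈ W) (hfw : ∀ w ∈ W, f w = 0) : f = 0 := by
  refine hom W hW ?_ f ?_ hfw
  · rintro _ ⟨x, rfl⟩ w hw
    exact hi x w hw
  · convert hf using 2
    ext g
    constructor
    · rintro ⟨_, ⟨x, rfl⟩, rfl⟩
      exact ⟨x, rfl⟩
    · rintro ⟨x, rfl⟩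
      exact ⟨e x, ⟨x, rfl⟩, rfl⟩

/-- `-1` acts as `-1` -/
theorem neg_act {e : SL25 →* (V ≃ₗ[ZMod p] V)} (he : Function.Injective e) (hom : FaithSub e.range) (v : V) :
    e (-1) v = -v := by
  by_contra h
  have hmem : ∀ x, (e x : V →ₗ[ZMod p] V) ∈ Algebra.adjoin (ZMod p) (Set.range fun x => (e x : V →ₗ[ZMod p] V)) :=
    fun x => Algebra.subset_adjoin ⟨x, rfl⟩
  let W : Submodule (ZMod p) V := LinearMap.ker ((e (-1) : V →ₗ[ZMod p] V) - 1)
  have hWm : ∀ w, w ∈ W ↔ e (-1) w = w := by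
    intro w
    rw [LinearMap.mem_ker, LinearMap.sub_apply, sub_eq_zero]
    rfl
  have hee : ∀ (x y : SL25) (w : V), e x (e y w) = e (x * y) w := by
    intro x y w
    rw [map_mul]; rfl
  have h1 : e (-1) v + v ∈ W := by
    rw [hWm, map_add, hee]
    have : (-1 : SL25) * -1 = 1 := by simp
    rw [this, map_one]
    exact add_comm _ _
  have h0 : e (-1) v + v ≠ 0 := fun h2 => h (eq_neg_of_add_eq_zero_left h2)
  have h2 := fs3 hom (Subalgebra.sub_mem _ (hmem (-1)) (Subalgebra.one_mem _)) (W := W) (by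
      intro h3
      rw [h3, Submodule.mem_bot] at h1
      exact h0 h1) (by
      intro x w hw
      rw [hWm] at hw ⊢
      rw [hee]
      have : (-1 : SL25) * x = x * -1 := by simp
      rw [this, ← hee, hw]) (fun w hw => hw)
  apply neg_one_ne
  apply he
  rw [map_one]
  ext w
  have h3 := LinearMap.congr_fun h2 w
  rw [LinearMap.sub_apply, LinearMap.zero_apply, sub_eq_zero] at h3
  exact h3

theorem seven_le' {G : Subgroup (V ≃ₗ[ZMod p] V)} (hG : ¬ p ∣ Nat.card G)
    {e : SL25 →* (V ≃ₗ[ZMod p] V)} (he : Function.Injective e) (hL : ∀ x, e x ∈ G) : 7 ≤ p := by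
  have h1 : Nat.card SL25 ∣ Nat.card G := by
    have h2 : Function.Injective (e.codRestrict G hL) := by
      intro x y h
      exact he (congrArg Subtype.val h)
    exact Subgroup.card_dvd_of_injective _ h2
  rw [natCard] at h1
  have hp : p.Prime := Fact.out
  by_contra h
  have h3 : ¬ p ∣ 120 := fun h4 => hG (h4.trans h1)
  have h5 : p < 7 := by omega
  interval_cases p <;> first | exact h3 (by decide) | exact absurd hp (by decide)

/-- the restriction to an invariant subspace -/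
def res (e : SL25 →* (V ≃ₗ[ZMod p] V)) (W : Submodule (ZMod p) V) (hi : ∀ x, ∀ w ∈ W, e x w ∈ W) :
    SL25 →* Module.End (ZMod p) W where
  toFun x := (e x : V →ₗ[ZMod p] V).restrict (hi x)
  map_one' := by
    ext w
    rw [LinearMap.coe_restrict_apply, map_one]
    rfl
  map_mul' x y := by
    ext w
    rw [LinearMap.coe_restrict_apply, map_mul]
    rfl

theorem res_apply (e : SL25 →* (V ≃ₗ[ZMod p] V)) (W : Submodule (ZMod p) V) (hi : ∀ x, ∀ w ∈ W, e x w ∈ W)
    (x : SL25) (w : W) : (res e W hi x w : V) = e x w := rfl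

variable [Finite V]

/-- (I) elements of order three have no fixed vectors -/
theorem three_free {G : Subgroup (V ≃ₗ[ZMod p] V)} {h : ℕ} (hG : ¬ p ∣ Nat.card G) (hh : Half G h) (_h2 : 2 ≤ h)
    (e : SL25 →* (V ≃ₗ[ZMod p] V)) (he : Function.Injective e) (hL : ∀ x, e x ∈ G)
    (hn : ∀ g ∈ G, ∀ x, ∃ y, g * e x * g⁻¹ = e y) (hom : FaithSub e.range) :
    ∀ x, x * x * x = 1 → x ≠ 1 → ∀ v, e x v = v → v = 0 := by
  intro x0 hx0 hx01 v0 hv0
  by_contra hv00
  have hp7 := seven_le' hG he hL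
  have hmem : ∀ x, (e x : V →ₗ[ZMod p] V) ∈ Algebra.adjoin (ZMod p) (Set.range fun x => (e x : V →ₗ[ZMod p] V)) :=
    fun x => Algebra.subset_adjoin ⟨x, rfl⟩
  have hneg := neg_act he hom
  have hee : ∀ (x y : SL25) (w : V), e x (e y w) = e (x * y) w := by
    intro x y w
    rw [map_mul]; rfl
  -- an irreducible submodule
  obtain ⟨W, ⟨hWne, hi⟩, hmin⟩ : ∃ W : Submodule (ZMod p) V, Minimal (fun W : Submodule (ZMod p) V => W ≠ ⊥ ∧
      ∀ x, ∀ w ∈ W, e x w ∈ W) W := by
    apply exists_minimal_of_wellFoundedLT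
    refine ⟨⊤, ?_, fun _ _ _ => trivial⟩
    intro h3
    apply hv00
    rw [← Submodule.mem_bot (ZMod p), ← h3]
    trivial
  -- submodules of `W`
  have hsub : ∀ U : Submodule (ZMod p) V, (∀ x, ∀ w ∈ U, e x w ∈ U) → (∃ u, u ≠ 0 ∧ u ∈ U ∧ u ∈ W) → W ≤ U := by
    rintro U hU ⟨u, hu0, huU, huW⟩
    refine le_trans (hmin (y := W ⊓ U) ⟨?_, ?_⟩ inf_le_left) inf_le_right
    · intro h3
      apply hu0
      rw [← Submodule.mem_bot (ZMod p), ← h3]
      exact ⟨huW, huU⟩
    · intro x w hw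
      exact ⟨hi x w hw.1, hU x w hw.2⟩
  have hirr : Irr (res e W hi) := by
    intro U hU
    by_cases hU0 : U = ⊥
    · exact Or.inl hU0
    · right
      obtain ⟨u, huU, hu0⟩ := Submodule.exists_mem_ne_zero_of_ne_bot hU0
      have h3 := hsub (U.map W.subtype) (by
        rintro x _ ⟨w, hw, rfl⟩
        exact ⟨res e W hi x w, hU x w hw, rfl⟩) ⟨u, by simpa using hu0, ⟨u, huU, rfl⟩, u.2⟩
      rw [eq_top_iff]
      intro w _
      obtain ⟨w', hw', hww⟩ := h3 w.2
      have : w' = w := Subtype.ext hww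
      rw [← this]; exact hw'
  have hnegW : res e W hi (-1) = -1 := by
    ext w
    rw [res_apply, hneg]
    rfl
  -- `x0` has a fixed vector in `W`
  have hfix : ∃ w1 ∈ W, w1 ≠ 0 ∧ e x0 w1 = w1 := by
    by_contra hc
    push Not at hc
    have h3 : ∀ w ∈ W, ((e x0 : V →ₗ[ZMod p] V) * (e x0 : V →ₗ[ZMod p] V) + (e x0 : V →ₗ[ZMod p] V) + 1) w = 0 := by
      intro w hw
      by_contra h4
      have h5 : ((e x0 : V →ₗ[ZMod p] V) * (e x0 : V →ₗ[ZMod p] V) + (e x0 : V →ₗ[ZMod p] V) + 1) w =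
        e x0 (e x0 w) + e x0 w + w := rfl
      rw [h5] at h4
      apply hc _ ?_ h4
      · rw [map_add, map_add, hee, hee, hee, hx0, map_one]
        change w + e (x0 * x0) w + e x0 w = _
        abel
      · exact W.add_mem (W.add_mem (hi _ _ (hi _ _ hw)) (hi _ _ hw)) hw
    have h4 := fs3 hom (Subalgebra.add_mem _ (Subalgebra.add_mem _ (Subalgebra.mul_mem _ (hmem x0) (hmem x0))
      (hmem x0)) (Subalgebra.one_mem _)) hWne hi h3
    have h5 := LinearMap.congr_fun h4 v0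
    have h6 : e x0 (e x0 v0) + e x0 v0 + v0 = 0 := h5
    rw [hv0, hv0] at h6
    have h7 : (3 : ZMod p) • v0 = 0 := by
      rw [← h6]
      module
    exact hv00 ((smul_eq_zero.1 h7).resolve_left (three_ne hp7))
  obtain ⟨w1, hw1W, hw10, hw1⟩ := hfix
  -- the stabilisers
  let A : Subgroup G := (Subgroup.centralizer (Set.range e)).subgroupOf G
  have hA : ∀ g : G, g ∈ A ↔ ∀ x, e x * (g : V ≃ₗ[ZMod p] V) = g * e x := by
    intro g
    rw [Subgroup.mem_subgroupOf, Subgroup.mem_centralizer_iff]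
    constructor
    · intro h3 x
      exact h3 _ ⟨x, rfl⟩
    · rintro h3 _ ⟨x, rfl⟩
      exact h3 x
  have hAn : A.Normal := by
    constructor
    intro a ha g
    rw [hA] at ha ⊢
    intro x
    obtain ⟨y, hy⟩ := hn _ (G.inv_mem g.2) x
    have h3 : e x = g * e y * (g : V ≃ₗ[ZMod p] V)⁻¹ := by rw [← hy]; group
    have h4 := ha y
    rw [Subgroup.coe_mul, Subgroup.coe_mul, Subgroup.coe_inv, h3]
    calc (g : V ≃ₗ[ZMod p] V) * e y * (g : V ≃ₗ[ZMod p] V)⁻¹ * (g * a * (g : V ≃ₗ[ZMod p] V)⁻¹) =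
        g * (e y * a) * (g : V ≃ₗ[ZMod p] V)⁻¹ := by group
      _ = g * (a * e y) * (g : V ≃ₗ[ZMod p] V)⁻¹ := by rw [h4]
      _ = _ := by group
  -- an element of the centralizer that fixes a vector of `W` fixes all of them
  have hAW : ∀ g : V ≃ₗ[ZMod p] V, (∀ x, e x * g = g * e x) → ∀ v ∈ W, v ≠ 0 → g v = v → ∀ w ∈ W, g w = w := by
    intro g hg v hvW hv hgv
    have h3 := hsub (LinearMap.ker ((g : V →ₗ[ZMod p] V) - 1)) (by
      intro x w hw
      rw [LinearMap.mem_ker, LinearMap.sub_apply, sub_eq_zero] at hw ⊢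
      have h4 : g w = w := hw
      have h5 : e x (g w) = g (e x w) := by
        change (e x * g) w = (g * e x) w
        rw [hg]
      change g (e x w) = e x w
      rw [← h5, h4]) ⟨v, hv, by
      rw [LinearMap.mem_ker, LinearMap.sub_apply, sub_eq_zero]
      exact hgv, hvW⟩
    intro w hw
    have h4 := h3 hw
    rw [LinearMap.mem_ker, LinearMap.sub_apply, sub_eq_zero] at h4
    exact h4
  have hcardA : ∀ v ∈ W, v ≠ 0 → Nat.card (A.subgroupOf (MulAction.stabilizer G v)) =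
      Nat.card (A.subgroupOf (MulAction.stabilizer G w1)) := by
    intro v hvW hv
    refine Nat.card_congr ⟨fun a => ⟨⟨a.1.1, ?_⟩, a.2⟩, fun a => ⟨⟨a.1.1, ?_⟩, a.2⟩, fun a => rfl, fun a => rfl⟩
    · exact hAW _ ((hA _).1 a.2) v hvW hv a.1.2 w1 hw1W
    · exact hAW _ ((hA _).1 a.2) w1 hw1W hw10 a.1.2 v hvW
  have hq : ∀ v ∈ W, v ≠ 0 → 3 ∣ Nat.card (MulAction.stabilizer G v ⧸ A.subgroupOf (MulAction.stabilizer G v)) := by
    intro v hvW hv
    have h3 : Nat.card (MulAction.stabilizer G v ⧸ A.subgroupOf (MulAction.stabilizer G v)) =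
        Nat.card (MulAction.stabilizer G w1 ⧸ A.subgroupOf (MulAction.stabilizer G w1)) := by
      have h4 := Subgroup.card_eq_card_quotient_mul_card_subgroup (A.subgroupOf (MulAction.stabilizer G v))
      have h5 := Subgroup.card_eq_card_quotient_mul_card_subgroup (A.subgroupOf (MulAction.stabilizer G w1))
      rw [hh v hv, hcardA v hvW hv] at h4
      rw [hh w1 hw10] at h5
      exact Nat.eq_of_mul_eq_mul_right Nat.card_pos (h4.symm.trans h5)
    rw [h3]
    let g0 : MulAction.stabilizer G w1 := ⟨⟨e x0, hL x0⟩, hw1⟩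
    have h4 : orderOf (QuotientGroup.mk' (A.subgroupOf (MulAction.stabilizer G w1)) g0) = 3 := by
      apply orderOf_eq_prime
      · rw [← map_pow]
        have : g0 ^ 3 = 1 := by
          apply Subtype.ext
          apply Subtype.ext
          change e x0 ^ 3 = 1
          rw [← map_pow, pow_three', hx0, map_one]
        simp only [this, map_one]
      · intro h5
        rw [QuotientGroup.mk'_apply, QuotientGroup.eq_one_iff] at h5
        have h6 := (hA _).1 (Subgroup.mem_subgroupOf.1 h5)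
        have h7 : ∀ x, x * x0 = x0 * x := by
          intro x
          apply he
          rw [map_mul, map_mul]
          exact h6 x
        rcases mem_center_iff x0 ⟨(h7 S).symm, (h7 T).symm⟩ with h8 | h8
        · exact hx01 h8
        · rw [h8] at hx0
          revert hx0
          decide +kernel
    rw [← h4]
    exact orderOf_dvd_natCard _
  -- the covering
  apply cover_contra (ρ := res e W hi) hp7 hnegW hirr hx0 hx01 (v := ⟨w1, hw1W⟩)
  · intro h3
    exact hw10 (congrArg Subtype.val h3)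
  · apply Subtype.ext
    exact hw1
  rintro ⟨v, hvW⟩ hv'
  have hv : v ≠ 0 := fun h3 => hv' (Subtype.ext h3)
  have h3 := hq v hvW hv
  have : Fact (Nat.Prime 3) := ⟨Nat.prime_three⟩
  obtain ⟨q, hq3⟩ := exists_prime_orderOf_dvd_card' 3 h3
  obtain ⟨g, rfl⟩ := QuotientGroup.mk'_surjective _ q
  have hg3 : g.1 * g.1 * g.1 ∈ A := by
    have h4 := pow_orderOf_eq_one (QuotientGroup.mk' (A.subgroupOf (MulAction.stabilizer G v)) g)
    simp_rw [hq3, ← map_pow, QuotientGroup.mk'_apply, QuotientGroup.eq_one_iff, Subgroup.mem_subgroupOf, pow_three'] at h4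
    exact h4
  have hg1 : g.1 ∉ A := by
    intro h4
    have h5 : QuotientGroup.mk' (A.subgroupOf (MulAction.stabilizer G v)) g = 1 := by
      rw [QuotientGroup.mk'_apply, QuotientGroup.eq_one_iff, Subgroup.mem_subgroupOf]
      exact h4
    rw [h5, orderOf_one] at hq3
    omega
  have hgv : (g.1.1 : V ≃ₗ[ZMod p] V) v = v := g.2
  obtain ⟨k, hk⟩ : ∃ k : V ≃ₗ[ZMod p] V, (g.1.1 : V ≃ₗ[ZMod p] V) = k := ⟨_, rfl⟩
  have hkG : k ∈ G := hk ▸ g.1.2
  rw [hk] at hgv
  have hk3 : ∀ x, e x * (k * k * k) = k * k * k * e x := by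
    rw [← hk]; exact (hA _).1 hg3
  have hk1 : ∃ x, e x * k ≠ k * e x := by
    by_contra hc
    push Not at hc
    rw [← hk] at hc
    exact hg1 ((hA _).2 hc)
  -- the automorphism
  choose f hf using hn k hkG
  let ψ : SL25 →* SL25 :=
    { toFun := f
      map_one' := by
        apply he
        rw [← hf, map_one]; group
      map_mul' := by
        intro x y
        apply he
        rw [map_mul, ← hf, ← hf, ← hf, map_mul]; group }
  have hψ : ∀ x, e (ψ x) = k * e x * k⁻¹ := fun x => (hf x).symm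
  obtain ⟨y, hy3, hy1, hy⟩ := aut_three ψ (by
      intro x x' hxx
      apply he
      have h4 := congrArg e hxx
      rw [hψ, hψ] at h4
      exact mul_left_cancel (mul_right_cancel h4)) (by
      apply he
      rw [hψ]
      have h4 : k * e (-1) = e (-1) * k := by
        ext w
        change k (e (-1) w) = e (-1) (k w)
        rw [hneg, hneg, map_neg]
      rw [h4]; group) (by
      intro x
      apply he
      rw [hψ, hψ, hψ]
      have h4 := hk3 x
      calc k * (k * (k * e x * k⁻¹) * k⁻¹) * k⁻¹ = (k * k * k * e x) * (k * k * k)⁻¹ := by group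
        _ = e x := by rw [← h4]; group) (by
      obtain ⟨x, hx⟩ := hk1
      refine ⟨x, fun h4 => hx ?_⟩
      have h5 := hψ x
      rw [h4] at h5
      nth_rewrite 1 [h5]
      group)
  -- the centralising part
  obtain ⟨a, ha⟩ : ∃ a : V ≃ₗ[ZMod p] V, a = (e y)⁻¹ * k := ⟨_, rfl⟩
  have hka : k = e y * a := by rw [ha]; group
  have hac : ∀ x, e x * a = a * e x := by
    intro x
    have h4 := hψ x
    rw [hy, map_mul, map_mul, map_inv, hka] at h4
    calc e x * a = (e y)⁻¹ * (e y * e x * (e y)⁻¹) * (e y * a) := by group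
      _ = _ := by rw [h4]; group
  have hcomm : ∀ (x : SL25) (w : V), e x (a w) = a (e x w) := by
    intro x w
    change (e x * a) w = (a * e x) w
    rw [hac]
  have hav : a v = e y⁻¹ v := by
    rw [ha, map_inv]
    change (e y)⁻¹ (k v) = (e y)⁻¹ v
    rw [hgv]
  have haW : ∀ w ∈ W, a w ∈ W := by
    have h4 := hsub (W.comap (a : V →ₗ[ZMod p] V)) (by
      intro x w hw
      rw [Submodule.mem_comap] at hw ⊢
      change a (e x w) ∈ W
      rw [← hcomm]
      exact hi x _ hw) ⟨v, hv, by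
      rw [Submodule.mem_comap]
      change a v ∈ W
      rw [hav]
      exact hi _ _ hvW, hvW⟩
    intro w hw
    exact h4 hw
  have hk3a : k * k * k = a * a * a := by
    have h4 : e y * e y * e y = 1 := by rw [← map_mul, ← map_mul, hy3, map_one]
    have h5 := hac y
    calc k * k * k = e y * (a * e y) * (a * e y) * a := by rw [hka]; group
      _ = e y * (e y * a) * (e y * a) * a := by rw [← h5]
      _ = e y * e y * (a * e y) * a * a := by group
      _ = e y * e y * (e y * a) * a * a := by rw [← h5]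
      _ = (e y * e y * e y) * (a * a * a) := by group
      _ = _ := by rw [h4, one_mul]
  have ha3 : ∀ w ∈ W, a (a (a w)) = w := by
    have h4 := hAW (k * k * k) hk3 v hvW hv (by
      change k (k (k v)) = v
      rw [hgv, hgv, hgv])
    intro w hw
    have h5 := h4 w hw
    rw [hk3a] at h5
    exact h5
  refine ⟨y⁻¹, (a : V →ₗ[ZMod p] V).restrict haW, ?_, by simpa using hy1, ⟨?_, ?_⟩, ?_⟩
  · have : y⁻¹ * y⁻¹ * y⁻¹ = (y * y * y)⁻¹ := by group
    rw [this, hy3, inv_one]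
  · intro x
    ext w
    exact hcomm x w
  · ext w
    exact ha3 w w.2
  · apply Subtype.ext
    exact hav.symm

end main

end Cfsg.Agent.H432.HT
end

-- part: H312/HT/Row
section
/-!
# S3540: the row of a normal subgroup `SL(2,5)` (helper312)
-/

set_option autoImplicit false

namespace Cfsg.Agent.H312.HT

universe u

/-- **a normal subgroup `SL(2,5)`** -/
theorem sl5row : Cfsg.Agent.H960.HT.SL5Row.{u} :=
  sl25_of fun _ _ _ _ _ _ _ _ hG hh h2 e he hL hn hom => Cfsg.Agent.H432.HT.three_free hG hh h2 e he hL hn hom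

end Cfsg.Agent.H312.HT
end

private theorem dce_ed3a6daeacbd : _root_.True := by
  try have : _root_.True := by simp only [_root_.Cfsg.Agent.H432.HT.F.eq_1]
  try have : _root_.True := by simp only [_root_.Cfsg.Agent.H432.HT.mm.eq_1]
  try have : _root_.True := by simp only [_root_.Cfsg.Agent.H432.HT.b0.eq_1]
  try have : _root_.True := by simp only [_root_.Cfsg.Agent.H432.HT.a0.eq_1]
  try have : _root_.True := by simp only [_root_.Cfsg.Agent.H432.HT.co.congr_simp]
  exact _root_.True.intro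
end
end
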